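import Mathlib
import Cfsg.Prelude.Def_Blocks
import Cfsg.Prelude.Def_Characters
import Cfsg.Agent.H21.BRDefs

/-!
# S0997 (Brauer–Tuan: simple groups of order `p * q ^ b * g₀`, `g₀ < p - 1`): exact statements
of the team pieces (helper74)

Plan.  `G` simple non-cyclic, `|G| = p q^b g₀`, `g₀ < p - 1`, `P` a Sylow `p`-subgroup (order `p`).
* SMALL1/SMALL2: some non-principal character of the principal `p`-block has degree `< p - 1`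
  (S4441, relation at `1` modulo `q`), hence `C(P) = P` (S4729) and `e = |N(P):P| < p - 1`.
* ARITH1/ARITH2 (inside `B0Data`): the exceptional degree `f0` is `e` (type A, sign `+1`) or
  `p - e` (type B, sign `-1`); in type B: `q = 2`, `g₀ = p - e` and `e = 2` (B1) or
  `2 e = p - 1`, `4 ∣ e` (B2).
* type A: `H4.Prq.typeA` gives `2 e = p - 1`, then S4504.
* B1 (`e = 2`, exceptional degree `p - 2`): class constants of an involution inverting `P`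
  give `p (p - 2) |C(τ₀)|² = |G| (p - 1)` and one class of involutions; Sylow ⟹ `|G| < p³`.
* B2 (`2 e = p - 1`, exceptional degree `e + 1`): `θ₁ θ₂ = St + Φ`, `θ₁² = 1 + θ₁ + St + Ψ`,
  class constants and moments give `|G| = 2 p e (e + 1) < p³`.
* `|G| < p³` ⟹ S0999.
-/

set_option autoImplicit false

namespace Cfsg.Agent.H74.BT

open Cfsg Cfsg.Agent.H21.BR
open scoped ComplexConjugate

universe u

/-! ## General part -/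

/-- SMALL1: a non-principal character of small degree in the principal block (from S4441). -/
def StSmall1 : Prop :=
  ∀ (G : Type u) [Group G] [Finite G] [IsSimpleGroup G], ¬ IsCyclic G →
  ∀ (p q b g₀ : ℕ) [Fact p.Prime], q.Prime → p ≠ q → p ≠ 2 →
    Nat.card G = p * q ^ b * g₀ → g₀ < p - 1 →
  ∀ (M : Ideal AlgInt), IsPModular p M →
  ∀ (P : Sylow p G), Nat.card (P : Subgroup G) = p →
    (∃ χ : IrrCharacter G, χ ∈ principalBlock M G ∧ χ ≠ one G ∧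
      charDegree (χ : G → ℂ) < p - 1) ∧
    (Subgroup.centralizer ((P : Subgroup G) : Set G)).relIndex
      (Subgroup.normalizer ((P : Subgroup G) : Set G)) ≠ p - 1

/-- SMALL2: a non-principal character of degree `< 2 p` in the principal block of a simple
group forces `C(P) = P` (from S4729). -/
def StSmall2 : Prop :=
  ∀ (G : Type u) [Group G] [Finite G] [IsSimpleGroup G], ¬ IsCyclic G →
  ∀ (p : ℕ) [Fact p.Prime] (M : Ideal AlgInt), IsPModular p M →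
  ∀ (P : Sylow p G), Nat.card (P : Subgroup G) = p →
  ∀ χ : IrrCharacter G, χ ∈ principalBlock M G → χ ≠ one G →
    charDegree (χ : G → ℂ) < 2 * p →
    Subgroup.centralizer ((P : Subgroup G) : Set G) = (P : Subgroup G)

/-- ARITH1: the non-exceptional degrees are divisible by `q`; the exceptional degree divides
`g₀` and is `e` (sign `+1`) or `p - e` (sign `-1`). -/
def StArith1 : Prop :=
  ∀ (G : Type u) [Group G] [Finite G] (p q b g₀ e : ℕ) [Fact p.Prime], q.Prime → p ≠ q →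
    Nat.card G = p * q ^ b * g₀ → g₀ < p - 1 → 2 ≤ e → 2 * e ≤ p - 1 →
  ∀ (P : Subgroup G) (X Y : Finset (IrrCharacter G)) (δ : IrrCharacter G → ℤ) (ε : ℤ),
    B0Data p P e X Y δ ε →
  ∀ f0 : ℕ, (∀ θ ∈ Y, charDegree (θ : G → ℂ) = f0) →
    ε * (f0 : ℤ) = ∑ χ ∈ X, δ χ * (charDegree (χ : G → ℂ) : ℤ) →
    (∀ χ ∈ X, χ ≠ one G → q ∣ charDegree (χ : G → ℂ)) ∧ f0 ∣ g₀ ∧
      ((ε = 1 ∧ f0 = e) ∨ (ε = -1 ∧ f0 = p - e))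

/-- ARITH2: type B arithmetic. -/
def StArith2 : Prop :=
  ∀ (G : Type u) [Group G] [Finite G] (p q b g₀ e : ℕ) [Fact p.Prime], q.Prime → p ≠ q →
    Nat.card G = p * q ^ b * g₀ → g₀ < p - 1 → 2 ≤ e → e ∣ p - 1 → 2 * e ≤ p - 1 →
    p * e ∣ Nat.card G →
  ∀ (P : Subgroup G) (X Y : Finset (IrrCharacter G)) (δ : IrrCharacter G → ℤ),
    B0Data p P e X Y δ (-1) →
    (∀ θ ∈ Y, charDegree (θ : G → ℂ) = p - e) →
    -((p - e : ℕ) : ℤ) = ∑ χ ∈ X, δ χ * (charDegree (χ : G → ℂ) : ℤ) →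
    (∀ χ ∈ X, χ ≠ one G → q ∣ charDegree (χ : G → ℂ)) → p - e ∣ g₀ →
    q = 2 ∧ g₀ = p - e ∧ (e = 2 ∨ (2 * e = p - 1 ∧ 4 ∣ e))

/-- ARITHFIN: `(p - 1) (p + 1) / 2 = q ^ b g₀` with `g₀ < p - 1` forces `p = 2 ^ m ± 1`. -/
def StArithFin : Prop :=
  ∀ (p q b g₀ : ℕ), p.Prime → p ≠ 2 → q.Prime → 2 * (q ^ b * g₀) = (p - 1) * (p + 1) →
    g₀ < p - 1 → ∃ m : ℕ, p = 2 ^ m + 1 ∨ p = 2 ^ m - 1

/-! ## Case B1: `e = 2`, exceptional degree `p - 2` -/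

/-- B1TAU: the values at an involution inverting `P`. -/
def StB1Tau : Prop :=
  ∀ (G : Type u) [Group G] [Finite G] (p : ℕ) [Fact p.Prime] (P : Subgroup G), Nat.card P = p →
  ∀ (X Y : Finset (IrrCharacter G)) (δ : IrrCharacter G → ℤ), B0Data p P 2 X Y δ (-1) →
    (∀ θ ∈ Y, charDegree (θ : G → ℂ) = p - 2) →
  ∀ τ₀ : G, orderOf τ₀ = 2 → (∀ x ∈ P, τ₀ * x * τ₀⁻¹ = x⁻¹) →
    (∀ χ ∈ X, χ ≠ one G → (χ : G → ℂ) τ₀ = 0) ∧ (∀ θ ∈ Y, (θ : G → ℂ) τ₀ = -1)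

/-- B1ORD: the order formula. -/
def StB1Ord : Prop :=
  ∀ (G : Type u) [Group G] [Finite G] (p : ℕ) [Fact p.Prime] (P : Sylow p G),
    Nat.card (P : Subgroup G) = p →
    Subgroup.centralizer ((P : Subgroup G) : Set G) = (P : Subgroup G) →
  ∀ (X Y : Finset (IrrCharacter G)) (δ : IrrCharacter G → ℤ),
    B0Data p (P : Subgroup G) 2 X Y δ (-1) →
    (∀ θ ∈ Y, charDegree (θ : G → ℂ) = p - 2) →
    (∀ x ∈ (P : Subgroup G), x ≠ 1 → ∑ θ ∈ Y, (θ : G → ℂ) x = 1) →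
  ∀ τ₀ : G, orderOf τ₀ = 2 → (∀ x ∈ (P : Subgroup G), τ₀ * x * τ₀⁻¹ = x⁻¹) →
    (∀ χ ∈ X, χ ≠ one G → (χ : G → ℂ) τ₀ = 0) → (∀ θ ∈ Y, (θ : G → ℂ) τ₀ = -1) →
    p * (p - 2) * Nat.card (Subgroup.centralizer ({τ₀} : Set G)) ^ 2 = Nat.card G * (p - 1)

/-- B1CLASS: all involutions are conjugate to `τ₀`. -/
def StB1Class : Prop :=
  ∀ (G : Type u) [Group G] [Finite G] (p : ℕ) [Fact p.Prime] (P : Sylow p G),
    Nat.card (P : Subgroup G) = p →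
    Subgroup.centralizer ((P : Subgroup G) : Set G) = (P : Subgroup G) →
  ∀ (X Y : Finset (IrrCharacter G)) (δ : IrrCharacter G → ℤ),
    B0Data p (P : Subgroup G) 2 X Y δ (-1) →
    (∀ θ ∈ Y, charDegree (θ : G → ℂ) = p - 2) →
    (∀ x ∈ (P : Subgroup G), x ≠ 1 → ∑ θ ∈ Y, (θ : G → ℂ) x = 1) →
    (∀ θ ∈ Y, ∀ g : G, (θ : G → ℂ) g = (θ : G → ℂ) 1 → g = 1) →
  ∀ τ₀ : G, orderOf τ₀ = 2 → (∀ x ∈ (P : Subgroup G), τ₀ * x * τ₀⁻¹ = x⁻¹) →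
    (∀ χ ∈ X, χ ≠ one G → (χ : G → ℂ) τ₀ = 0) → (∀ θ ∈ Y, (θ : G → ℂ) τ₀ = -1) →
    ∀ z : G, orderOf z = 2 → ∃ g : G, g * τ₀ * g⁻¹ = z

/-- B1SYL: Sylow argument. -/
def StB1Syl : Prop :=
  ∀ (G : Type u) [Group G] [Finite G] (p b : ℕ), p.Prime → p ≠ 2 →
    Nat.card G = p * 2 ^ b * (p - 2) →
  ∀ τ₀ : G, orderOf τ₀ = 2 → (∀ z : G, orderOf z = 2 → ∃ g : G, g * τ₀ * g⁻¹ = z) →
    p * (p - 2) * Nat.card (Subgroup.centralizer ({τ₀} : Set G)) ^ 2 = Nat.card G * (p - 1) →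
    Nat.card G < p ^ 3

/-! ## Case B2: `2 e = p - 1`, `4 ∣ e`, exceptional degree `e + 1` -/

/-- The situation of case B2 (`P` of order `p`, self-centralizing; `Y = {θ₁, θ₂}`). -/
structure B2Base {G : Type u} [Group G] (p e : ℕ) (P : Subgroup G)
    (X Y : Finset (IrrCharacter G)) (δ : IrrCharacter G → ℤ) (θ₁ θ₂ : IrrCharacter G) : Prop where
  cardP : Nat.card P = p
  he : 2 * e = p - 1
  he4 : 4 ∣ e
  b0 : B0Data p P e X Y δ (-1)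
  hne : θ₁ ≠ θ₂
  hY : ∀ θ : IrrCharacter G, θ ∈ Y ↔ θ = θ₁ ∨ θ = θ₂
  deg₁ : charDegree (θ₁ : G → ℂ) = e + 1
  deg₂ : charDegree (θ₂ : G → ℂ) = e + 1
  hsum : ∀ x ∈ P, x ≠ 1 → (θ₁ : G → ℂ) x + (θ₂ : G → ℂ) x = 1
  hprod : ∀ x ∈ P, x ≠ 1 → 2 * ((θ₁ : G → ℂ) x * (θ₂ : G → ℂ) x) = -(e : ℂ)
  real₁ : ∀ x ∈ P, conj ((θ₁ : G → ℂ) x) = (θ₁ : G → ℂ) x
  real₂ : ∀ x ∈ P, conj ((θ₂ : G → ℂ) x) = (θ₂ : G → ℂ) x
  sing : ∀ g : G, p ∣ orderOf g → ∃ h : G, h * g * h⁻¹ ∈ P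
  even : ∀ χ ∈ X, χ ≠ one G → 2 ∣ charDegree (χ : G → ℂ)
  rel1 : -((e : ℤ) + 1) = ∑ χ ∈ X, δ χ * (charDegree (χ : G → ℂ) : ℤ)

/-- The structure of the principal block in case B2 (`St` the character of degree `p`). -/
structure B2Str {G : Type u} [Group G] (p e : ℕ) (X Y : Finset (IrrCharacter G))
    (δ : IrrCharacter G → ℤ) (θ₁ θ₂ St : IrrCharacter G) : Prop where
  notX : St ∉ X
  notY : St ∉ Y
  degSt : charDegree (St : G → ℂ) = p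
  degPlus : ∀ χ ∈ plusSet X δ, charDegree (χ : G → ℂ) = p + 1
  degMinus : ∀ ψ ∈ minusSet X δ, charDegree (ψ : G → ℂ) = p - 1
  cardMinus : 2 * (minusSet X δ).card = e
  cardPlus : 2 * ((plusSet X δ).card + 1) = e
  prod12 : ∀ g : G, (θ₁ : G → ℂ) g * (θ₂ : G → ℂ) g =
    (St : G → ℂ) g + ∑ ψ ∈ minusSet X δ, (ψ : G → ℂ) g
  sq₁ : ∀ g : G, (θ₁ : G → ℂ) g * (θ₁ : G → ℂ) g =
    1 + (θ₁ : G → ℂ) g + (St : G → ℂ) g + ∑ χ ∈ plusSet X δ, (χ : G → ℂ) g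
  sq₂ : ∀ g : G, (θ₂ : G → ℂ) g * (θ₂ : G → ℂ) g =
    1 + (θ₂ : G → ℂ) g + (St : G → ℂ) g + ∑ χ ∈ plusSet X δ, (χ : G → ℂ) g

/-- The sum of `F` over the `p`-regular elements. -/
noncomputable def regSum {G : Type u} [Group G] (p : ℕ) (F : G → ℂ) : ℂ :=
  ∑ᶠ g : G, if p ∣ orderOf g then 0 else F g

/-- B2SING: every `p`-singular element is conjugate into `P`. -/
def StB2Sing : Prop :=
  ∀ (G : Type u) [Group G] [Finite G] (p : ℕ) [Fact p.Prime] (P : Sylow p G),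
    Nat.card (P : Subgroup G) = p →
    Subgroup.centralizer ((P : Subgroup G) : Set G) = (P : Subgroup G) →
    ∀ g : G, p ∣ orderOf g → ∃ h : G, h * g * h⁻¹ ∈ (P : Subgroup G)

/-- B2REAL: the exceptional characters are real on `P` and `2 θ₁ θ₂ = -e` on `P ∖ 1`. -/
def StB2Real : Prop :=
  ∀ (G : Type u) [Group G] [Finite G] (e : ℕ) (P : Subgroup G) (θ₁ θ₂ : IrrCharacter G),
    (∀ x ∈ P, x ≠ 1 → (θ₁ : G → ℂ) x + (θ₂ : G → ℂ) x = 1) →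
    (∀ x ∈ P, x ≠ 1 → (θ₁ : G → ℂ) x * conj ((θ₁ : G → ℂ) x) +
      (θ₂ : G → ℂ) x * conj ((θ₂ : G → ℂ) x) = (e : ℂ) + 1) →
  ∀ τ₀ : G, (∀ x ∈ P, τ₀ * x * τ₀⁻¹ = x⁻¹) →
    (∀ x ∈ P, conj ((θ₁ : G → ℂ) x) = (θ₁ : G → ℂ) x) ∧
    (∀ x ∈ P, conj ((θ₂ : G → ℂ) x) = (θ₂ : G → ℂ) x) ∧
    (∀ x ∈ P, x ≠ 1 → 2 * ((θ₁ : G → ℂ) x * (θ₂ : G → ℂ) x) = -(e : ℂ))

/-- B2TWO: the two classes of elements of order `p`: a pair of elements of `P ∖ 1` on which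
`θ₁, θ₂` are swapped, and the sums of `θ₁`, `θ₂` over `P`. -/
def StB2Two : Prop :=
  ∀ (G : Type u) [Group G] [Finite G] (p e : ℕ) [Fact p.Prime] (P : Subgroup G)
    (X Y : Finset (IrrCharacter G)) (δ : IrrCharacter G → ℤ) (θ₁ θ₂ : IrrCharacter G),
    B2Base p e P X Y δ θ₁ θ₂ →
    (∃ x₁ ∈ P, ∃ x₂ ∈ P, x₁ ≠ 1 ∧ x₂ ≠ 1 ∧ (θ₁ : G → ℂ) x₂ = (θ₂ : G → ℂ) x₁ ∧
      (θ₂ : G → ℂ) x₂ = (θ₁ : G → ℂ) x₁) ∧
    ∑ᶠ x : ↥P, (θ₁ : G → ℂ) (x : G) = (p : ℂ) ∧ ∑ᶠ x : ↥P, (θ₂ : G → ℂ) (x : G) = (p : ℂ)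

/-- B2INT: the exceptional characters are integral on `p`-regular elements. -/
def StB2Int : Prop :=
  ∀ (G : Type u) [Group G] [Finite G] (p e : ℕ) [Fact p.Prime] (P : Subgroup G)
    (X Y : Finset (IrrCharacter G)) (δ : IrrCharacter G → ℤ) (θ₁ θ₂ : IrrCharacter G),
    B2Base p e P X Y δ θ₁ θ₂ →
    ∀ g : G, ¬ p ∣ orderOf g → ∃ z : ℤ, (θ₁ : G → ℂ) g = (z : ℂ)

/-- B2PROD: the decomposition of `θ₁ θ₂`. -/
def StB2Prod : Prop :=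
  ∀ (G : Type u) [Group G] [Finite G] (p e : ℕ) [Fact p.Prime] (P : Subgroup G)
    (X Y : Finset (IrrCharacter G)) (δ : IrrCharacter G → ℤ) (θ₁ θ₂ : IrrCharacter G),
    B2Base p e P X Y δ θ₁ θ₂ →
    ∑ᶠ x : ↥P, (θ₁ : G → ℂ) (x : G) = (p : ℂ) → ∑ᶠ x : ↥P, (θ₂ : G → ℂ) (x : G) = (p : ℂ) →
    ∃ St : IrrCharacter G, St ∉ X ∧ St ∉ Y ∧ charDegree (St : G → ℂ) = p ∧
      ∃ m : IrrCharacter G → ℕ,
        (∀ g : G, (θ₁ : G → ℂ) g * (θ₂ : G → ℂ) g =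
          (St : G → ℂ) g + ∑ ψ ∈ minusSet X δ, (m ψ : ℂ) * (ψ : G → ℂ) g) ∧
        (∀ ψ ∈ minusSet X δ, m ψ ≠ 0 → charDegree (ψ : G → ℂ) = p - 1) ∧
        2 * ∑ ψ ∈ minusSet X δ, m ψ = e

/-- B2ID: the class function identity `θ² - θ₁ θ₂ = 1 + θ + Ψ - Φ` for `θ ∈ {θ₁, θ₂}`. -/
def StB2Id : Prop :=
  ∀ (G : Type u) [Group G] [Finite G] (p e : ℕ) [Fact p.Prime] (P : Subgroup G)
    (X Y : Finset (IrrCharacter G)) (δ : IrrCharacter G → ℤ) (θ₁ θ₂ : IrrCharacter G),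
    B2Base p e P X Y δ θ₁ θ₂ →
    ∀ θ ∈ Y, ∀ g : G, (θ : G → ℂ) g * (θ : G → ℂ) g - (θ₁ : G → ℂ) g * (θ₂ : G → ℂ) g =
      1 + (θ : G → ℂ) g + ∑ χ ∈ plusSet X δ, (χ : G → ℂ) g - ∑ ψ ∈ minusSet X δ, (ψ : G → ℂ) g

/-- B2STRUCT: the degrees and the products. -/
def StB2Struct : Prop :=
  ∀ (G : Type u) [Group G] [Finite G] (p e : ℕ) [Fact p.Prime] (P : Subgroup G)
    (X Y : Finset (IrrCharacter G)) (δ : IrrCharacter G → ℤ) (θ₁ θ₂ : IrrCharacter G),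
    B2Base p e P X Y δ θ₁ θ₂ →
    (∀ θ ∈ Y, ∀ g : G, (θ : G → ℂ) g * (θ : G → ℂ) g - (θ₁ : G → ℂ) g * (θ₂ : G → ℂ) g =
      1 + (θ : G → ℂ) g + ∑ χ ∈ plusSet X δ, (χ : G → ℂ) g -
        ∑ ψ ∈ minusSet X δ, (ψ : G → ℂ) g) →
  ∀ St : IrrCharacter G, St ∉ X → St ∉ Y → charDegree (St : G → ℂ) = p →
  ∀ m : IrrCharacter G → ℕ,
    (∀ g : G, (θ₁ : G → ℂ) g * (θ₂ : G → ℂ) g =
      (St : G → ℂ) g + ∑ ψ ∈ minusSet X δ, (m ψ : ℂ) * (ψ : G → ℂ) g) →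
    (∀ ψ ∈ minusSet X δ, m ψ ≠ 0 → charDegree (ψ : G → ℂ) = p - 1) →
    2 * ∑ ψ ∈ minusSet X δ, m ψ = e →
    B2Str p e X Y δ θ₁ θ₂ St

/-- B2GLOB: the values on all of `G`. -/
def StB2Glob : Prop :=
  ∀ (G : Type u) [Group G] [Finite G] (p e : ℕ) [Fact p.Prime] (P : Subgroup G)
    (X Y : Finset (IrrCharacter G)) (δ : IrrCharacter G → ℤ) (θ₁ θ₂ St : IrrCharacter G),
    B2Base p e P X Y δ θ₁ θ₂ → St ∉ X → St ∉ Y →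
    (∀ g : G, ¬ p ∣ orderOf g → ∃ z : ℤ, (θ₁ : G → ℂ) g = (z : ℂ)) →
    (∀ g : G, conj ((θ₁ : G → ℂ) g) = (θ₁ : G → ℂ) g) ∧
    (∀ g : G, conj ((θ₂ : G → ℂ) g) = (θ₂ : G → ℂ) g) ∧
    (∀ g : G, p ∣ orderOf g → (St : G → ℂ) g = 0 ∧
      (θ₁ : G → ℂ) g + (θ₂ : G → ℂ) g = 1 ∧
      2 * ((θ₁ : G → ℂ) g * (θ₂ : G → ℂ) g) = -(e : ℂ))

/-- B2POS: positivity of two class multiplication constants. -/
def StB2Pos : Prop :=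
  ∀ (G : Type u) [Group G] [Finite G] (p e : ℕ) [Fact p.Prime] (P : Subgroup G)
    (X Y : Finset (IrrCharacter G)) (δ : IrrCharacter G → ℤ) (θ₁ θ₂ St : IrrCharacter G),
    B2Base p e P X Y δ θ₁ θ₂ → B2Str p e X Y δ θ₁ θ₂ St →
    (∃ x₁ ∈ P, ∃ x₂ ∈ P, x₁ ≠ 1 ∧ x₂ ≠ 1 ∧ (θ₁ : G → ℂ) x₂ = (θ₂ : G → ℂ) x₁ ∧
      (θ₂ : G → ℂ) x₂ = (θ₁ : G → ℂ) x₁) →
    ∀ g : G, ¬ p ∣ orderOf g → ∀ t : ℤ, (θ₁ : G → ℂ) g = (t : ℂ) →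
      ∃ s : ℝ, (St : G → ℂ) g = (s : ℂ) ∧ s ≤ (t : ℝ) ^ 2 + (e : ℝ) * (t : ℝ) + (e : ℝ) ∧
        s ≤ (t : ℝ) ^ 2 - (e : ℝ) * (t : ℝ) + (e : ℝ)

/-- B2MOMSUM: the moments over the `p`-regular elements. -/
def StB2MomSum : Prop :=
  ∀ (G : Type u) [Group G] [Finite G] (p e : ℕ) [Fact p.Prime] (P : Subgroup G)
    (X Y : Finset (IrrCharacter G)) (δ : IrrCharacter G → ℤ) (θ₁ θ₂ St : IrrCharacter G),
    B2Base p e P X Y δ θ₁ θ₂ → B2Str p e X Y δ θ₁ θ₂ St →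
    (∀ g : G, conj ((θ₁ : G → ℂ) g) = (θ₁ : G → ℂ) g) →
    (∀ g : G, conj ((θ₂ : G → ℂ) g) = (θ₂ : G → ℂ) g) →
    (∀ g : G, conj ((St : G → ℂ) g) = (St : G → ℂ) g) →
    (∀ g : G, p ∣ orderOf g → (St : G → ℂ) g = 0 ∧
      (θ₁ : G → ℂ) g + (θ₂ : G → ℂ) g = 1 ∧
      2 * ((θ₁ : G → ℂ) g * (θ₂ : G → ℂ) g) = -(e : ℂ)) →
    (p : ℂ) * regSum p (fun g => (θ₁ : G → ℂ) g) = -(Nat.card G : ℂ) ∧
    (p : ℂ) * regSum p (fun g => (θ₁ : G → ℂ) g ^ 2) = (Nat.card G : ℂ) * (e : ℂ) ∧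
    2 * (p : ℂ) * regSum p (fun g => (θ₁ : G → ℂ) g ^ 3) = (Nat.card G : ℂ) * (e : ℂ) ∧
    2 * (p : ℂ) * regSum p (fun g => (θ₁ : G → ℂ) g ^ 4) =
      (Nat.card G : ℂ) * ((e : ℂ) ^ 2 + 5 * (e : ℂ) + 2) ∧
    regSum p (fun g => (St : G → ℂ) g * (θ₁ : G → ℂ) g) = 0 ∧
    regSum p (fun g => (St : G → ℂ) g * (θ₁ : G → ℂ) g ^ 2) = (Nat.card G : ℂ)

/-- B2MOMFIN: the final (purely numerical) argument. -/
def StB2MomFin : Prop :=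
  ∀ (G : Type u) [Group G] [Finite G] (p e : ℕ), 2 * e + 1 = p → 2 ≤ e →
  ∀ (T S : G → ℂ), T 1 = (e : ℂ) + 1 → S 1 = (p : ℂ) →
    (∀ g : G, ¬ p ∣ orderOf g → ∃ t : ℤ, T g = (t : ℂ) ∧ (g ≠ 1 → t ≤ (e : ℤ)) ∧
      ∃ s : ℝ, S g = (s : ℂ) ∧ s ≤ (t : ℝ) ^ 2 + (e : ℝ) * (t : ℝ) + (e : ℝ) ∧
        s ≤ (t : ℝ) ^ 2 - (e : ℝ) * (t : ℝ) + (e : ℝ)) →
    (p : ℂ) * regSum p (fun g => T g) = -(Nat.card G : ℂ) →
    (p : ℂ) * regSum p (fun g => T g ^ 2) = (Nat.card G : ℂ) * (e : ℂ) →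
    2 * (p : ℂ) * regSum p (fun g => T g ^ 3) = (Nat.card G : ℂ) * (e : ℂ) →
    2 * (p : ℂ) * regSum p (fun g => T g ^ 4) =
      (Nat.card G : ℂ) * ((e : ℂ) ^ 2 + 5 * (e : ℂ) + 2) →
    regSum p (fun g => S g * T g) = 0 →
    regSum p (fun g => S g * T g ^ 2) = (Nat.card G : ℂ) →
    Nat.card G = 2 * p * e * (e + 1)

end Cfsg.Agent.H74.BT
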