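import Cfsg.Agent.H74.DihDefs

set_option autoImplicit false

/-!
# Primitive Schur rings over dihedral groups: basic facts (helper74, for S3572)
-/

namespace Cfsg.Agent.H74.Dih

open DihedralGroup

variable {n : ℕ} [NeZero n]

/-- a sum over the dihedral group splits into rotations and reflections. -/
theorem sum_dih {M : Type*} [AddCommMonoid M] (F : DihedralGroup n → M) :
    ∑ h, F h = ∑ i : ZMod n, F (r i) + ∑ i : ZMod n, F (sr i) := by
  rw [← (DihedralGroup.equivSum (n := n)).symm.sum_comp, Fintype.sum_sum_type]
  rfl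

theorem conv_r {R : Type*} [Semiring R] (f g : DihedralGroup n → R) (k : ZMod n) :
    conv f g (r k) = ∑ i : ZMod n, f (r i) * g (r (k - i)) +
      ∑ i : ZMod n, f (sr i) * g (sr (i + k)) := by
  unfold conv
  rw [sum_dih]
  simp only [inv_r, r_mul_r, neg_add_eq_sub, inv_sr, sr_mul_r]

theorem conv_sr {R : Type*} [Semiring R] (f g : DihedralGroup n → R) (k : ZMod n) :
    conv f g (sr k) = ∑ i : ZMod n, f (r i) * g (sr (k + i)) +
      ∑ i : ZMod n, f (sr i) * g (r (k - i)) := by
  unfold conv
  rw [sum_dih]
  simp only [inv_r, r_mul_sr, sub_neg_eq_add, inv_sr, sr_mul_sr]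

theorem conv_assoc {R : Type*} [Semiring R] (f g h : DihedralGroup n → R) :
    conv (conv f g) h = conv f (conv g h) := by
  funext w
  unfold conv
  simp only [Finset.sum_mul, Finset.mul_sum]
  rw [Finset.sum_comm]
  apply Finset.sum_congr rfl
  intro y _
  rw [← Equiv.sum_comp (Equiv.mulLeft y)]
  apply Finset.sum_congr rfl
  intro u _
  simp only [Equiv.coe_mulLeft, inv_mul_cancel_left, mul_inv_rev, mul_assoc]

theorem conv_add_left {R : Type*} [Semiring R] (f g h : DihedralGroup n → R) :
    conv (f + g) h = conv f h + conv g h := by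
  funext w
  simp [conv, add_mul, Finset.sum_add_distrib]

theorem conv_add_right {R : Type*} [Semiring R] (f g h : DihedralGroup n → R) :
    conv f (g + h) = conv f g + conv f h := by
  funext w
  simp [conv, mul_add, Finset.sum_add_distrib]

theorem conv_smul_left {R : Type*} [CommSemiring R] (c : R) (f g : DihedralGroup n → R) :
    conv (c • f) g = c • conv f g := by
  funext w
  simp [conv, Finset.mul_sum, mul_assoc]

theorem conv_smul_right {R : Type*} [CommSemiring R] (c : R) (f g : DihedralGroup n → R) :
    conv f (c • g) = c • conv f g := by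
  funext w
  simp only [conv, Pi.smul_apply, smul_eq_mul, Finset.mul_sum]
  apply Finset.sum_congr rfl
  intro x _
  ring

/-- the unit of convolution. -/
def dOne : DihedralGroup n → ℤ := fun h => if h = 1 then 1 else 0

theorem cpow_zero (f : DihedralGroup n → ℤ) : cpow f 0 = dOne := rfl

theorem cpow_succ (f : DihedralGroup n → ℤ) (k : ℕ) : cpow f (k + 1) = conv (cpow f k) f := rfl

theorem conv_dOne_left (f : DihedralGroup n → ℤ) : conv dOne f = f := by
  funext w
  unfold conv dOne
  rw [Finset.sum_eq_single 1]
  · simp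
  · intro x _ hx
    simp [hx]
  · intro h; exact absurd (Finset.mem_univ _) h

theorem conv_dOne_right (f : DihedralGroup n → ℤ) : conv f dOne = f := by
  funext w
  unfold conv dOne
  rw [Finset.sum_eq_single w]
  · simp
  · intro x _ hx
    have : x⁻¹ * w ≠ 1 := by
      intro h
      apply hx
      have := congrArg (fun t => x * t) h
      simpa using this.symm
    simp [this]
  · intro h; exact absurd (Finset.mem_univ _) h

theorem sum_conv (f g : DihedralGroup n → ℤ) : ∑ h, conv f g h = (∑ h, f h) * ∑ h, g h := by
  unfold conv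
  rw [Finset.sum_comm, Finset.sum_mul]
  apply Finset.sum_congr rfl
  intro x _
  rw [← Finset.mul_sum]
  congr 1
  exact Equiv.sum_comp (Equiv.mulLeft x⁻¹) g

theorem sum_cpow (f : DihedralGroup n → ℤ) (k : ℕ) : ∑ h, cpow f k h = (∑ h, f h) ^ k := by
  induction k with
  | zero =>
    rw [cpow_zero, pow_zero]
    unfold dOne
    simp
  | succ k ih => rw [cpow_succ, sum_conv, ih, pow_succ]

/-- the rotation subgroup. -/
def rot (n : ℕ) : Subgroup (DihedralGroup n) where
  carrier := {h | ∃ i, h = r i}
  mul_mem' := by
    rintro _ _ ⟨i, rfl⟩ ⟨j, rfl⟩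
    exact ⟨i + j, r_mul_r i j⟩
  one_mem' := ⟨0, r_zero.symm⟩
  inv_mem' := by
    rintro _ ⟨i, rfl⟩
    exact ⟨-i, inv_r i⟩

omit [NeZero n] in
theorem sr_not_mem_rot (j : ZMod n) : sr j ∉ rot n := by
  rintro ⟨i, hi⟩
  cases hi

variable (P : PSR n)

theorem PSR.refl (h : DihedralGroup n) : P.rel h h := P.equiv.refl h

theorem PSR.symm {h h' : DihedralGroup n} (hh : P.rel h h') : P.rel h' h := P.equiv.symm hh

theorem PSR.trans {h h' h'' : DihedralGroup n} (h1 : P.rel h h') (h2 : P.rel h' h'') :
    P.rel h h'' := P.equiv.trans h1 h2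

theorem exists_sr (P : PSR n) (h : DihedralGroup n) (hh : h ≠ 1) :
    ∃ i : ZMod n, P.rel h (sr i) := by
  by_contra hcon
  push Not at hcon
  have hgen := P.gen {h' | P.rel h h'} (fun a b hab ha => P.trans ha hab) ⟨h, P.refl h, hh⟩
  have hle : Subgroup.closure {h' | P.rel h h'} ≤ rot n := by
    rw [Subgroup.closure_le]
    intro h' hh'
    cases h' with
    | r i => exact ⟨i, rfl⟩
    | sr i => exact absurd hh' (hcon i)
  rw [hgen] at hle
  exact sr_not_mem_rot (n := n) 0 (hle (Subgroup.mem_top _))

theorem rel_inv (P : PSR n) (h : DihedralGroup n) : P.rel h h⁻¹ := by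
  cases h with
  | sr i => rw [inv_sr]; exact P.refl _
  | r i =>
    by_cases hi : (r i : DihedralGroup n) = 1
    · rw [hi, inv_one]; exact P.refl _
    · obtain ⟨j, hj⟩ := exists_sr P (r i) hi
      have := P.inv_closed _ _ hj
      rw [inv_sr] at this
      exact P.trans hj (P.symm this)

theorem resp_symm (P : PSR n) {R : Type*} {f : DihedralGroup n → R} (hf : Resp P.rel f)
    (i : ZMod n) : f (r (-i)) = f (r i) := by
  have := hf _ _ (rel_inv P (r i))
  rw [inv_r] at this
  exact this.symm

theorem resp_dOne (P : PSR n) : Resp P.rel (dOne : DihedralGroup n → ℤ) := by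
  intro h h' hh
  unfold dOne
  by_cases h1 : h = 1
  · subst h1
    have := P.one_class h' (P.symm hh)
    simp [this]
  · have h1' : h' ≠ 1 := by
      rintro rfl
      exact h1 (P.one_class h hh)
    simp [h1, h1']

theorem resp_cpow (P : PSR n) (f : DihedralGroup n → ℤ) (hf : Resp P.rel f) (k : ℕ) :
    Resp P.rel (cpow f k) := by
  induction k with
  | zero => exact resp_dOne P
  | succ k ih => exact P.conv_closed _ _ ih hf

/-- the indicator function of the class of `h`. -/
noncomputable def ind (P : PSR n) (h : DihedralGroup n) : DihedralGroup n → ℤ := by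
  classical exact fun h' => if P.rel h h' then 1 else 0

theorem ind_apply (P : PSR n) (h h' : DihedralGroup n) [Decidable (P.rel h h')] :
    ind P h h' = if P.rel h h' then 1 else 0 := by
  unfold ind
  split_ifs <;> rfl

theorem resp_ind (P : PSR n) (h : DihedralGroup n) : Resp P.rel (ind P h) := by
  classical
  intro a b hab
  rw [ind_apply, ind_apply]
  by_cases ha : P.rel h a
  · rw [if_pos ha, if_pos (P.trans ha hab)]
  · rw [if_neg ha, if_neg (fun hb => ha (P.trans hb (P.symm hab)))]

theorem conv_comm (P : PSR n) (f g : DihedralGroup n → ℤ) (hf : Resp P.rel f)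
    (hg : Resp P.rel g) : conv f g = conv g f := by
  have hfs := resp_symm P hf
  have hgs := resp_symm P hg
  -- first sums
  have hfirst : ∀ k : ZMod n, ∑ i : ZMod n, f (r i) * g (r (k - i)) =
      ∑ i : ZMod n, g (r i) * f (r (k - i)) := by
    intro k
    rw [← Equiv.sum_comp (Equiv.subLeft k)]
    apply Finset.sum_congr rfl
    intro i _
    simp only [Equiv.subLeft_apply, sub_sub_cancel]
    ring
  have hfirst_symm : ∀ k : ZMod n, ∑ i : ZMod n, f (r i) * g (r (-k - i)) =
      ∑ i : ZMod n, f (r i) * g (r (k - i)) := by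
    intro k
    rw [← Equiv.sum_comp (Equiv.neg (ZMod n))]
    apply Finset.sum_congr rfl
    intro i _
    simp only [Equiv.neg_apply]
    rw [hfs, show -k - -i = -(k - i) by ring, hgs]
  have hX : ∀ k : ZMod n, ∑ i : ZMod n, f (sr i) * g (sr (i + -k)) =
      ∑ i : ZMod n, f (sr i) * g (sr (i + k)) := by
    intro k
    have h1 := P.conv_closed f g hf hg _ _ (rel_inv P (r k))
    rw [inv_r, conv_r, conv_r, hfirst_symm] at h1
    exact (add_left_cancel h1).symm
  funext w
  cases w with
  | r k =>
    rw [conv_r, conv_r, hfirst]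
    congr 1
    rw [← hX k, ← Equiv.sum_comp (Equiv.addRight k)]
    apply Finset.sum_congr rfl
    intro i _
    simp only [Equiv.coe_addRight, add_neg_cancel_right]
    ring
  | sr k =>
    rw [conv_sr, conv_sr, add_comm]
    congr 1
    · rw [← Equiv.sum_comp (Equiv.addLeft k)]
      apply Finset.sum_congr rfl
      intro i _
      simp only [Equiv.coe_addLeft]
      rw [show k - (k + i) = -i by ring, hgs]
      ring
    · symm
      rw [← Equiv.sum_comp (Equiv.addLeft k)]
      apply Finset.sum_congr rfl
      intro i _
      simp only [Equiv.coe_addLeft]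
      rw [show k - (k + i) = -i by ring, hfs]
      ring

theorem cpow_conv (P : PSR n) (f g : DihedralGroup n → ℤ) (hf : Resp P.rel f)
    (hg : Resp P.rel g) (k : ℕ) : cpow (conv f g) k = conv (cpow f k) (cpow g k) := by
  induction k with
  | zero => rw [cpow_zero, cpow_zero, cpow_zero, conv_dOne_left]
  | succ k ih =>
    rw [cpow_succ, cpow_succ, cpow_succ, ih]
    have hc : conv (cpow g k) f = conv f (cpow g k) :=
      conv_comm P _ _ (resp_cpow P g hg k) hf
    calc conv (conv (cpow f k) (cpow g k)) (conv f g)
        = conv (cpow f k) (conv (conv (cpow g k) f) g) := by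
          rw [conv_assoc, conv_assoc]
      _ = conv (cpow f k) (conv (conv f (cpow g k)) g) := by rw [hc]
      _ = conv (conv (cpow f k) f) (conv (cpow g k) g) := by
          rw [conv_assoc, conv_assoc]

/-- a function constant on classes is determined by its values on rotations (`n ≥ 2`). -/
theorem exists_r (P : PSR n) (hn : 2 ≤ n) (h : DihedralGroup n) (hh : h ≠ 1) :
    ∃ i : ZMod n, i ≠ 0 ∧ P.rel h (r i) := by
  classical
  cases h with
  | r i =>
    refine ⟨i, ?_, P.refl _⟩
    rintro rfl
    exact hh r_zero
  | sr j =>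
    by_contra hcon
    push Not at hcon
    -- no rotation at all in the class of `sr j`
    have hrot : ∀ i : ZMod n, ¬ P.rel (sr j) (r i) := by
      intro i hi
      by_cases h0 : i = 0
      · subst h0
        rw [r_zero] at hi
        exact hh (P.one_class _ hi)
      · exact hcon i h0 hi
    set f := ind P (sr j) with hfdef
    have hf : Resp P.rel f := resp_ind P _
    have hfr : ∀ i : ZMod n, f (r i) = 0 := by
      intro i
      rw [hfdef, ind_apply, if_neg (hrot i)]
    have hφ : Resp P.rel (conv f f) := P.conv_closed f f hf hf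
    have hφsr : ∀ k : ZMod n, conv f f (sr k) = 0 := by
      intro k
      rw [conv_sr]
      simp [hfr]
    have hφr : ∀ k : ZMod n, k ≠ 0 → conv f f (r k) = 0 := by
      intro k hk
      have hk1 : (r k : DihedralGroup n) ≠ 1 := by
        intro h1
        rw [← r_zero] at h1
        exact hk (r.inj h1)
      obtain ⟨i, hi⟩ := exists_sr P (r k) hk1
      rw [hφ _ _ hi, hφsr]
    -- the class of `sr j` is `{sr j}`
    have hsingle : ∀ i : ZMod n, P.rel (sr j) (sr i) → i = j := by
      intro i hi
      by_contra hij
      have h0 := hφr (i - j) (sub_ne_zero.2 hij)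
      rw [conv_r] at h0
      simp only [hfr, zero_mul, Finset.sum_const_zero, zero_add] at h0
      have hnn : ∀ x ∈ (Finset.univ : Finset (ZMod n)), 0 ≤ f (sr x) * f (sr (x + (i - j))) := by
        intro x _
        rw [hfdef, ind_apply, ind_apply]
        split_ifs <;> norm_num
      have h1 := (Finset.sum_eq_zero_iff_of_nonneg hnn).1 h0 j (Finset.mem_univ _)
      rw [hfdef, ind_apply, ind_apply, if_pos (P.refl _), show j + (i - j) = i by ring,
        if_pos hi] at h1
      norm_num at h1
    have hgen := P.gen {h' | h' = 1 ∨ h' = sr j} (by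
      rintro a b hab (rfl | rfl)
      · left; exact P.one_class b (P.symm hab)
      · cases b with
        | r i => exact absurd hab (hrot i)
        | sr i => right; rw [hsingle i hab]) ⟨sr j, Or.inr rfl, hh⟩
    have hmem : ∀ x ∈ Subgroup.closure {h' : DihedralGroup n | h' = 1 ∨ h' = sr j},
        x = 1 ∨ x = sr j := by
      intro x hx
      induction hx using Subgroup.closure_induction with
      | mem x hx => exact hx
      | one => left; rfl
      | mul x y _ _ hx hy =>
        rcases hx with rfl | rfl <;> rcases hy with rfl | rfl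
        · left; simp
        · right; simp
        · right; simp
        · left; rw [sr_mul_sr, sub_self, r_zero]
      | inv x _ hx =>
        rcases hx with rfl | rfl
        · left; simp
        · right; rw [inv_sr]
    rw [hgen] at hmem
    rcases hmem (r 1) (Subgroup.mem_top _) with h1 | h1
    · rw [← r_zero] at h1
      have h10 : (1 : ZMod n) = 0 := r.inj h1
      have : Fact (1 < n) := ⟨by omega⟩
      exact one_ne_zero h10
    · cases h1

/-- a function constant on classes which is divisible by `m` on rotations is divisible by `m`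
everywhere (`n ≥ 2`). -/
theorem dvd_of_rot (P : PSR n) (hn : 2 ≤ n) (m : ℤ) (f : DihedralGroup n → ℤ)
    (hf : Resp P.rel f) (h0 : ∀ i : ZMod n, m ∣ f (r i)) (h : DihedralGroup n) : m ∣ f h := by
  by_cases h1 : h = 1
  · rw [h1, ← r_zero]; exact h0 0
  · obtain ⟨i, _, hi⟩ := exists_r P hn h h1
    rw [hf _ _ hi]; exact h0 i

end Cfsg.Agent.H74.Dih
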