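import Mathlib
import Cfsg.Prelude.Def_Characters
import Cfsg.Prelude.Def_Blocks

set_option autoImplicit false

/-!
# helper74: S4756 (characters multiplicative on coprime prime-power elements) -- piece statements

`Mult G` is hypothesis (1) of S4756.  Character part: `StChar` (from `StVan1`, `StDvd`, `StBig`,
`StUniq`, `StNonlin`, `StNotComm`, `StCent`, `StCentLe`).  Group part: `StStruct` (from `StSetup`,
`StConj`, `StFpf`, `StDEq`, `StCPA`, `StCard`, `StSplit`, `StCAb`, `StCyc1`, `StCyc2`).  Converse: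
`StConvComm`, `StConvA`, `StConvB`, `StConvCent`, `StConvVan`, `StConvOut`, `StLin`, `StAbel`.
-/

namespace Cfsg.Agent.H74.MC

open Cfsg

universe u

/-- Hypothesis (1) of S4756. -/
def Mult (G : Type u) [Group G] : Prop :=
  ∀ (x y : G) (χ : IrrCharacter G), x ≠ 1 → y ≠ 1 →
    (∃ p q a b : ℕ, p.Prime ∧ q.Prime ∧ p ≠ q ∧ orderOf x = p ^ a ∧ orderOf y = q ^ b) →
    (χ : G → ℂ) (x * y) = (χ : G → ℂ) x * (χ : G → ℂ) y

/-- Every element whose order is not a power of `p` has centralizer of order `[G : G']`. -/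
def CentCond (G : Type u) [Group G] (p : ℕ) : Prop :=
  ∀ g : G, (¬ ∃ k : ℕ, orderOf g = p ^ k) →
    Nat.card ↥(Subgroup.centralizer ({g} : Set G)) * Nat.card ↥(commutator G) = Nat.card G

/-! ## Character part -/

/-- MC-VAN1 -/
def StVan1 : Prop :=
  ∀ (G : Type u) [Group G] [Finite G], Mult G →
    ∀ (χ : IrrCharacter G), charDegree (χ : G → ℂ) ≠ 1 →
    ∀ (x y : G), x ≠ 1 → y ≠ 1 →
    (∃ p q a b : ℕ, p.Prime ∧ q.Prime ∧ p ≠ q ∧ orderOf x = p ^ a ∧ orderOf y = q ^ b) →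
    (χ : G → ℂ) x = 0 ∨ (χ : G → ℂ) y = 0

/-- MC-DVD -/
def StDvd : Prop :=
  ∀ (G : Type u) [Group G] [Finite G] (χ : IrrCharacter G) (r : ℕ), r.Prime →
    (∀ y : G, y ≠ 1 → (∃ k : ℕ, orderOf y = r ^ k) → (χ : G → ℂ) y = 0) →
    r ^ (Nat.card G).factorization r ∣ charDegree (χ : G → ℂ)

/-- MC-BIG -/
def StBig : Prop :=
  ∀ (G : Type u) [Group G] [Finite G] (χ : IrrCharacter G), charDegree (χ : G → ℂ) ≠ 1 →
    ∀ p : ℕ, p.Prime →
    (∀ r : ℕ, r.Prime → r ≠ p → r ^ (Nat.card G).factorization r ∣ charDegree (χ : G → ℂ)) →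
    Nat.card G < (p ^ (Nat.card G).factorization p) ^ 2

/-- MC-UNIQ -/
def StUniq : Prop :=
  ∀ (N p q : ℕ), 0 < N → p.Prime → q.Prime →
    N < (p ^ N.factorization p) ^ 2 → N < (q ^ N.factorization q) ^ 2 → p = q

/-- MC-NONLIN -/
def StNonlin : Prop :=
  ∀ (G : Type u) [Group G] [Finite G], (∃ a b : G, a * b ≠ b * a) →
    ∃ χ : IrrCharacter G, charDegree (χ : G → ℂ) ≠ 1

/-- MC-NOTCOMM -/
def StNotComm : Prop :=
  ∀ (G : Type u) [Group G] [Finite G] (y : G), y ≠ 1 →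
    (∀ χ : IrrCharacter G, charDegree (χ : G → ℂ) ≠ 1 → (χ : G → ℂ) y = 0) →
    y ∉ commutator G

/-- MC-CENT -/
def StCent : Prop :=
  ∀ (G : Type u) [Group G] [Finite G] (z : G),
    (∀ χ : IrrCharacter G, charDegree (χ : G → ℂ) ≠ 1 → (χ : G → ℂ) z = 0) →
    Nat.card ↥(Subgroup.centralizer ({z} : Set G)) * Nat.card ↥(commutator G) = Nat.card G

/-- MC-CENTLE -/
def StCentLe : Prop :=
  ∀ (G : Type u) [Group G] [Finite G] (g z : G), (∃ n : ℕ, z = g ^ n) →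
    Nat.card ↥(Subgroup.centralizer ({z} : Set G)) * Nat.card ↥(commutator G) = Nat.card G →
    Nat.card ↥(Subgroup.centralizer ({g} : Set G)) * Nat.card ↥(commutator G) = Nat.card G

/-- MC-CHAR: the character part. -/
def StChar : Prop :=
  ∀ (G : Type u) [Group G] [Finite G], Mult G → (∃ a b : G, a * b ≠ b * a) →
    ∃ p : ℕ, p.Prime ∧ IsPGroup p ↥(commutator G) ∧ CentCond G p

/-! ## Group part -/

/-- The local setup: normal Sylow `p`-subgroup `P ≥ G'`, abelian complement `A`, and the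
centralizer condition off `P`. -/
structure Setup (G : Type u) [Group G] (p : ℕ) (P A : Subgroup G) : Prop where
  normal : P.Normal
  pgroup : IsPGroup p ↥P
  comm_le : commutator G ≤ P
  inf : A ⊓ P = ⊥
  sup : A ⊔ P = ⊤
  abel : ∀ a ∈ A, ∀ b ∈ A, a * b = b * a
  coprime : (Nat.card ↥A).Coprime p
  cent : ∀ g : G, g ∉ P →
    Nat.card ↥(Subgroup.centralizer ({g} : Set G)) * Nat.card ↥(commutator G) = Nat.card G

/-- MC-SETUP -/
def StSetup : Prop :=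
  ∀ (G : Type u) [Group G] [Finite G] (p : ℕ) [Fact p.Prime],
    IsPGroup p ↥(commutator G) → CentCond G p →
    ∀ P : Sylow p G, ∃ A : Subgroup G, Setup G p (P : Subgroup G) A

/-- MC-CONJ -/
def StConj : Prop :=
  ∀ (G : Type u) [Group G] [Finite G] (p : ℕ) [Fact p.Prime] (P A : Subgroup G), Setup G p P A →
    ∀ a ∈ A, a ≠ 1 → ∀ d ∈ commutator G, ∃ u ∈ P, u * a * u⁻¹ = a * d

/-- MC-FPF -/
def StFpf : Prop :=
  ∀ (G : Type u) [Group G] [Finite G] (p : ℕ) [Fact p.Prime] (P A : Subgroup G), Setup G p P A →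
    ∀ a ∈ A, a ≠ 1 → ∀ d ∈ commutator G, a * d = d * a → d = 1

/-- MC-DEQ -/
def StDEq : Prop :=
  ∀ (G : Type u) [Group G] [Finite G] (p : ℕ) [Fact p.Prime] (P A : Subgroup G), Setup G p P A →
    A ≠ ⊥ → ⁅A, P⁆ = commutator G

/-- MC-CPA -/
def StCPA : Prop :=
  ∀ (G : Type u) [Group G] [Finite G] (p : ℕ) [Fact p.Prime] (P A : Subgroup G), Setup G p P A →
    ∀ a ∈ A, a ≠ 1 → ∀ v ∈ P, a * v = v * a → ∀ b ∈ A, b * v = v * b

/-- MC-CARD -/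
def StCard : Prop :=
  ∀ (G : Type u) [Group G] [Finite G] (p : ℕ) [Fact p.Prime] (P A : Subgroup G), Setup G p P A →
    A ≠ ⊥ →
    Nat.card ↥(P ⊓ Subgroup.centralizer (A : Set G)) * Nat.card ↥(commutator G) = Nat.card ↥P

/-- MC-SPLIT -/
def StSplit : Prop :=
  ∀ (G : Type u) [Group G] [Finite G] (p : ℕ) [Fact p.Prime] (P A : Subgroup G), Setup G p P A →
    A ≠ ⊥ →
    (P ⊓ Subgroup.centralizer (A : Set G)) ⊔ ⁅A, P⁆ = P ∧
    (P ⊓ Subgroup.centralizer (A : Set G)) ⊓ ⁅A, P⁆ = ⊥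

/-- MC-CAB -/
def StCAb : Prop :=
  ∀ (G : Type u) [Group G] [Finite G] (p : ℕ) [Fact p.Prime] (P A : Subgroup G), Setup G p P A →
    A ≠ ⊥ → IsMulCommutative ↥(P ⊓ Subgroup.centralizer (A : Set G))

/-- MC-CYC1 -/
def StCyc1 : Prop :=
  ∀ (G : Type u) [Group G] [Finite G] (p : ℕ) [Fact p.Prime] (A D : Subgroup G),
    D.Normal → IsPGroup p ↥D → D ≠ ⊥ → (Nat.card ↥A).Coprime p →
    (∀ a ∈ A, ∀ b ∈ A, a * b = b * a) →
    (∀ a ∈ A, a ≠ 1 → ∀ d ∈ D, a * d = d * a → d = 1) →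
    ∀ (r : ℕ), r.Prime → ∀ e₁ ∈ A, ∀ e₂ ∈ A, e₁ ≠ 1 → e₁ ^ r = 1 → e₂ ^ r = 1 →
      e₂ ∈ Subgroup.zpowers e₁

/-- MC-CYC2 -/
def StCyc2 : Prop :=
  ∀ (G : Type u) [Group G] [Finite G] (A : Subgroup G),
    (∀ a ∈ A, ∀ b ∈ A, a * b = b * a) →
    (∀ (r : ℕ), r.Prime → ∀ e₁ ∈ A, ∀ e₂ ∈ A, e₁ ≠ 1 → e₁ ^ r = 1 → e₂ ^ r = 1 →
      e₂ ∈ Subgroup.zpowers e₁) →
    IsCyclic ↥A

/-- MC-STRUCT: the group part. -/
def StStruct : Prop :=
  ∀ (G : Type u) [Group G] [Finite G] (p : ℕ) (_ : Fact p.Prime),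
    IsPGroup p ↥(commutator G) → CentCond G p → (∃ a b : G, a * b ≠ b * a) → ¬ IsPGroup p G →
    ∃ (P : Sylow p G) (A : Subgroup G), (P : Subgroup G).Normal ∧ IsCyclic ↥A ∧ A ≠ ⊥ ∧
      (Nat.card ↥A).Coprime p ∧ A ⊔ (P : Subgroup G) = ⊤ ∧
      IsMulCommutative ↥((P : Subgroup G) ⊓ Subgroup.centralizer (A : Set G)) ∧
      (⁅A, (P : Subgroup G)⁆).Normal ∧
      ((P : Subgroup G) ⊓ Subgroup.centralizer (A : Set G)) ⊔ ⁅A, (P : Subgroup G)⁆ =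
        (P : Subgroup G) ∧
      ((P : Subgroup G) ⊓ Subgroup.centralizer (A : Set G)) ⊓ ⁅A, (P : Subgroup G)⁆ = ⊥ ∧
      ∀ a ∈ A, a ≠ 1 → ∀ d ∈ ⁅A, (P : Subgroup G)⁆, a * d = d * a → d = 1

/-! ## Converse -/

/-- The data of the third alternative of S4756 (2). -/
structure Alt (G : Type u) [Group G] (p : ℕ) (P A : Subgroup G) : Prop where
  normal : P.Normal
  pgroup : IsPGroup p ↥P
  coprime : (Nat.card ↥A).Coprime p
  sup : A ⊔ P = ⊤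
  abel : ∀ a ∈ A, ∀ b ∈ A, a * b = b * a
  cab : ∀ c ∈ P ⊓ Subgroup.centralizer (A : Set G), ∀ c' ∈ P ⊓ Subgroup.centralizer (A : Set G),
    c * c' = c' * c
  dnormal : (⁅A, P⁆).Normal
  split_sup : (P ⊓ Subgroup.centralizer (A : Set G)) ⊔ ⁅A, P⁆ = P
  split_inf : (P ⊓ Subgroup.centralizer (A : Set G)) ⊓ ⁅A, P⁆ = ⊥
  fpf : ∀ a ∈ A, a ≠ 1 → ∀ d ∈ ⁅A, P⁆, a * d = d * a → d = 1

/-- MC-CONVCOMM -/
def StConvComm : Prop :=
  ∀ (G : Type u) [Group G] [Finite G] (p : ℕ) [Fact p.Prime] (P A : Subgroup G), Alt G p P A →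
    commutator G ≤ ⁅A, P⁆

/-- MC-CONVA -/
def StConvA : Prop :=
  ∀ (G : Type u) [Group G] [Finite G] (p : ℕ) [Fact p.Prime] (P A : Subgroup G), Alt G p P A →
    ∀ a ∈ A, a ≠ 1 → ∀ d₁ ∈ ⁅A, P⁆, ∀ d ∈ ⁅A, P⁆, (a * d₁) * d = d * (a * d₁) → d = 1

/-- MC-CONVB -/
def StConvB : Prop :=
  ∀ (G : Type u) [Group G] [Finite G] (p : ℕ) [Fact p.Prime] (P A : Subgroup G), Alt G p P A →
    ∀ g : G, g ∉ P → ∃ a ∈ A, a ≠ 1 ∧ ∃ d₁ ∈ ⁅A, P⁆, g ^ Nat.card ↥P = a * d₁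

/-- MC-CONVCENT -/
def StConvCent : Prop :=
  ∀ (G : Type u) [Group G] [Finite G] (p : ℕ) [Fact p.Prime] (P A : Subgroup G), Alt G p P A →
    ∀ g : G, g ∉ P →
    Nat.card ↥(Subgroup.centralizer ({g} : Set G)) * Nat.card ↥(commutator G) ≤ Nat.card G

/-- MC-CONVVAN -/
def StConvVan : Prop :=
  ∀ (G : Type u) [Group G] [Finite G] (g : G),
    Nat.card ↥(Subgroup.centralizer ({g} : Set G)) * Nat.card ↥(commutator G) ≤ Nat.card G →
    ∀ χ : IrrCharacter G, charDegree (χ : G → ℂ) ≠ 1 → (χ : G → ℂ) g = 0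

/-- MC-CONVOUT -/
def StConvOut : Prop :=
  ∀ (G : Type u) [Group G] [Finite G] (p : ℕ) [Fact p.Prime] (P : Subgroup G),
    P.Normal → IsPGroup p ↥P →
    ∀ x y : G, x ≠ 1 → y ≠ 1 →
    (∃ p' q a b : ℕ, p'.Prime ∧ q.Prime ∧ p' ≠ q ∧ orderOf x = p' ^ a ∧ orderOf y = q ^ b) →
    (x ∉ P ∨ y ∉ P) ∧ x * y ∉ P

/-- MC-LIN -/
def StLin : Prop :=
  ∀ (G : Type u) [Group G] [Finite G] (χ : IrrCharacter G), charDegree (χ : G → ℂ) = 1 →
    ∀ x y : G, (χ : G → ℂ) (x * y) = (χ : G → ℂ) x * (χ : G → ℂ) y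

/-- MC-ABEL -/
def StAbel : Prop :=
  ∀ (G : Type u) [Group G] [Finite G], IsMulCommutative G →
    ∀ χ : IrrCharacter G, charDegree (χ : G → ℂ) = 1

end Cfsg.Agent.H74.MC
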