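import Mathlib

set_option autoImplicit false

/-!
# Primitive Schur rings over dihedral groups: definitions (helper74, for S3572)

A Schur ring over `DihedralGroup n` is recorded by its partition into basic sets, given as an
equivalence relation `rel`.  `Resp rel f` says that `f` is constant on the basic sets.
-/

namespace Cfsg.Agent.H74.Dih

open DihedralGroup

variable {n : ℕ} [NeZero n]

/-- `f` is constant on the classes of `rel`. -/
def Resp (rel : DihedralGroup n → DihedralGroup n → Prop) {R : Type*}
    (f : DihedralGroup n → R) : Prop :=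
  ∀ h h', rel h h' → f h = f h'

/-- convolution of functions on the dihedral group. -/
def conv {R : Type*} [Semiring R] (f g : DihedralGroup n → R) (h : DihedralGroup n) : R :=
  ∑ x : DihedralGroup n, f x * g (x⁻¹ * h)

/-- convolution powers. -/
def cpow (f : DihedralGroup n → ℤ) : ℕ → DihedralGroup n → ℤ
  | 0 => fun h => if h = 1 then 1 else 0
  | k + 1 => conv (cpow f k) f

/-- A primitive Schur ring over the dihedral group of order `2n`, given by its partition into
basic sets; primitivity is recorded by the two consequences `gen` and `stab`. -/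
structure PSR (n : ℕ) [NeZero n] where
  rel : DihedralGroup n → DihedralGroup n → Prop
  equiv : Equivalence rel
  one_class : ∀ h, rel h 1 → h = 1
  inv_closed : ∀ h h', rel h h' → rel h⁻¹ h'⁻¹
  conv_closed : ∀ f g : DihedralGroup n → ℤ, Resp rel f → Resp rel g → Resp rel (conv f g)
  gen : ∀ S : Set (DihedralGroup n), (∀ h h', rel h h' → h ∈ S → h' ∈ S) →
    (∃ h ∈ S, h ≠ 1) → Subgroup.closure S = ⊤
  stab : ∀ S : Set (DihedralGroup n), (∀ h h', rel h h' → h ∈ S → h' ∈ S) → S.Nonempty →
    S ≠ Set.univ → ∀ h, (∀ x ∈ S, h * x ∈ S) → h = 1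

/-- the relation of the rational closure. -/
def ratRel (P : PSR n) (h h' : DihedralGroup n) : Prop :=
  ∀ f : DihedralGroup n → ℤ, Resp P.rel f →
    (∀ i j : ZMod n, AddSubgroup.zmultiples i = AddSubgroup.zmultiples j → f (r i) = f (r j)) →
    f h = f h'

/-- the Schur ring is trivial: all non-identity elements form one basic set. -/
def PSR.Triv (P : PSR n) : Prop := ∀ h h' : DihedralGroup n, h ≠ 1 → h' ≠ 1 → P.rel h h'

end Cfsg.Agent.H74.Dih
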