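import Cfsg.Agent.H74.BTDefs
import Cfsg.Agent.S0999
import Cfsg.Agent.S4441
import Cfsg.Agent.S4729
import Cfsg.Agent.H4.PrqTypeA
import Cfsg.Agent.H7.PSL2
import Cfsg.Agent.H21.ResidueTrick
import Cfsg.Agent.H54.BrAbs
import Cfsg.Agent.H78.DefectZero

/-!
# S0997 (Brauer–Tuan): assembly from the team pieces (helper74)
-/

set_option autoImplicit false
set_option linter.style.haveILetI false

namespace Cfsg.Agent.H74.BT

open Cfsg Cfsg.Agent.H21.BR
open scoped ComplexConjugate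

universe u

/-- The statement of S4504 (hypothesis of the assembly). -/
def StS4504 : Prop :=
  ∀ {G : Type u} [Group G] [Finite G] (p : ℕ), p.Prime → p ∣ Nat.card G → ¬ p ^ 2 ∣ Nat.card G →
    (∀ H : Subgroup G, H.Normal → Nat.card H ≠ p) →
  ∀ (χ : G → ℂ), Cfsg.IsCharacter G χ → (∀ g : G, χ g = χ 1 → g = 1) →
    2 * Cfsg.charDegree χ + 1 = p →
    Nonempty ((G ⧸ Subgroup.center G) ≃* Matrix.ProjectiveSpecialLinearGroup (Fin 2) (ZMod p))

/-- The order of a group isomorphic to `PSL(2, F)`, `|F| = p` odd. -/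
theorem two_mul_card_of_iso {G : Type u} [Group G] (p : ℕ) (hp : p.Prime) (hp2 : p ≠ 2)
    (F : Type) [Field F] [Fintype F] (hF : Fintype.card F = p)
    (f : G ≃* Matrix.ProjectiveSpecialLinearGroup (Fin 2) F) :
    2 * Nat.card G = p * ((p - 1) * (p + 1)) := by
  have hodd : Odd (Fintype.card F) := by rw [hF]; exact hp.odd_of_ne_two hp2
  have h := Cfsg.Agent.H7.card_PSL2_odd (F := F) hodd
  rw [hF] at h
  rw [Nat.card_congr f.toEquiv, h]
  have h1 : 1 ≤ p := hp.one_le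
  have h2 : p ^ 2 - 1 = (p - 1) * (p + 1) := by
    obtain ⟨k, rfl⟩ : ∃ k, p = k + 1 := ⟨p - 1, by omega⟩
    simp only [Nat.add_sub_cancel]
    have : (k + 1) ^ 2 = k * (k + 1 + 1) + 1 := by ring
    rw [this, Nat.add_sub_cancel]
  rw [h2]

/-- The final arithmetic: `p = 2 ^ m ± 1`. -/
theorem exists_m_of_iso (hAF : StArithFin) {G : Type u} [Group G] (p q b g₀ : ℕ) (hp : p.Prime)
    (hp2 : p ≠ 2) (hq : q.Prime) (hG' : Nat.card G = p * q ^ b * g₀) (hg : g₀ < p - 1)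
    (F : Type) [Field F] [Fintype F] (hF : Fintype.card F = p)
    (f : G ≃* Matrix.ProjectiveSpecialLinearGroup (Fin 2) F) :
    ∃ m : ℕ, p = 2 ^ m + 1 ∨ p = 2 ^ m - 1 := by
  have h := two_mul_card_of_iso p hp hp2 F hF f
  rw [hG'] at h
  have h1 : p * (2 * (q ^ b * g₀)) = p * ((p - 1) * (p + 1)) := by rw [← h]; ring
  exact hAF p q b g₀ hp hp2 hq (Nat.eq_of_mul_eq_mul_left hp.pos h1) hg

/-- In a non-cyclic simple group a non-linear irreducible character is faithful. -/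
theorem faithful_of_simple {G : Type u} [Group G] [Finite G] [IsSimpleGroup G]
    (η : IrrCharacter G) (h2 : 2 ≤ charDegree (η : G → ℂ)) (g : G)
    (hg : (η : G → ℂ) g = (η : G → ℂ) 1) : g = 1 := by
  by_contra hne
  refine Cfsg.Agent.H21.ResidueTrick.irr_apply_ne_degree η ?_ g hne hg
  rw [Cfsg.Agent.H16.BR.irr_one_cast]
  intro h
  have : charDegree (η : G → ℂ) = 1 := by exact_mod_cast h
  omega

/-- A non-cyclic simple group is not commutative. -/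
theorem not_comm_of_simple {G : Type u} [Group G] [Finite G] [IsSimpleGroup G]
    (hG : ¬ IsCyclic G) : ¬ IsMulCommutative G := by
  intro hc
  have h1 : (Nat.card G).Prime := Group.is_simple_iff_prime_card.1 inferInstance
  haveI : Fact (Nat.card G).Prime := ⟨h1⟩
  exact hG (isCyclic_of_prime_card rfl)

/-- Type A: `G ≃* PSL(2, p)` via S4504. -/
theorem typeA_case (h4504 : StS4504.{u}) {G : Type u} [Group G] [Finite G] [IsSimpleGroup G]
    (hG : ¬ IsCyclic G) (p m' : ℕ) (hp : p.Prime) (hcard : Nat.card G = p * m') (hm' : ¬ p ∣ m')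
    (θ : IrrCharacter G) (hdeg : 2 * charDegree (θ : G → ℂ) + 1 = p)
    (h2 : 2 ≤ charDegree (θ : G → ℂ)) :
    Nonempty (G ≃* Matrix.ProjectiveSpecialLinearGroup (Fin 2) (ZMod p)) := by
  have hnc := not_comm_of_simple hG
  have hdiv : p ∣ Nat.card G := by rw [hcard]; exact dvd_mul_right p m'
  have hsq : ¬ p ^ 2 ∣ Nat.card G := by
    rw [hcard, pow_two]
    intro h
    exact hm' ((Nat.mul_dvd_mul_iff_left hp.pos).mp h)
  have hnn : ∀ H : Subgroup G, H.Normal → Nat.card H ≠ p := by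
    intro H hH hc
    rcases hH.eq_bot_or_eq_top with rfl | rfl
    · rw [Subgroup.card_bot] at hc
      exact hp.one_lt.ne hc
    · rw [Subgroup.card_top] at hc
      haveI : Fact (Nat.card G).Prime := ⟨hc ▸ hp⟩
      exact hG (isCyclic_of_prime_card rfl)
  obtain ⟨f⟩ := h4504 p hp hdiv hsq hnn (θ : G → ℂ)
    (Cfsg.Agent.H4.isCharacter_of_isIrrCharacter θ.2) (faithful_of_simple θ h2) hdeg
  have hZ : Subgroup.center G = ⊥ := by
    rcases (inferInstance : (Subgroup.center G).Normal).eq_bot_or_eq_top with h | h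
    · exact h
    · exfalso
      apply hnc
      refine ⟨⟨fun a b => ?_⟩⟩
      have hb : b ∈ Subgroup.center G := by rw [h]; exact Subgroup.mem_top b
      exact (Subgroup.mem_center_iff.mp hb) a
  exact ⟨(QuotientGroup.quotientBot (G := G)).symm.trans
    ((QuotientGroup.quotientMulEquivOfEq hZ.symm).trans f)⟩

/-- Case B1: `|G| < p ^ 3`. -/
theorem b1_case (hB1T : StB1Tau.{u}) (hB1O : StB1Ord.{u}) (hB1C : StB1Class.{u})
    (hB1S : StB1Syl.{u}) {G : Type u} [Group G] [Finite G] [IsSimpleGroup G]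
    (p b : ℕ) [Fact p.Prime] (hp2 : p ≠ 2) (hcard : Nat.card G = p * 2 ^ b * (p - 2))
    (P : Sylow p G) (hP : Nat.card (P : Subgroup G) = p)
    (hC : Subgroup.centralizer ((P : Subgroup G) : Set G) = (P : Subgroup G))
    (hNC : Nat.card (Subgroup.normalizer ((P : Subgroup G) : Set G)) = p * 2)
    (X Y : Finset (IrrCharacter G)) (δ : IrrCharacter G → ℤ)
    (hB : B0Data p (P : Subgroup G) 2 X Y δ (-1))
    (hdegY : ∀ θ ∈ Y, charDegree (θ : G → ℂ) = p - 2)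
    (hcolY : ∀ x ∈ (P : Subgroup G), x ≠ 1 → ∑ θ ∈ Y, (θ : G → ℂ) x = 1) :
    Nat.card G < p ^ 3 := by
  have hp : p.Prime := Fact.out
  obtain ⟨τ₀, hτ, hinv⟩ := Cfsg.Agent.H62.BR.exists_inverting_involution p hp2 P hP hC 2 hNC
    even_two
  obtain ⟨hχτ, hθτ⟩ := hB1T G p (P : Subgroup G) hP X Y δ hB hdegY τ₀ hτ hinv
  have hord := hB1O G p P hP hC X Y δ hB hdegY hcolY τ₀ hτ hinv hχτ hθτ
  have hfaith : ∀ θ ∈ Y, ∀ g : G, (θ : G → ℂ) g = (θ : G → ℂ) 1 → g = 1 :=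
    fun θ hθ g hg => faithful_of_simple θ (hB.two_le_Y θ hθ) g hg
  have hcl := hB1C G p P hP hC X Y δ hB hdegY hcolY hfaith τ₀ hτ hinv hχτ hθτ
  exact hB1S G p b hp hp2 hcard τ₀ hτ hcl hord

/-- Case B2: `|G| < p ^ 3`. -/
theorem b2_case (hSing : StB2Sing.{u}) (hReal : StB2Real.{u}) (hTwo : StB2Two.{u})
    (hInt : StB2Int.{u}) (hProd : StB2Prod.{u}) (hId : StB2Id.{u}) (hStruct : StB2Struct.{u})
    (hGlob : StB2Glob.{u}) (hPos : StB2Pos.{u}) (hMS : StB2MomSum.{u}) (hMF : StB2MomFin.{u})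
    {G : Type u} [Group G] [Finite G] [IsSimpleGroup G]
    (p e : ℕ) [Fact p.Prime] (hp2 : p ≠ 2) (he : 2 * e = p - 1) (he4 : 4 ∣ e)
    (P : Sylow p G) (hP : Nat.card (P : Subgroup G) = p)
    (hC : Subgroup.centralizer ((P : Subgroup G) : Set G) = (P : Subgroup G))
    (hNC : Nat.card (Subgroup.normalizer ((P : Subgroup G) : Set G)) = p * e)
    (X Y : Finset (IrrCharacter G)) (δ : IrrCharacter G → ℤ)
    (hB : B0Data p (P : Subgroup G) e X Y δ (-1))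
    (hdegY : ∀ θ ∈ Y, charDegree (θ : G → ℂ) = e + 1)
    (hrel : -((e : ℤ) + 1) = ∑ χ ∈ X, δ χ * (charDegree (χ : G → ℂ) : ℤ))
    (heven : ∀ χ ∈ X, χ ≠ one G → 2 ∣ charDegree (χ : G → ℂ))
    (hcolY : ∀ x ∈ (P : Subgroup G), x ≠ 1 → ∑ θ ∈ Y, (θ : G → ℂ) x = 1)
    (hcolYsq : ∀ x ∈ (P : Subgroup G), x ≠ 1 →
      ∑ θ ∈ Y, (θ : G → ℂ) x * conj ((θ : G → ℂ) x) = (e : ℂ) + 1) :
    Nat.card G < p ^ 3 := by
  classical
  have hp : p.Prime := Fact.out
  have hp1 : 1 ≤ p := hp.one_le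
  have hpe : p = 2 * e + 1 := by omega
  have he0 : 0 < e := by
    have := hp.two_le
    omega
  have he4' : 4 ≤ e := Nat.le_of_dvd he0 he4
  have hev : Even e := by
    obtain ⟨k, hk⟩ := he4
    exact ⟨2 * k, by omega⟩
  obtain ⟨τ₀, -, hinv⟩ := Cfsg.Agent.H62.BR.exists_inverting_involution p hp2 P hP hC e hNC hev
  -- `Y = {θ₁, θ₂}`
  have hcardY : Y.card = 2 := Cfsg.Agent.H21.BR.card_Y hB 2 (by omega) he0
  obtain ⟨θ₁, θ₂, hne, hYeq⟩ := Finset.card_eq_two.mp hcardY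
  have hY : ∀ θ : IrrCharacter G, θ ∈ Y ↔ θ = θ₁ ∨ θ = θ₂ := by
    intro θ
    rw [hYeq]
    simp
  have hθ₁ : θ₁ ∈ Y := (hY θ₁).mpr (Or.inl rfl)
  have hθ₂ : θ₂ ∈ Y := (hY θ₂).mpr (Or.inr rfl)
  have hsum : ∀ x ∈ (P : Subgroup G), x ≠ 1 → (θ₁ : G → ℂ) x + (θ₂ : G → ℂ) x = 1 := by
    intro x hx hx1
    have h := hcolY x hx hx1
    rw [hYeq, Finset.sum_pair hne] at h
    exact h
  have hsq : ∀ x ∈ (P : Subgroup G), x ≠ 1 → (θ₁ : G → ℂ) x * conj ((θ₁ : G → ℂ) x) +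
      (θ₂ : G → ℂ) x * conj ((θ₂ : G → ℂ) x) = (e : ℂ) + 1 := by
    intro x hx hx1
    have h := hcolYsq x hx hx1
    rw [hYeq, Finset.sum_pair hne] at h
    exact h
  obtain ⟨hr1, hr2, hprod⟩ := hReal G e (P : Subgroup G) θ₁ θ₂ hsum hsq τ₀ hinv
  have hsing := hSing G p P hP hC
  have hBase : B2Base p e (P : Subgroup G) X Y δ θ₁ θ₂ :=
    { cardP := hP
      he := he
      he4 := he4
      b0 := hB
      hne := hne
      hY := hY
      deg₁ := hdegY θ₁ hθ₁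
      deg₂ := hdegY θ₂ hθ₂
      hsum := hsum
      hprod := hprod
      real₁ := hr1
      real₂ := hr2
      sing := hsing
      even := heven
      rel1 := hrel }
  obtain ⟨hswap, hps1, hps2⟩ := hTwo G p e (P : Subgroup G) X Y δ θ₁ θ₂ hBase
  have hint := hInt G p e (P : Subgroup G) X Y δ θ₁ θ₂ hBase
  obtain ⟨St, hStX, hStY, hStdeg, m, hm1, hm2, hm3⟩ :=
    hProd G p e (P : Subgroup G) X Y δ θ₁ θ₂ hBase hps1 hps2
  have hid := hId G p e (P : Subgroup G) X Y δ θ₁ θ₂ hBase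
  have hStr := hStruct G p e (P : Subgroup G) X Y δ θ₁ θ₂ hBase hid St hStX hStY hStdeg m
    hm1 hm2 hm3
  obtain ⟨hR1, hR2, hsingv⟩ := hGlob G p e (P : Subgroup G) X Y δ θ₁ θ₂ St hBase hStX hStY hint
  have hpos := hPos G p e (P : Subgroup G) X Y δ θ₁ θ₂ St hBase hStr hswap
  have hRS : ∀ g : G, conj ((St : G → ℂ) g) = (St : G → ℂ) g := by
    intro g
    by_cases hg : p ∣ orderOf g
    · rw [(hsingv g hg).1, map_zero]
    · obtain ⟨z, hz⟩ := hint g hg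
      obtain ⟨s, hs, -, -⟩ := hpos g hg z hz
      rw [hs, Complex.conj_ofReal]
  obtain ⟨m1, m2, m3, m4, m5, m6⟩ :=
    hMS G p e (P : Subgroup G) X Y δ θ₁ θ₂ St hBase hStr hR1 hR2 hRS hsingv
  have hT1 : (θ₁ : G → ℂ) 1 = (e : ℂ) + 1 := by
    rw [Cfsg.Agent.H16.BR.irr_one_cast, hdegY θ₁ hθ₁]
    push_cast
    ring
  have hS1 : (St : G → ℂ) 1 = (p : ℂ) := by
    rw [Cfsg.Agent.H16.BR.irr_one_cast, hStdeg]
  have hfaith : ∀ g : G, (θ₁ : G → ℂ) g = (θ₁ : G → ℂ) 1 → g = 1 :=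
    fun g hg => faithful_of_simple θ₁ (hB.two_le_Y θ₁ hθ₁) g hg
  have habs := (Cfsg.Agent.H54.Br.abs (G := G) θ₁).1
  have hkey : ∀ g : G, ¬ p ∣ orderOf g → ∃ t : ℤ, (θ₁ : G → ℂ) g = (t : ℂ) ∧
      (g ≠ 1 → t ≤ (e : ℤ)) ∧
      ∃ s : ℝ, (St : G → ℂ) g = (s : ℂ) ∧ s ≤ (t : ℝ) ^ 2 + (e : ℝ) * (t : ℝ) + (e : ℝ) ∧
        s ≤ (t : ℝ) ^ 2 - (e : ℝ) * (t : ℝ) + (e : ℝ) := by
    intro g hg
    obtain ⟨t, ht⟩ := hint g hg
    refine ⟨t, ht, ?_, hpos g hg t ht⟩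
    intro hg1
    have h1 := habs g
    rw [ht, hdegY θ₁ hθ₁] at h1
    have h2 : ‖((t : ℤ) : ℂ)‖ = |(t : ℝ)| := by
      rw [← Complex.ofReal_intCast, Complex.norm_real, Real.norm_eq_abs]
    rw [h2] at h1
    have h3 : (t : ℝ) ≤ ((e + 1 : ℕ) : ℝ) := le_trans (le_abs_self _) h1
    have h4 : t ≤ ((e + 1 : ℕ) : ℤ) := by exact_mod_cast h3
    by_contra hlt
    have h5 : t = (e : ℤ) + 1 := by
      push_cast at h4
      omega
    apply hg1
    apply hfaith g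
    rw [ht, hT1, h5]
    push_cast
    ring
  have hfin := hMF G p e hpe.symm (by omega) (fun g => (θ₁ : G → ℂ) g) (fun g => (St : G → ℂ) g)
    hT1 hS1 hkey m1 m2 m3 m4 m5 m6
  rw [hfin, hpe]
  nlinarith [he0]

/-- The common end: `|G| < p ^ 3` and S0999. -/
theorem finish_of_lt (hAF : StArithFin) {G : Type u} [Group G] [Finite G] [IsSimpleGroup G]
    (hG : ¬ IsCyclic G) (p q b g₀ : ℕ) (hp : p.Prime) (hp2 : p ≠ 2) (hq : q.Prime)
    (hG' : Nat.card G = p * q ^ b * g₀) (hg : g₀ < p - 1) (hdvd : p ∣ Nat.card G)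
    (hlt : Nat.card G < p ^ 3) :
    (∃ (m : ℕ) (F : Type) (_ : Field F) (_ : Fintype F), Fintype.card F = p ∧
        (p = 2 ^ m + 1 ∨ p = 2 ^ m - 1) ∧
        Nonempty (G ≃* Matrix.ProjectiveSpecialLinearGroup (Fin 2) F)) ∨
      (∃ (m : ℕ) (F : Type) (_ : Field F) (_ : Fintype F), Fintype.card F = 2 ^ m ∧
        p = 2 ^ m + 1 ∧ 3 < p ∧
        Nonempty (G ≃* Matrix.ProjectiveSpecialLinearGroup (Fin 2) F)) := by
  rcases Cfsg.Agent.S0999.result hG p hp hdvd hlt with ⟨F, iF, iF', hF, -, ⟨f⟩⟩ | h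
  · left
    obtain ⟨m, hm⟩ := exists_m_of_iso hAF p q b g₀ hp hp2 hq hG' hg F hF f
    exact ⟨m, F, iF, iF', hF, hm, ⟨f⟩⟩
  · right
    exact h

/-- **S0997** from the pieces. -/
theorem bt_of (hS1 : StSmall1.{u}) (hS2 : StSmall2.{u}) (hA1 : StArith1.{u})
    (hA2 : StArith2.{u}) (hAF : StArithFin) (h4504 : StS4504.{u})
    (hB1T : StB1Tau.{u}) (hB1O : StB1Ord.{u}) (hB1C : StB1Class.{u}) (hB1S : StB1Syl.{u})
    (hSing : StB2Sing.{u}) (hReal : StB2Real.{u}) (hTwo : StB2Two.{u})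
    (hInt : StB2Int.{u}) (hProd : StB2Prod.{u}) (hId : StB2Id.{u}) (hStruct : StB2Struct.{u})
    (hGlob : StB2Glob.{u}) (hPos : StB2Pos.{u}) (hMS : StB2MomSum.{u}) (hMF : StB2MomFin.{u})
    {G : Type u} [Group G] [Finite G] [IsSimpleGroup G] (hG : ¬ IsCyclic G) (p q b g₀ : ℕ)
    (hp : p.Prime) (hq : q.Prime) (hpq : p ≠ q) (hG' : Nat.card G = p * q ^ b * g₀)
    (hg : g₀ < p - 1) :
    (∃ (m : ℕ) (F : Type) (_ : Field F) (_ : Fintype F), Fintype.card F = p ∧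
        (p = 2 ^ m + 1 ∨ p = 2 ^ m - 1) ∧
        Nonempty (G ≃* Matrix.ProjectiveSpecialLinearGroup (Fin 2) F)) ∨
      (∃ (m : ℕ) (F : Type) (_ : Field F) (_ : Fintype F), Fintype.card F = 2 ^ m ∧
        p = 2 ^ m + 1 ∧ 3 < p ∧
        Nonempty (G ≃* Matrix.ProjectiveSpecialLinearGroup (Fin 2) F)) := by
  classical
  haveI : Fact p.Prime := ⟨hp⟩
  have hnc := not_comm_of_simple hG
  have hG0 : 0 < Nat.card G := Nat.card_pos
  have hg0 : g₀ ≠ 0 := by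
    rintro rfl
    rw [mul_zero] at hG'
    omega
  have hp2 : p ≠ 2 := by
    rintro rfl
    omega
  have hm' : ¬ p ∣ q ^ b * g₀ := by
    intro h
    rcases (Nat.Prime.dvd_mul hp).mp h with h | h
    · exact hpq ((Nat.prime_dvd_prime_iff_eq hp hq).mp (hp.dvd_of_dvd_pow h))
    · have := Nat.le_of_dvd (Nat.pos_of_ne_zero hg0) h
      omega
  have hcard1 : Nat.card G = p ^ 1 * (q ^ b * g₀) := by rw [hG']; ring
  have hcard2 : Nat.card G = p * (q ^ b * g₀) := by rw [hG']; ring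
  obtain ⟨P⟩ : Nonempty (Sylow p G) := inferInstance
  have hP : Nat.card (P : Subgroup G) = p := by
    have := Cfsg.Agent.H21.sylow_card_of_card_eq hcard1 hm' P
    rwa [pow_one] at this
  obtain ⟨M, hM⟩ := Cfsg.Agent.H78.exists_isPModular p hp
  obtain ⟨⟨χ, hχB, hχ1, hχd⟩, hne⟩ := hS1 G hG p q b g₀ hq hpq hp2 hG' hg M hM P hP
  have hC := hS2 G hG p M hM P hP χ hχB hχ1 (by omega)
  obtain ⟨e, he, he1, hedvd, hpe⟩ := Cfsg.Agent.H21.simple_sylow_prime_card_NC hnc P hP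
  rw [← he] at hne
  have hp1 : 0 < p - 1 := by
    have := hp.two_le
    omega
  have he0 : 0 < e := Nat.pos_of_dvd_of_pos hedvd hp1
  have he2 : 2 ≤ e := by omega
  obtain ⟨t, ht⟩ := hedvd
  have het : e * t = p - 1 := ht.symm
  have ht2 : 2 ≤ t := by
    rcases Nat.lt_or_ge t 2 with h | h
    · exfalso
      interval_cases t
      · omega
      · rw [mul_one] at het
        exact hne het
    · exact h
  have hte : 2 * e ≤ p - 1 := by
    rw [← het]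
    calc 2 * e = e * 2 := by ring
      _ ≤ e * t := Nat.mul_le_mul_left e ht2
  have hNC := Cfsg.Agent.H21.card_centralizer_mul_relIndex_normalizer (P : Subgroup G)
  rw [← he, hC, hP] at hNC
  have hpeG : p * e ∣ Nat.card G := dvd_trans hpe (Subgroup.card_subgroup_dvd_card _)
  obtain ⟨X, Y, δ, ε, hB⟩ := Cfsg.Agent.H65.BR.b0_setup hG p hp2 P hP hC e he.symm hte
  obtain ⟨f0, hf0, hrel, hcolY, hcolYsq⟩ := Cfsg.Agent.H16.BR.col_facts p P hP hC e X Y δ ε hB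
  obtain ⟨hqdvd, hf0g, hcase⟩ :=
    hA1 G p q b g₀ e hq hpq hG' hg he2 hte (P : Subgroup G) X Y δ ε hB f0 hf0 hrel
  have hYne : Y.Nonempty := by
    rw [Finset.nonempty_iff_ne_empty]
    intro h0
    have h1 := hB.cardY
    rw [h0, Finset.card_empty, zero_mul] at h1
    omega
  rcases hcase with ⟨hε, hf0e⟩ | ⟨hε, hf0e⟩
  · -- type A
    left
    obtain ⟨ht2', -⟩ := Cfsg.Agent.H4.Prq.typeA G p hp2 P hP hC e t het he2 ht2 X Y δ ε hB hε
      (fun θ hθ => by rw [hf0 θ hθ, hf0e]) hcolY hcolYsq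
    obtain ⟨θ, hθ⟩ := hYne
    have hdeg : 2 * charDegree (θ : G → ℂ) + 1 = p := by
      rw [hf0 θ hθ, hf0e]
      rw [ht2'] at het
      omega
    obtain ⟨f⟩ := typeA_case h4504 hG p (q ^ b * g₀) hp hcard2 hm' θ hdeg (hB.two_le_Y θ hθ)
    obtain ⟨m, hm⟩ := exists_m_of_iso hAF p q b g₀ hp hp2 hq hG' hg (ZMod p) (ZMod.card p) f
    exact ⟨m, ZMod p, inferInstance, inferInstance, ZMod.card p, hm, ⟨f⟩⟩
  · -- type B
    subst hε
    have hep : e ≤ p := by omega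
    have hrel' : -((p - e : ℕ) : ℤ) = ∑ χ ∈ X, δ χ * (charDegree (χ : G → ℂ) : ℤ) := by
      rw [← hrel, hf0e]
      ring
    obtain ⟨hq2, hg0e, hcase2⟩ := hA2 G p q b g₀ e hq hpq hG' hg he2 ⟨t, ht⟩ hte hpeG
      (P : Subgroup G) X Y δ hB (fun θ hθ => by rw [hf0 θ hθ, hf0e]) hrel' hqdvd
      (hf0e ▸ hf0g)
    subst hq2
    subst hg0e
    have hdvd : p ∣ Nat.card G := by rw [hcard2]; exact dvd_mul_right _ _
    apply finish_of_lt hAF hG p 2 b (p - e) hp hp2 hq hG' hg hdvd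
    have hcolY' : ∀ x ∈ (P : Subgroup G), x ≠ 1 → ∑ θ ∈ Y, (θ : G → ℂ) x = 1 := by
      intro x hx hx1
      rw [hcolY x hx hx1]
      push_cast
      ring
    rcases hcase2 with rfl | ⟨he2', he4⟩
    · -- B1
      exact b1_case hB1T hB1O hB1C hB1S p b hp2 hG' P hP hC hNC.symm X Y δ hB
        (fun θ hθ => by rw [hf0 θ hθ, hf0e]) hcolY'
    · -- B2
      have hpe' : p - e = e + 1 := by omega
      refine b2_case hSing hReal hTwo hInt hProd hId hStruct hGlob hPos hMS hMF p e hp2 he2' he4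
        P hP hC hNC.symm X Y δ hB (fun θ hθ => by rw [hf0 θ hθ, hf0e, hpe']) ?_
        (fun χ hχ hχ1 => hqdvd χ hχ hχ1) hcolY' ?_
      · rw [← hrel, hf0e, hpe']
        push_cast
        ring
      · intro x hx hx1
        rw [hcolYsq x hx hx1]
        have : (p : ℂ) = 2 * (e : ℂ) + 1 := by
          have : p = 2 * e + 1 := by omega
          rw [this]
          push_cast
          ring
        rw [this]
        ring

end Cfsg.Agent.H74.BT
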