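import Cfsg.Agent.H74.DihBasic
import Cfsg.Agent.H74.SRingSchur
import Cfsg.Agent.H12.DihFrob
import Cfsg.Agent.H12.DihST
import Cfsg.Agent.H12.DihRCa
import Cfsg.Agent.H51.DihQ
import Cfsg.Agent.H51.DihR3C
import Cfsg.Agent.H98.DihR3T
import Cfsg.Agent.H98.DihR3O
import Cfsg.Agent.H67.DihRCbCore
import Cfsg.Agent.H71.DihFG
import Cfsg.Agent.H11.DihTA

set_option autoImplicit false

/-!
# Primitive Schur rings over dihedral groups are trivial (helper74, assembly for S3572)
-/

namespace Cfsg.Agent.H74.Dih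

open DihedralGroup

variable {n : ℕ} [NeZero n]

/-- two nonzero elements killed by the prime `p` generate the same subgroup of `ZMod n`. -/
theorem zmultiples_eq_of_prime {p : ℕ} (hp : p.Prime) (hpn : p ∣ n) {c z : ZMod n} (hc : c ≠ 0)
    (hpc : p • c = 0) (hz : z ≠ 0) (hpz : p • z = 0) :
    AddSubgroup.zmultiples c = AddSubgroup.zmultiples z := by
  classical
  have key : ∀ {c z : ZMod n}, c ≠ 0 → p • c = 0 → p • z = 0 → z ∈ AddSubgroup.zmultiples c := by
    intro c z hc hpc hpz
    have hord : addOrderOf c = p := by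
      have hdvd : addOrderOf c ∣ p := addOrderOf_dvd_of_nsmul_eq_zero hpc
      rcases (Nat.dvd_prime hp).1 hdvd with h | h
      · exact absurd (AddMonoid.addOrderOf_eq_one_iff.1 h) hc
      · exact h
    let M : Finset (ZMod n) := (Finset.range p).image (fun j : ℕ => j • c)
    have hMcard : M.card = p := by
      rw [Finset.card_image_of_injOn, Finset.card_range]
      intro a ha b hb hab
      simp only [Finset.coe_range, Set.mem_Iio] at ha hb
      have := nsmul_injOn_Iio_addOrderOf (x := c)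
      exact this (by rw [hord]; exact ha) (by rw [hord]; exact hb) hab
    have hMsub : M ⊆ Finset.univ.filter (fun w : ZMod n => p • w = 0) := by
      intro w hw
      obtain ⟨j, _, rfl⟩ := Finset.mem_image.1 hw
      rw [Finset.mem_filter]
      refine ⟨Finset.mem_univ _, ?_⟩
      rw [smul_comm, hpc, smul_zero]
    have heq := Finset.eq_of_subset_of_card_le hMsub
      (by rw [hMcard]; exact SR.card_ker_le hp.pos hpn)
    have hzM : z ∈ M := by
      rw [heq, Finset.mem_filter]; exact ⟨Finset.mem_univ _, hpz⟩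
    obtain ⟨j, _, rfl⟩ := Finset.mem_image.1 hzM
    exact AddSubgroup.nsmul_mem_zmultiples c j
  apply le_antisymm
  · rw [AddSubgroup.zmultiples_le]; exact key hz hpz hpc
  · rw [AddSubgroup.zmultiples_le]; exact key hc hpc hpz

/-- for `n = 1` every partition is trivial. -/
theorem triv_of_one (P : PSR n) (hn1 : n = 1) : P.Triv := by
  subst hn1
  intro h h' hh hh'
  have key : ∀ x : DihedralGroup 1, x ≠ 1 → x = sr 0 := by
    intro x hx
    cases x with
    | r i => exact absurd (by rw [Subsingleton.elim i 0, r_zero]) hx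
    | sr i => rw [Subsingleton.elim i 0]
  rw [key h hh, key h' hh']
  exact P.refl _

/-- triviality descends from the rational closure (helper67's core + helper12's Frobenius). -/
theorem triv_of_ratRel' (P : PSR n)
    (h : ∀ h h' : DihedralGroup n, h ≠ 1 → h' ≠ 1 → ratRel P h h') : P.Triv := by
  by_cases hn1 : n = 1
  · exact triv_of_one P hn1
  have hn0 : n ≠ 0 := NeZero.ne n
  have hn2 : 2 ≤ n := by omega
  exact Cfsg.Agent.H67.Dih.triv_core P (fun x hx => exists_r P hn2 x hx)
    (fun f hf k => resp_cpow P f hf k) (fun f k => sum_cpow f k)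
    (fun p hp hp2 f hf k => Cfsg.Agent.H12.Dih.frob P p hp hp2 f hf k) h

/-- a rational primitive Schur ring over a dihedral group is trivial. -/
theorem rational_triv (P : PSR n)
    (hrat : ∀ i j : ZMod n, AddSubgroup.zmultiples i = AddSubgroup.zmultiples j →
      P.rel (r i) (r j)) : P.Triv := by
  by_cases hn1 : n = 1
  · subst hn1
    intro h h' hh hh'
    have key : ∀ x : DihedralGroup 1, x ≠ 1 → x = sr 0 := by
      intro x hx
      cases x with
      | r i => exact absurd (by rw [Subsingleton.elim i 0, r_zero]) hx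
      | sr i => rw [Subsingleton.elim i 0]
    rw [key h hh, key h' hh']
    exact P.refl _
  have hn0 : n ≠ 0 := NeZero.ne n
  have hn2 : 2 ≤ n := by omega
  -- choose the prime
  obtain ⟨p, hp, hpn, h2⟩ : ∃ p : ℕ, p.Prime ∧ p ∣ n ∧ (p = 2 → ∃ e : ℕ, n = 2 ^ e) := by
    by_cases hodd : ∃ p : ℕ, p.Prime ∧ p ∣ n ∧ p ≠ 2
    · obtain ⟨p, hp, hpn, hp2⟩ := hodd
      exact ⟨p, hp, hpn, fun h => absurd h hp2⟩
    · push Not at hodd
      have hpow : n = 2 ^ n.primeFactorsList.length :=
        Nat.eq_prime_pow_of_unique_prime_dvd hn0 (fun {d} hd hdn => hodd d hd hdn)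
      refine ⟨2, Nat.prime_two, ?_, fun _ => ⟨_, hpow⟩⟩
      obtain ⟨q, hq, hqn⟩ := Nat.exists_prime_and_dvd hn1
      rwa [hodd q hq hqn] at hqn
  have hA : ∀ h : DihedralGroup n, h ≠ 1 → ∃ i : ZMod n, P.rel h (r i) ∧ p ∣ addOrderOf i := by
    by_cases hp2 : p = 2
    · obtain ⟨e, he⟩ := h2 hp2
      intro h hh
      obtain ⟨i, hi0, hi⟩ := exists_r P hn2 h hh
      refine ⟨i, hi, ?_⟩
      have hdvd : addOrderOf i ∣ 2 ^ e := by
        have h1 : addOrderOf i ∣ Fintype.card (ZMod n) := addOrderOf_dvd_card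
        rw [ZMod.card] at h1
        exact he ▸ h1
      obtain ⟨k, _, hk'⟩ := (Nat.dvd_prime_pow Nat.prime_two).1 hdvd
      rw [hp2, hk']
      cases k with
      | zero =>
        rw [pow_zero] at hk'
        exact absurd (AddMonoid.addOrderOf_eq_one_iff.1 hk') hi0
      | succ k => exact dvd_pow_self 2 (Nat.succ_ne_zero k)
    · exact fun h hh => Cfsg.Agent.H11.Dih.thmA P p hp hp2 hpn h hh
  have hst := Cfsg.Agent.H12.Dih.struct P hrat p hp hpn h2 hA
  obtain ⟨z, hzdef⟩ : ∃ z : ZMod n, z = ((n / p : ℕ) : ZMod n) := ⟨_, rfl⟩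
  have hz : z ≠ 0 := by rw [hzdef]; exact SR.div_ne_zero hp hpn
  have hpz : p • z = 0 := by rw [hzdef]; exact SR.nsmul_div_eq_zero hpn
  have hC : ∀ c : ZMod n, c ≠ 0 → p • c = 0 → P.rel (r c) (r z) := by
    intro c hc hpc
    exact hrat c z (zmultiples_eq_of_prime hp hpn hc hpc hz hpz)
  have htwo : ∀ h h' : DihedralGroup n, h ≠ 1 → h' ≠ 1 → ¬ P.rel h (r z) → ¬ P.rel h' (r z) →
      P.rel h h' := fun h h' hh hh' h1 h1' =>
    Cfsg.Agent.H51.Dih.atMostTwo P p hp z hz hpz hst hC h h' hh hh' h1 h1'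
  have hall : ∀ h : DihedralGroup n, h ≠ 1 → P.rel h (r z) := by
    intro h hh
    by_contra hcon
    obtain ⟨A, B, μ, N, hA0, hAne, hAz, hAs, hBz, h1, h2'⟩ :=
      Cfsg.Agent.H51.Dih.rank3_data P p hp z hz hpz hst hC htwo h hh hcon
    by_cases hp2 : p = 2
    · obtain ⟨e, he⟩ := h2 hp2
      subst hp2
      exact Cfsg.Agent.H98.Dih.r3_two_core e he z hz hpz A B μ N hA0 hAne hAz hAs hBz h1 h2'
    · exact Cfsg.Agent.H98.Dih.r3_odd_core p hp hp2 z hz hpz A B μ N hA0 hAne hAz hAs hBz h1 h2'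
  intro h h' hh hh'
  exact P.trans (hall h hh) (P.symm (hall h' hh'))

/-- **Wielandt**: a primitive Schur ring over a dihedral group is trivial. -/
theorem PSR.triv (P : PSR n) : P.Triv := by
  obtain ⟨P', hP'⟩ := Cfsg.Agent.H12.Dih.exists_ratPSR P
  apply triv_of_ratRel' P
  have hrat : ∀ i j : ZMod n, AddSubgroup.zmultiples i = AddSubgroup.zmultiples j →
      P'.rel (r i) (r j) := by
    intro i j hij
    rw [hP']
    intro f _ hf
    exact hf i j hij
  have htriv := rational_triv P' hrat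
  intro h h' hh hh'
  have := htriv h h' hh hh'
  rwa [hP'] at this

end Cfsg.Agent.H74.Dih
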