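import Mathlib
import Cfsg.Prelude.Def_Local

set_option autoImplicit false

/-!
# Frattini-quotient lemmas for a `p`-group with `|P : Φ(P)| = p ^ 2` (helper74)
-/

namespace Cfsg.Agent.H74.FSM

section frat

variable {W : Type*} [Group W]

/-- a generator of a cyclic quotient. -/
lemma exists_gen_of_isCyclic_quotient (S : Subgroup W) [S.Normal] (h : IsCyclic (W ⧸ S)) :
    ∃ x : W, ∀ y : W, ∃ k : ℤ, (x ^ k)⁻¹ * y ∈ S := by
  obtain ⟨g, hg⟩ := h.exists_zpow_surjective
  obtain ⟨x, rfl⟩ := QuotientGroup.mk_surjective g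
  refine ⟨x, fun y => ?_⟩
  obtain ⟨k, hk⟩ := hg (QuotientGroup.mk y)
  refine ⟨k, ?_⟩
  rw [← QuotientGroup.eq, QuotientGroup.mk_zpow]
  exact hk

/-- two normal subgroups with cyclic quotients and trivial intersection force commutativity. -/
lemma commute_of_isCyclic_quotients (S₁ S₂ : Subgroup W) [S₁.Normal] [S₂.Normal]
    (h₁ : IsCyclic (W ⧸ S₁)) (h₂ : IsCyclic (W ⧸ S₂)) (h : S₁ ⊓ S₂ = ⊥) (a b : W) :
    a * b = b * a := by
  have key : ∀ (S : Subgroup W) [S.Normal], IsCyclic (W ⧸ S) → a * b * a⁻¹ * b⁻¹ ∈ S := by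
    intro S _ hc
    obtain ⟨g, hg⟩ := hc.exists_zpow_surjective
    obtain ⟨i, hi⟩ := hg (QuotientGroup.mk a)
    obtain ⟨j, hj⟩ := hg (QuotientGroup.mk b)
    have hi' : g ^ i = QuotientGroup.mk a := hi
    have hj' : g ^ j = QuotientGroup.mk b := hj
    rw [← QuotientGroup.eq_one_iff]
    simp only [QuotientGroup.mk_mul, QuotientGroup.mk_inv]
    rw [← hi', ← hj', ← zpow_add, ← zpow_neg, ← zpow_add, ← zpow_neg, ← zpow_add]
    have : i + j + -i + -j = 0 := by ring
    rw [this, zpow_zero]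
  have h1 : a * b * a⁻¹ * b⁻¹ ∈ S₁ ⊓ S₂ := ⟨key S₁ h₁, key S₂ h₂⟩
  rw [h, Subgroup.mem_bot] at h1
  calc a * b = a * b * a⁻¹ * b⁻¹ * (b * a) := by group
    _ = b * a := by rw [h1, one_mul]

variable [Finite W] {p : ℕ} [hp : Fact p.Prime]

/-- a normal subgroup not inside the Frattini subgroup has cyclic quotient, when the Frattini
quotient has order `p ^ 2`. -/
lemma isCyclic_quotient_of_not_le_frattini (hidx : (frattini W).index = p ^ 2) (S : Subgroup W)
    [S.Normal] (hS : ¬ S ≤ frattini W) : IsCyclic (W ⧸ S) := by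
  have hpp : p.Prime := hp.out
  have hFn : (frattini W).Normal := Subgroup.normal_of_characteristic _
  have hTi : (S ⊔ frattini W).index ∣ p ^ 2 := by
    rw [← hidx]; exact Subgroup.index_dvd_of_le le_sup_right
  have hTne : (S ⊔ frattini W).index ≠ p ^ 2 := by
    intro h
    have h1 := Subgroup.relIndex_mul_index (le_sup_right : frattini W ≤ S ⊔ frattini W)
    rw [h, hidx] at h1
    have h2 : (frattini W).relIndex (S ⊔ frattini W) = 1 := by
      have hpos : 0 < p ^ 2 := pow_pos hpp.pos 2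
      exact Nat.eq_of_mul_eq_mul_right hpos (by rw [h1, one_mul])
    rw [Subgroup.relIndex_eq_one] at h2
    exact hS (le_sup_left.trans h2)
  obtain ⟨k, hk, hk'⟩ := (Nat.dvd_prime_pow hpp).1 hTi
  have hk2 : k ≠ 2 := fun h => hTne (by rw [hk', h])
  have hcyc : IsCyclic (W ⧸ (S ⊔ frattini W)) := by
    have hcard : Nat.card (W ⧸ (S ⊔ frattini W)) = p ^ k := by
      rw [← hk']; exact (Subgroup.index_eq_card _).symm
    interval_cases k
    · rw [pow_zero] at hcard
      haveI : Subsingleton (W ⧸ (S ⊔ frattini W)) := (Nat.card_eq_one_iff_unique.1 hcard).1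
      exact isCyclic_of_subsingleton
    · rw [pow_one] at hcard
      exact isCyclic_of_prime_card hcard
    · exact absurd rfl hk2
  obtain ⟨x, hx⟩ := exists_gen_of_isCyclic_quotient (S ⊔ frattini W) hcyc
  have htop : Subgroup.zpowers x ⊔ S = ⊤ := by
    apply frattini_nongenerating
    rw [eq_top_iff]
    intro y _
    obtain ⟨k, hk⟩ := hx y
    have : y = x ^ k * ((x ^ k)⁻¹ * y) := by group
    rw [this, sup_assoc]
    exact Subgroup.mul_mem_sup (Subgroup.zpow_mem_zpowers x k) hk
  refine ⟨⟨QuotientGroup.mk x, fun q => ?_⟩⟩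
  obtain ⟨y, rfl⟩ := QuotientGroup.mk_surjective q
  have hy : y ∈ Subgroup.zpowers x ⊔ S := by rw [htop]; trivial
  obtain ⟨a, ha, s, hs, rfl⟩ := Subgroup.mem_sup_of_normal_right.1 hy
  obtain ⟨k, rfl⟩ := Subgroup.mem_zpowers_iff.1 ha
  refine ⟨k, ?_⟩
  show (QuotientGroup.mk x : W ⧸ S) ^ k = QuotientGroup.mk (x ^ k * s)
  rw [QuotientGroup.mk_mul, (QuotientGroup.eq_one_iff s).2 hs, mul_one, QuotientGroup.mk_zpow]

/-- with Frattini quotient of order `p ^ 2` in a noncommutative group: commutators and `p`-th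
powers lie in the Frattini subgroup. -/
lemma comm_pow_mem_frattini (hidx : (frattini W).index = p ^ 2)
    (hnc : ¬ ∀ a b : W, a * b = b * a) :
    (∀ a b : W, a * b * a⁻¹ * b⁻¹ ∈ frattini W) ∧ ∀ a : W, a ^ p ∈ frattini W := by
  have hpp : p.Prime := hp.out
  have hFn : (frattini W).Normal := Subgroup.normal_of_characteristic _
  have hcard : Nat.card (W ⧸ frattini W) = p ^ 2 := by
    rw [← hidx]; exact (Subgroup.index_eq_card _).symm
  constructor
  · intro a b
    rw [← QuotientGroup.eq_one_iff]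
    simp only [QuotientGroup.mk_mul, QuotientGroup.mk_inv]
    have := IsPGroup.commutative_of_card_eq_prime_sq hcard (QuotientGroup.mk a)
      (QuotientGroup.mk b)
    rw [this]; group
  · intro a
    rw [← QuotientGroup.eq_one_iff, QuotientGroup.mk_pow]
    have hdvd : orderOf (QuotientGroup.mk a : W ⧸ frattini W) ∣ p ^ 2 := by
      rw [← hcard]; exact orderOf_dvd_natCard _
    obtain ⟨k, hk, hk'⟩ := (Nat.dvd_prime_pow hpp).1 hdvd
    have hk2 : k ≠ 2 := by
      intro h2
      apply hnc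
      have hc : IsCyclic (W ⧸ frattini W) :=
        isCyclic_of_orderOf_eq_card _ (by rw [hk', h2, hcard])
      obtain ⟨x, hx⟩ := exists_gen_of_isCyclic_quotient (frattini W) hc
      have htop : Subgroup.zpowers x = ⊤ := by
        apply frattini_nongenerating
        rw [eq_top_iff]
        intro y _
        obtain ⟨j, hj⟩ := hx y
        have : y = x ^ j * ((x ^ j)⁻¹ * y) := by group
        rw [this]
        exact Subgroup.mul_mem_sup (Subgroup.zpow_mem_zpowers x j) hj
      intro a b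
      have ha : a ∈ Subgroup.zpowers x := by rw [htop]; trivial
      have hb : b ∈ Subgroup.zpowers x := by rw [htop]; trivial
      obtain ⟨i, rfl⟩ := Subgroup.mem_zpowers_iff.1 ha
      obtain ⟨j, rfl⟩ := Subgroup.mem_zpowers_iff.1 hb
      rw [← zpow_add, ← zpow_add, add_comm]
    have hk1 : k ≤ 1 := by omega
    have hdp : orderOf (QuotientGroup.mk a : W ⧸ frattini W) ∣ p := by
      rw [hk']
      calc p ^ k ∣ p ^ 1 := pow_dvd_pow p hk1
        _ = p := pow_one p
    exact orderOf_dvd_iff_pow_eq_one.1 hdp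

end frat

/-- a normal subgroup with a normal `p`-complement is a `p`-group, when `O_{p'}(G) = 1`. -/
lemma isPGroup_of_hasNormalPComplement {G : Type*} [Group G] [Finite G] {p : ℕ} [Fact p.Prime]
    (hcore : Cfsg.pPrimeCore p G = ⊥) (K : Subgroup G) [hKn : K.Normal]
    (h : Cfsg.HasNormalPComplement p K) : IsPGroup p K := by
  obtain ⟨Q, N', hN'n, hc⟩ := h
  have hpp : p.Prime := Fact.out
  have hcardmul : Nat.card N' * Nat.card (Q : Subgroup K) = Nat.card K := hc.card_mul_card
  have hidx : N'.index = Nat.card (Q : Subgroup K) := hc.symm.index_eq_card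
  obtain ⟨n, hn⟩ := (IsPGroup.iff_card).1 Q.isPGroup'
  have hcop : (Nat.card N').Coprime p := by
    have h1 : (Q : Subgroup K).index = Nat.card N' := hc.index_eq_card
    rw [← h1]
    exact ((Nat.Prime.coprime_iff_not_dvd hpp).2 Q.not_dvd_index).symm
  have hMn : (N'.map K.subtype).Normal := by
    constructor
    intro m hm g
    obtain ⟨m', hm', rfl⟩ := hm
    have hk : g * (m' : G) * g⁻¹ ∈ K := hKn.conj_mem _ m'.2 g
    refine ⟨⟨_, hk⟩, ?_, rfl⟩
    rw [SetLike.mem_coe, ← QuotientGroup.eq_one_iff]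
    have ho1 : orderOf (QuotientGroup.mk (⟨_, hk⟩ : K) : K ⧸ N') ∣ p ^ n := by
      rw [← hn, ← hidx, Subgroup.index_eq_card]; exact orderOf_dvd_natCard _
    have ho2 : orderOf (QuotientGroup.mk (⟨_, hk⟩ : K) : K ⧸ N') ∣ Nat.card N' := by
      apply orderOf_dvd_of_pow_eq_one
      rw [← QuotientGroup.mk_pow, QuotientGroup.eq_one_iff]
      have h3 : (⟨_, hk⟩ : K) ^ Nat.card N' = 1 := by
        apply Subtype.ext
        simp only [Subgroup.coe_pow, Subgroup.coe_one]
        rw [conj_pow]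
        have h4 : (m' : G) ^ Nat.card N' = 1 := by
          have h2 : (⟨m', hm'⟩ : N') ^ Nat.card N' = 1 := pow_card_eq_one'
          have h5 : ((((⟨m', hm'⟩ : N') ^ Nat.card N' : N') : K) : G) = 1 := by rw [h2]; rfl
          exact h5
        rw [h4]; group
      rw [h3]; exact Subgroup.one_mem _
    have ho3 := Nat.dvd_gcd ho1 ho2
    have hg : Nat.gcd (p ^ n) (Nat.card N') = 1 := Nat.Coprime.pow_left n hcop.symm
    rw [hg, Nat.dvd_one] at ho3
    exact orderOf_eq_one_iff.1 ho3
  have hMc : (Nat.card (N'.map K.subtype)).Coprime p := by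
    rw [Subgroup.card_map_of_injective K.subtype_injective]; exact hcop
  have hMle : N'.map K.subtype ≤ Cfsg.pPrimeCore p G := le_sSup ⟨hMn, hMc⟩
  rw [hcore, le_bot_iff, Subgroup.map_eq_bot_iff_of_injective _ K.subtype_injective] at hMle
  rw [hMle, Subgroup.card_bot, one_mul, hn] at hcardmul
  exact IsPGroup.of_card hcardmul.symm

end Cfsg.Agent.H74.FSM
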