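import Cfsg.Agent.H74.FStarMinA
import Cfsg.Agent.H2.Tate

set_option autoImplicit false

/-!
# Groups whose Sylow `p`-subgroup `P` is nonabelian with `|P : Φ(P)| = p ^ 2`,
`O_{p'}(G) = 1` and `core_G(Φ(P)) = 1`: the unique minimal normal subgroup (helper74)
-/

namespace Cfsg.Agent.H74.FSM

universe u

variable {G : Type u} [Group G] [Finite G] {p : ℕ} [Fact p.Prime]

/-- the Frattini subgroup of `P`, as a subgroup of `G`. -/
def Phi (P : Sylow p G) : Subgroup G :=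
  (frattini ↥(P : Subgroup G)).map (P : Subgroup G).subtype

/-- the standing hypotheses. -/
structure Hyp (P : Sylow p G) : Prop where
  hna : ¬ IsMulCommutative ↥(P : Subgroup G)
  hgen : (frattini ↥(P : Subgroup G)).index = p ^ 2
  hcore : Cfsg.pPrimeCore p G = ⊥
  hfrat : (Phi P).normalCore = ⊥

variable {P : Sylow p G}

lemma mem_Phi {x : G} (hx : x ∈ (P : Subgroup G)) :
    x ∈ Phi P ↔ (⟨x, hx⟩ : ↥(P : Subgroup G)) ∈ frattini ↥(P : Subgroup G) := by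
  constructor
  · rintro ⟨y, hy, hyx⟩
    have : y = ⟨x, hx⟩ := Subtype.ext hyx
    rwa [← this]
  · intro h
    exact ⟨⟨x, hx⟩, h, rfl⟩

namespace Hyp

variable (H : Hyp P)
include H

lemma not_comm : ¬ ∀ a b : ↥(P : Subgroup G), a * b = b * a :=
  fun h => H.hna ⟨⟨h⟩⟩

/-- a nontrivial normal subgroup does not meet `P` inside `Φ(P)`. -/
lemma not_inf_le_Phi (K : Subgroup G) [K.Normal] (hK : K ≠ ⊥) :
    ¬ K ⊓ (P : Subgroup G) ≤ Phi P := by
  intro h
  have h1 := Cfsg.Agent.H2.tate_normal P K h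
  have h2 : IsPGroup p K := isPGroup_of_hasNormalPComplement H.hcore K h1
  have h3 : K ≤ (P : Subgroup G) := h2.le_sylow_of_normal P
  have h4 : K ≤ Phi P := fun x hx => h ⟨hx, h3 hx⟩
  have h5 : K ≤ (Phi P).normalCore := Subgroup.normal_le_normalCore.2 h4
  rw [H.hfrat, le_bot_iff] at h5
  exact hK h5

/-- a `P`-invariant subgroup not meeting `P` inside `Φ(P)` gives a cyclic quotient of `P`. -/
lemma isCyclic_quotient (K : Subgroup G) [hn : (K.subgroupOf (P : Subgroup G)).Normal]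
    (hK : ¬ K ⊓ (P : Subgroup G) ≤ Phi P) :
    IsCyclic (↥(P : Subgroup G) ⧸ K.subgroupOf (P : Subgroup G)) := by
  apply isCyclic_quotient_of_not_le_frattini H.hgen
  intro h
  apply hK
  rintro x ⟨hxK, hxP⟩
  exact ⟨⟨x, hxP⟩, h (Subgroup.mem_subgroupOf.2 hxK), rfl⟩

/-- two `P`-invariant subgroups, neither meeting `P` inside `Φ(P)`, cannot meet trivially
inside `P`. -/
lemma false_of_two (K₁ K₂ : Subgroup G)
    (h₁n : (P : Subgroup G) ≤ Subgroup.normalizer (K₁ : Set G))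
    (h₂n : (P : Subgroup G) ≤ Subgroup.normalizer (K₂ : Set G))
    (h₁ : ¬ K₁ ⊓ (P : Subgroup G) ≤ Phi P) (h₂ : ¬ K₂ ⊓ (P : Subgroup G) ≤ Phi P)
    (hinf : ∀ x, x ∈ K₁ → x ∈ K₂ → x ∈ (P : Subgroup G) → x = 1) : False := by
  haveI := Subgroup.normal_subgroupOf_of_le_normalizer h₁n
  haveI := Subgroup.normal_subgroupOf_of_le_normalizer h₂n
  have c₁ := H.isCyclic_quotient K₁ h₁
  have c₂ := H.isCyclic_quotient K₂ h₂
  apply H.not_comm
  apply commute_of_isCyclic_quotients _ _ c₁ c₂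
  rw [eq_bot_iff]
  rintro x ⟨hx1, hx2⟩
  rw [Subgroup.mem_bot]
  apply Subtype.ext
  exact hinf x (Subgroup.mem_subgroupOf.1 hx1) (Subgroup.mem_subgroupOf.1 hx2) x.2

/-- a conjugation-stable set inside `Φ(P)` is trivial. -/
lemma eq_one_of_conj_mem_Phi {x : G} (hx : ∀ g : G, g * x * g⁻¹ ∈ Phi P) : x = 1 := by
  have h1 : Subgroup.normalClosure ({x} : Set G) ≤ Phi P := by
    unfold Subgroup.normalClosure
    rw [Subgroup.closure_le]
    intro y hy
    rw [Group.mem_conjugatesOfSet_iff] at hy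
    obtain ⟨a, ha, hay⟩ := hy
    rw [Set.mem_singleton_iff] at ha
    subst ha
    obtain ⟨c, rfl⟩ := isConj_iff.1 hay
    exact hx c
  have h2 : Subgroup.normalClosure ({x} : Set G) ≤ (Phi P).normalCore :=
    Subgroup.normal_le_normalCore.2 h1
  rw [H.hfrat, le_bot_iff] at h2
  have h3 : x ∈ Subgroup.normalClosure ({x} : Set G) :=
    Subgroup.subset_normalClosure (Set.mem_singleton x)
  rw [h2, Subgroup.mem_bot] at h3
  exact h3

/-- a normal subgroup of `G` inside `P` is elementary abelian. -/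
lemma elemAb_of_normal_le (K : Subgroup G) [hKn : K.Normal] (hKP : K ≤ (P : Subgroup G)) :
    (∀ a ∈ K, ∀ b ∈ K, a * b = b * a) ∧ ∀ a ∈ K, a ^ p = 1 := by
  obtain ⟨hcomm, hpow⟩ := comm_pow_mem_frattini H.hgen H.not_comm
  constructor
  · intro a ha b hb
    have h1 : a * b * a⁻¹ * b⁻¹ = 1 := by
      apply H.eq_one_of_conj_mem_Phi
      intro g
      have ha' : g * a * g⁻¹ ∈ K := hKn.conj_mem a ha g
      have hb' : g * b * g⁻¹ ∈ K := hKn.conj_mem b hb g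
      have e : g * (a * b * a⁻¹ * b⁻¹) * g⁻¹ =
          (g * a * g⁻¹) * (g * b * g⁻¹) * (g * a * g⁻¹)⁻¹ * (g * b * g⁻¹)⁻¹ := by group
      rw [e]
      have := hcomm ⟨_, hKP ha'⟩ ⟨_, hKP hb'⟩
      exact ⟨_, this, rfl⟩
    calc a * b = a * b * a⁻¹ * b⁻¹ * (b * a) := by group
      _ = b * a := by rw [h1, one_mul]
  · intro a ha
    apply H.eq_one_of_conj_mem_Phi
    intro g
    have ha' : g * a * g⁻¹ ∈ K := hKn.conj_mem a ha g
    have e : g * a ^ p * g⁻¹ = (g * a * g⁻¹) ^ p := (conj_pow).symm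
    rw [e]
    have := hpow ⟨_, hKP ha'⟩
    exact ⟨_, this, rfl⟩

/-- `G` is nontrivial. -/
lemma top_ne_bot : (⊤ : Subgroup G) ≠ ⊥ := by
  intro h
  apply H.not_comm
  intro a b
  have ha : (a : G) = 1 := by
    have : (a : G) ∈ (⊤ : Subgroup G) := Subgroup.mem_top _
    rwa [h, Subgroup.mem_bot] at this
  have hb : (b : G) = 1 := by
    have : (b : G) ∈ (⊤ : Subgroup G) := Subgroup.mem_top _
    rwa [h, Subgroup.mem_bot] at this
  apply Subtype.ext
  simp [ha, hb]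

/-- two nontrivial normal subgroups meet nontrivially. -/
lemma inf_ne_bot (K₁ K₂ : Subgroup G) [K₁.Normal] [K₂.Normal] (h₁ : K₁ ≠ ⊥) (h₂ : K₂ ≠ ⊥) :
    K₁ ⊓ K₂ ≠ ⊥ := by
  intro h
  apply H.false_of_two K₁ K₂ (by rw [Subgroup.normalizer_eq_top]; exact le_top)
    (by rw [Subgroup.normalizer_eq_top]; exact le_top) (H.not_inf_le_Phi K₁ h₁)
    (H.not_inf_le_Phi K₂ h₂)
  intro x hx1 hx2 _
  have : x ∈ K₁ ⊓ K₂ := ⟨hx1, hx2⟩
  rwa [h, Subgroup.mem_bot] at this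

/-- there is a unique minimal normal subgroup. -/
lemma exists_min : ∃ N : Subgroup G, N.Normal ∧ N ≠ ⊥ ∧
    ∀ K : Subgroup G, K.Normal → K ≠ ⊥ → N ≤ K := by
  classical
  have hex : ∃ n : ℕ, ∃ K : Subgroup G, K.Normal ∧ K ≠ ⊥ ∧ Nat.card K = n :=
    ⟨_, ⊤, inferInstance, H.top_ne_bot, rfl⟩
  obtain ⟨N, hNn, hN, hNc⟩ := Nat.find_spec hex
  refine ⟨N, hNn, hN, fun K hKn hK => ?_⟩
  have h1 : N ⊓ K ≠ ⊥ := H.inf_ne_bot N K hN hK
  have h2 : (N ⊓ K).Normal := Subgroup.normal_inf_normal N K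
  have h3 : Nat.find hex ≤ Nat.card ↥(N ⊓ K) := Nat.find_min' hex ⟨N ⊓ K, h2, h1, rfl⟩
  rw [← hNc] at h3
  have h4 : N ⊓ K = N := Subgroup.eq_of_le_of_card_ge inf_le_left h3
  rw [← h4]
  exact inf_le_right

end Hyp

end Cfsg.Agent.H74.FSM
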