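import Cfsg.Agent.H74.FStarMinB
import Cfsg.Agent.H74.Basic
import Cfsg.Agent.H1.Gaschutz

set_option autoImplicit false

/-!
# The unique minimal normal subgroup: the abelian case and central perfect case (helper74)
-/

namespace Cfsg.Agent.H74.FSM

universe u

variable {G : Type u} [Group G] [Finite G] {p : ℕ} [Fact p.Prime] {P : Sylow p G}

namespace Hyp

variable (H : Hyp P)
include H

/-- a generator of `P` modulo a nontrivial normal subgroup. -/
lemma exists_gen (N : Subgroup G) [N.Normal] (hN : N ≠ ⊥) :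
    ∃ x ∈ (P : Subgroup G), ∀ y ∈ (P : Subgroup G), ∃ k : ℤ, (x ^ k)⁻¹ * y ∈ N := by
  have : (N.subgroupOf (P : Subgroup G)).Normal := Subgroup.normal_subgroupOf
  have hc := H.isCyclic_quotient N (H.not_inf_le_Phi N hN)
  obtain ⟨x, hx⟩ := exists_gen_of_isCyclic_quotient _ hc
  refine ⟨x, x.2, fun y hy => ?_⟩
  obtain ⟨k, hk⟩ := hx ⟨y, hy⟩
  refine ⟨k, ?_⟩
  have := Subgroup.mem_subgroupOf.1 hk
  simpa using this

/-- a normal subgroup of `G` inside `P` containing the minimal normal subgroup equals it. -/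
lemma le_of_normal_le_sylow (N : Subgroup G) [hNn : N.Normal] (hN : N ≠ ⊥)
    (hmin : ∀ K : Subgroup G, K.Normal → K ≠ ⊥ → N ≤ K)
    (V : Subgroup G) [hVn : V.Normal] (hVP : V ≤ (P : Subgroup G)) (hNV : N ≤ V) : V ≤ N := by
  have hpp : p.Prime := Fact.out
  by_contra hcon
  obtain ⟨v₀, hv₀V, hv₀N⟩ := SetLike.not_le_iff_exists.1 hcon
  obtain ⟨hVc, hVp⟩ := H.elemAb_of_normal_le V hVP
  obtain ⟨x, hxP, hx⟩ := H.exists_gen N hN
  obtain ⟨k, hk⟩ := hx v₀ (hVP hv₀V)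
  have hwV : x ^ k ∈ V := by
    have e : x ^ k = v₀ * ((x ^ k)⁻¹ * v₀)⁻¹ := by group
    rw [e]
    exact V.mul_mem hv₀V (V.inv_mem (hNV hk))
  have hwN : x ^ k ∉ N := by
    intro h
    apply hv₀N
    have e : v₀ = x ^ k * ((x ^ k)⁻¹ * v₀) := by group
    rw [e]
    exact N.mul_mem h hk
  -- `⟨x⟩ ∩ N = 1`
  have hAK : Subgroup.zpowers x ⊓ N = ⊥ := by
    rw [eq_bot_iff]
    rintro y ⟨hy1, hy2⟩
    obtain ⟨j, rfl⟩ := Subgroup.mem_zpowers_iff.1 hy1
    rw [Subgroup.mem_bot]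
    have hg : ((Int.gcd j k : ℕ) : ℤ) = j * Int.gcdA j k + k * Int.gcdB j k :=
      Int.gcd_eq_gcd_ab j k
    have huV : x ^ ((Int.gcd j k : ℕ) : ℤ) ∈ V := by
      rw [hg, zpow_add, zpow_mul, zpow_mul]
      exact V.mul_mem (V.zpow_mem (hNV hy2) _) (V.zpow_mem hwV _)
    have hup : (x ^ ((Int.gcd j k : ℕ) : ℤ)) ^ p = 1 := hVp _ huV
    obtain ⟨k₁, hk₁⟩ : ((Int.gcd j k : ℕ) : ℤ) ∣ k := Int.gcd_dvd_right j k
    obtain ⟨j₁, hj₁⟩ : ((Int.gcd j k : ℕ) : ℤ) ∣ j := Int.gcd_dvd_left j k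
    have huN : x ^ ((Int.gcd j k : ℕ) : ℤ) ∉ N := by
      intro h
      apply hwN
      rw [hk₁, zpow_mul]
      exact N.zpow_mem h _
    have hpj : (p : ℤ) ∣ j₁ := by
      by_contra hnd
      have hcop : IsCoprime (p : ℤ) j₁ :=
        (Nat.prime_iff_prime_int.1 hpp).coprime_iff_not_dvd.2 hnd
      obtain ⟨a, b, hab⟩ := hcop
      apply huN
      have e : x ^ ((Int.gcd j k : ℕ) : ℤ) =
          ((x ^ ((Int.gcd j k : ℕ) : ℤ)) ^ p) ^ a * (x ^ j) ^ b := by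
        have e1 : ((x ^ ((Int.gcd j k : ℕ) : ℤ)) ^ p) ^ a =
            x ^ (((Int.gcd j k : ℕ) : ℤ) * (p * a)) := by
          rw [← zpow_natCast, ← zpow_mul, ← zpow_mul]
        have e2 : (x ^ j) ^ b = x ^ (((Int.gcd j k : ℕ) : ℤ) * (j₁ * b)) := by
          rw [← zpow_mul, ← mul_assoc, ← hj₁]
        rw [e1, e2, ← zpow_add, ← mul_add]
        have e3 : (p : ℤ) * a + j₁ * b = 1 := by rw [← hab]; ring
        rw [e3, mul_one]
      rw [e, hup, one_zpow, one_mul]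
      exact N.zpow_mem hy2 _
    obtain ⟨j₂, hj₂⟩ := hpj
    have e : x ^ j = ((x ^ ((Int.gcd j k : ℕ) : ℤ)) ^ p) ^ j₂ := by
      rw [← zpow_natCast, ← zpow_mul, ← zpow_mul, ← hj₂, ← hj₁]
    rw [e, hup, one_zpow]
  have hNP : N ≤ (P : Subgroup G) := hNV.trans hVP
  have hKA : N ⊔ Subgroup.zpowers x = (P : Subgroup G) := by
    apply le_antisymm
    · apply sup_le hNP
      rw [Subgroup.zpowers_le]
      exact hxP
    · intro y hy
      obtain ⟨i, hi⟩ := hx y hy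
      have e : y = x ^ i * ((x ^ i)⁻¹ * y) := by group
      rw [e, sup_comm]
      exact Subgroup.mul_mem_sup (Subgroup.zpow_mem_zpowers x i) hi
  haveI : IsMulCommutative ↥N :=
    ⟨⟨fun a b => Subtype.ext (hVc a (hNV a.2) b (hNV b.2))⟩⟩
  have hcop : (Nat.card ↥N).Coprime (P : Subgroup G).index := by
    obtain ⟨m, hm⟩ := (IsPGroup.iff_card).1 (P.isPGroup'.to_le hNP)
    have hm' : Nat.card ↥N = p ^ m := hm
    rw [hm']
    apply Nat.Coprime.pow_left
    exact (Nat.Prime.coprime_iff_not_dvd hpp).2 P.not_dvd_index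
  obtain ⟨Hc, hHc⟩ := Cfsg.Agent.H1.gaschutz_exists N (P : Subgroup G) hNP hcop
    (Subgroup.zpowers x) (by rw [Subgroup.zpowers_le]; exact hxP) hAK hKA
  have hdec : ∀ g : G, ∃ n ∈ N, ∃ h ∈ Hc, g = n * h := by
    intro g
    obtain ⟨⟨n, h⟩, hnh⟩ := hHc.2 g
    exact ⟨n, n.2, h, h.2, hnh.symm⟩
  have hVHn : (V ⊓ Hc).Normal := by
    constructor
    intro v hv g
    obtain ⟨n, hn, h, hh, rfl⟩ := hdec g
    have h1 : h * v * h⁻¹ ∈ V := hVn.conj_mem v hv.1 h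
    have h2 : h * v * h⁻¹ ∈ Hc := Hc.mul_mem (Hc.mul_mem hh hv.2) (Hc.inv_mem hh)
    have e : n * h * v * (n * h)⁻¹ = n * (h * v * h⁻¹) * n⁻¹ := by group
    have e2 : n * (h * v * h⁻¹) * n⁻¹ = h * v * h⁻¹ := by
      rw [hVc n (hNV hn) _ h1]; group
    rw [e, e2]
    exact ⟨h1, h2⟩
  have hdisj : N ⊓ Hc = ⊥ := hHc.disjoint.eq_bot
  have hVH : V ⊓ Hc = ⊥ := by
    by_contra hne
    have h1 : N ≤ V ⊓ Hc := hmin _ hVHn hne
    have h2 : N ≤ N ⊓ Hc := le_inf le_rfl (h1.trans inf_le_right)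
    rw [hdisj, le_bot_iff] at h2
    exact hN h2
  obtain ⟨n, hn, h, hh, hv₀⟩ := hdec v₀
  have hhV : h ∈ V := by
    have e : h = n⁻¹ * v₀ := by rw [hv₀]; group
    rw [e]
    exact V.mul_mem (V.inv_mem (hNV hn)) hv₀V
  have hh1 : h = 1 := by
    have : h ∈ V ⊓ Hc := ⟨hhV, hh⟩
    rwa [hVH, Subgroup.mem_bot] at this
  apply hv₀N
  rw [hv₀, hh1, mul_one]
  exact hn

/-- the minimal normal subgroup cannot be a central `p`-subgroup of a perfect normal
subgroup. -/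
lemma false_of_central_perfect (E : Subgroup G) [hEn : E.Normal] (hperf : ⁅E, E⁆ = E)
    (N : Subgroup G) [hNn : N.Normal] (hN : N ≠ ⊥) (hNE : N ≤ E)
    (hNP : N ≤ (P : Subgroup G)) (hcent : ∀ n ∈ N, ∀ e ∈ E, n * e = e * n) : False := by
  have hpp : p.Prime := Fact.out
  apply H.not_inf_le_Phi N hN
  rintro z ⟨hzN, hzP⟩
  obtain ⟨hcomm, -⟩ := comm_pow_mem_frattini H.hgen H.not_comm
  obtain ⟨-, hNp⟩ := H.elemAb_of_normal_le N hNP
  have hzp : z ^ p = 1 := hNp z hzN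
  -- the transfer of `E` into `P ∩ E`
  have key : ∀ (k : ℕ) (g₀ : ↥E), g₀⁻¹ * (⟨z, hNE hzN⟩ : ↥E) ^ k * g₀ ∈
      (P : Subgroup G).subgroupOf E → g₀⁻¹ * (⟨z, hNE hzN⟩ : ↥E) ^ k * g₀ =
        (⟨z, hNE hzN⟩ : ↥E) ^ k := by
    intro k g₀ _
    have h1 : (⟨z, hNE hzN⟩ : ↥E) ^ k * g₀ = g₀ * (⟨z, hNE hzN⟩ : ↥E) ^ k := by
      apply Subtype.ext
      simp only [Subgroup.coe_mul, Subgroup.coe_pow]
      exact hcent _ (N.pow_mem hzN k) _ g₀.2
    rw [mul_assoc, h1, inv_mul_cancel_left]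
  have htr := MonoidHom.transfer_eq_pow
    (Abelianization.of : ↥((P : Subgroup G).subgroupOf E) →*
      Abelianization ↥((P : Subgroup G).subgroupOf E)) (⟨z, hNE hzN⟩ : ↥E) key
  have htop : commutator ↥E = ⊤ := by
    rw [commutator_def, eq_top_iff]
    intro y _
    have hy : (y : G) ∈ ⁅E, E⁆ := by rw [hperf]; exact y.2
    have h2 : ⁅E, E⁆ = (⁅(⊤ : Subgroup ↥E), (⊤ : Subgroup ↥E)⁆).map E.subtype := by
      rw [Subgroup.map_commutator, ← MonoidHom.range_eq_map, Subgroup.range_subtype]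
    rw [h2] at hy
    obtain ⟨y', hy', hyy⟩ := hy
    have : y' = y := Subtype.ext hyy
    rwa [← this]
  have hker : (⟨z, hNE hzN⟩ : ↥E) ∈ (MonoidHom.transfer
      (Abelianization.of : ↥((P : Subgroup G).subgroupOf E) →*
        Abelianization ↥((P : Subgroup G).subgroupOf E))).ker := by
    have h1 := Abelianization.commutator_subset_ker (MonoidHom.transfer
      (Abelianization.of : ↥((P : Subgroup G).subgroupOf E) →*
        Abelianization ↥((P : Subgroup G).subgroupOf E)))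
    rw [htop] at h1
    exact h1 (Subgroup.mem_top _)
  rw [MonoidHom.mem_ker, htr] at hker
  have hmem : (⟨(⟨z, hNE hzN⟩ : ↥E) ^ ((P : Subgroup G).subgroupOf E).index,
      MonoidHom.transfer_eq_pow_aux _ key⟩ : ↥((P : Subgroup G).subgroupOf E)) ∈
      commutator ↥((P : Subgroup G).subgroupOf E) := by
    rw [← Abelianization.ker_of]
    exact hker
  -- commutators of `P ∩ E` lie in `Φ(P)`
  have hcle : commutator ↥((P : Subgroup G).subgroupOf E) ≤
      (Phi P).comap (E.subtype.comp ((P : Subgroup G).subgroupOf E).subtype) := by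
    rw [commutator_def, Subgroup.commutator_le]
    intro a _ b _
    rw [Subgroup.mem_comap, commutatorElement_def]
    have ha : ((a : ↥E) : G) ∈ (P : Subgroup G) := Subgroup.mem_subgroupOf.1 a.2
    have hb : ((b : ↥E) : G) ∈ (P : Subgroup G) := Subgroup.mem_subgroupOf.1 b.2
    have := hcomm ⟨_, ha⟩ ⟨_, hb⟩
    exact ⟨_, this, rfl⟩
  have hzm : z ^ ((P : Subgroup G).subgroupOf E).index ∈ Phi P := by
    have := hcle hmem
    rw [Subgroup.mem_comap] at this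
    simpa using this
  have hcop : (((P : Subgroup G).subgroupOf E).index).Coprime (orderOf z) := by
    have h1 : ((P : Subgroup G).subgroupOf E).index ∣ (P : Subgroup G).index :=
      Cfsg.Agent.H74.relIndex_dvd_index_of_normal_right (P : Subgroup G) E
    have h2 : orderOf z ∣ p := orderOf_dvd_of_pow_eq_one hzp
    have h3 : ((P : Subgroup G).index).Coprime p :=
      ((Nat.Prime.coprime_iff_not_dvd hpp).2 P.not_dvd_index).symm
    exact Nat.Coprime.coprime_dvd_left h1 (Nat.Coprime.coprime_dvd_right h2 h3)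
  obtain ⟨m, hm⟩ := exists_pow_eq_self_of_coprime hcop
  rw [← hm]
  exact (Phi P).pow_mem hzm m

end Hyp

end Cfsg.Agent.H74.FSM
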