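import Cfsg.Agent.H74.FStarMinC
import Cfsg.Agent.H28.FStar
import Cfsg.Agent.H27.LBalance
import Cfsg.Agent.H60.Cores
import Cfsg.Agent.H53.PRes

set_option autoImplicit false

/-!
# The unique minimal normal subgroup is `F*(G)`; transitivity on components (helper74)
-/

namespace Cfsg.Agent.H74.FSM

open Cfsg
open scoped commutatorElement

universe u

/-- a perfect subgroup lies in every normal subgroup with `p`-group quotient. -/
lemma perfect_le_of_isPGroup_quotient {X : Type*} [Group X] [Finite X] {p : ℕ} [Fact p.Prime]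
    (R : Subgroup X) [R.Normal] (hR : IsPGroup p (X ⧸ R)) (M : Subgroup X) (hM : M ≤ ⁅M, M⁆) :
    M ≤ R := by
  have hnil : Group.IsNilpotent (X ⧸ R) := hR.isNilpotent
  obtain ⟨n, hn⟩ := (inferInstance : Group.IsSolvable (X ⧸ R)).solvable
  have key : ∀ k, M.map (QuotientGroup.mk' R) ≤ derivedSeries (X ⧸ R) k := by
    intro k
    induction k with
    | zero => exact le_top
    | succ k ih =>
      calc M.map (QuotientGroup.mk' R) ≤ (⁅M, M⁆).map (QuotientGroup.mk' R) :=
            Subgroup.map_mono hM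
        _ = ⁅M.map (QuotientGroup.mk' R), M.map (QuotientGroup.mk' R)⁆ :=
            Subgroup.map_commutator _ _ _
        _ ≤ ⁅derivedSeries (X ⧸ R) k, derivedSeries (X ⧸ R) k⁆ :=
            Subgroup.commutator_mono ih ih
  have h1 := key n
  rw [hn, le_bot_iff, Subgroup.map_eq_bot_iff, QuotientGroup.ker_mk'] at h1
  exact h1

variable {G : Type u} [Group G] [Finite G] {p : ℕ} [Fact p.Prime] {P : Sylow p G}

namespace Hyp

variable (H : Hyp P)
include H

/-- a `P`-invariant perfect subgroup containing a subgroup of order divisible by `p` does not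
meet `P` inside `Φ(P)` (Tate). -/
lemma not_inf_le_Phi_of_perfect (M : Subgroup G)
    (hMn : (P : Subgroup G) ≤ Subgroup.normalizer (M : Set G)) (hperf : ⁅M, M⁆ = M)
    (K : Subgroup G) (hK : p ∣ Nat.card ↥K) (hKM : K ≤ M) :
    ¬ M ⊓ (P : Subgroup G) ≤ Phi P := by
  intro h
  have hp : p.Prime := Fact.out
  have hle : (P : Subgroup G) ≤ M ⊔ (P : Subgroup G) := le_sup_right
  have hMle : M ≤ M ⊔ (P : Subgroup G) := le_sup_left
  have hXn : M ⊔ (P : Subgroup G) ≤ Subgroup.normalizer (M : Set G) :=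
    sup_le Subgroup.le_normalizer hMn
  have hNn : (M.subgroupOf (M ⊔ (P : Subgroup G))).Normal :=
    Subgroup.normal_subgroupOf_of_le_normalizer hXn
  have htop : M.subgroupOf (M ⊔ (P : Subgroup G)) ⊔
      (P : Subgroup G).subgroupOf (M ⊔ (P : Subgroup G)) = ⊤ := by
    rw [← Subgroup.subgroupOf_sup hMle hle, Subgroup.subgroupOf_self]
  have hqp : IsPGroup p (↥(M ⊔ (P : Subgroup G)) ⧸ M.subgroupOf (M ⊔ (P : Subgroup G))) := by
    intro q
    obtain ⟨x, rfl⟩ := QuotientGroup.mk_surjective q
    have hx : x ∈ M.subgroupOf (M ⊔ (P : Subgroup G)) ⊔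
        (P : Subgroup G).subgroupOf (M ⊔ (P : Subgroup G)) := by rw [htop]; trivial
    obtain ⟨m, hm, y, hy, rfl⟩ := Subgroup.mem_sup_of_normal_left.1 hx
    obtain ⟨k, hk⟩ := P.isPGroup' ⟨(y : G), Subgroup.mem_subgroupOf.1 hy⟩
    refine ⟨k, ?_⟩
    rw [QuotientGroup.mk_mul, (QuotientGroup.eq_one_iff m).2 hm, one_mul, ← QuotientGroup.mk_pow]
    have hy1 : y ^ p ^ k = 1 := by
      apply Subtype.ext
      have := congrArg Subtype.val hk
      simpa using this
    rw [hy1]; rfl
  have hK1N : Cfsg.pResidual p ↥(M ⊔ (P : Subgroup G)) ≤ M.subgroupOf (M ⊔ (P : Subgroup G)) :=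
    H53.pResidual_le_of_isPGroup_quotient _ hqp
  have hH : ¬ p ∣ ((P : Subgroup G).subgroupOf (M ⊔ (P : Subgroup G))).index := by
    have := (P.subtype hle).not_dvd_index
    rwa [Sylow.coe_subtype] at this
  have h1 := Cfsg.Agent.H2.tate_aux ((P : Subgroup G).subgroupOf (M ⊔ (P : Subgroup G))) hH
    P.isPGroup'
    (Subgroup.subgroupOfEquivOfLe hle).toMonoidHom (Subgroup.subgroupOfEquivOfLe hle).surjective
    (by
      have : (Subgroup.subgroupOfEquivOfLe hle).toMonoidHom.ker = ⊥ :=
        (MonoidHom.ker_eq_bot_iff _).mpr (Subgroup.subgroupOfEquivOfLe hle).injective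
      rw [this]; exact bot_le)
    (by
      rintro _ ⟨x, hx, rfl⟩
      have hx' : (x : ↥(M ⊔ (P : Subgroup G))) ∈ Cfsg.pResidual p ↥(M ⊔ (P : Subgroup G)) := hx
      have hxN : ((x : ↥(M ⊔ (P : Subgroup G))) : G) ∈ M := hK1N hx'
      have hxP : ((x : ↥(M ⊔ (P : Subgroup G))) : G) ∈ (P : Subgroup G) := x.2
      obtain ⟨y, hy, hyx⟩ := h ⟨hxN, hxP⟩
      have hy' : y = (Subgroup.subgroupOfEquivOfLe hle).toMonoidHom x := Subtype.ext hyx
      rw [← hy']
      exact hy)
  have hinter : ∀ x : ↥(M ⊔ (P : Subgroup G)),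
      x ∈ Cfsg.pResidual p ↥(M ⊔ (P : Subgroup G)) → (x : G) ∈ (P : Subgroup G) → x = 1 := by
    intro x hx hxP
    have h2 : (⟨x, hxP⟩ : ↥((P : Subgroup G).subgroupOf (M ⊔ (P : Subgroup G)))) ∈
        (Subgroup.subgroupOfEquivOfLe hle).toMonoidHom.ker := h1 hx
    rw [(MonoidHom.ker_eq_bot_iff _).mpr (Subgroup.subgroupOfEquivOfLe hle).injective,
      Subgroup.mem_bot] at h2
    exact congrArg Subtype.val h2
  -- `O^p(MP)` is a `p'`-group
  have hK1 : ¬ p ∣ Nat.card ↥(Cfsg.pResidual p ↥(M ⊔ (P : Subgroup G))) := by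
    intro hdvd
    obtain ⟨Q, hQ⟩ := H53.sylow_subgroupOf_normal (Cfsg.pResidual p ↥(M ⊔ (P : Subgroup G)))
      (P.subtype hle)
    apply Q.ne_bot_of_dvd_card hdvd
    rw [hQ, eq_bot_iff]
    intro x hx
    rw [Subgroup.mem_subgroupOf, Sylow.coe_subtype, Subgroup.mem_subgroupOf] at hx
    rw [Subgroup.mem_bot]
    exact Subtype.ext (hinter x x.2 hx)
  -- but `M` is perfect, so lies in `O^p(MP)`
  have hMperf : M.subgroupOf (M ⊔ (P : Subgroup G)) ≤
      ⁅M.subgroupOf (M ⊔ (P : Subgroup G)), M.subgroupOf (M ⊔ (P : Subgroup G))⁆ := by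
    apply le_of_eq
    apply Subgroup.map_injective (M ⊔ (P : Subgroup G)).subtype_injective
    rw [Subgroup.map_commutator, Subgroup.map_subgroupOf_eq_of_le hMle, hperf]
  have hMR : M.subgroupOf (M ⊔ (P : Subgroup G)) ≤ Cfsg.pResidual p ↥(M ⊔ (P : Subgroup G)) :=
    perfect_le_of_isPGroup_quotient _
      (H53.isPGroup_quotient_pResidual p ↥(M ⊔ (P : Subgroup G))) _ hMperf
  apply hK1
  refine dvd_trans hK ?_
  have hKX : K ≤ M ⊔ (P : Subgroup G) := hKM.trans hMle
  have hcard : Nat.card ↥(K.subgroupOf (M ⊔ (P : Subgroup G))) = Nat.card ↥K :=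
    Nat.card_congr (Subgroup.subgroupOfEquivOfLe hKX).toEquiv
  rw [← hcard]
  apply Subgroup.card_dvd_of_le
  intro x hx
  exact hMR (Subgroup.mem_subgroupOf.2 (hKM (Subgroup.mem_subgroupOf.1 hx)))

/-- `F*(G)` is nontrivial. -/
lemma genFitting_ne_bot : generalizedFittingSubgroup G ≠ ⊥ := by
  intro h
  have h1 := H27.centralizer_genFitting_le (G := G)
  rw [h] at h1
  apply H.top_ne_bot
  rw [eq_bot_iff]
  intro x _
  apply h1
  rw [Subgroup.mem_centralizer_iff]
  intro y hy
  rw [Subgroup.coe_bot, Set.mem_singleton_iff] at hy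
  rw [hy, one_mul, mul_one]

/-- `F*(G)` is contained in the minimal normal subgroup, and one of `E(G)`, `F(G)` is
trivial. -/
lemma genFitting_le (N : Subgroup G) [hNn : N.Normal] (hN : N ≠ ⊥)
    (hmin : ∀ K : Subgroup G, K.Normal → K ≠ ⊥ → N ≤ K) :
    generalizedFittingSubgroup G ≤ N ∧ (layer G = ⊥ ∨ fittingSubgroup G = ⊥) := by
  have hFP : fittingSubgroup G ≤ (P : Subgroup G) :=
    (H60.isPGroup_of_normal_nilpotent H.hcore (fittingSubgroup G)
      H27.fitting_nilpotent).le_sylow_of_normal P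
  by_cases hE : layer G = ⊥
  · refine ⟨?_, Or.inl hE⟩
    rw [H28.genFitting_eq_fitting_of_layer_eq_bot hE]
    have hFne : fittingSubgroup G ≠ ⊥ := by
      have := H.genFitting_ne_bot
      rwa [H28.genFitting_eq_fitting_of_layer_eq_bot hE] at this
    exact H.le_of_normal_le_sylow N hN hmin (fittingSubgroup G) hFP (hmin _ inferInstance hFne)
  · have hNE : N ≤ layer G := hmin _ inferInstance hE
    have hKN : ∀ K : Subgroup G, IsComponent K → K ≤ N := by
      intro K hK
      rcases H27.component_normal_le_or_comm K N hK with h | h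
      · exact h
      · exfalso
        have hCn : (Subgroup.centralizer (N : Set G)).Normal := inferInstance
        have hCne : Subgroup.centralizer (N : Set G) ≠ ⊥ := by
          intro h0
          have hKC : K ≤ Subgroup.centralizer (N : Set G) :=
            H28.le_centralizer_of_comm_eq_bot h
          rw [h0, le_bot_iff] at hKC
          exact H27.isComponent_ne_bot hK hKC
        have hNC : N ≤ Subgroup.centralizer (N : Set G) := hmin _ hCn hCne
        have hNab : ∀ a ∈ N, ∀ b ∈ N, a * b = b * a := by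
          intro a ha b hb
          exact Subgroup.mem_centralizer_iff.1 (hNC hb) a ha
        have hNF : N ≤ fittingSubgroup G := H28.le_fitting_of_normal_of_comm hNn hNab
        have hcent : ∀ n ∈ N, ∀ e ∈ layer G, n * e = e * n := by
          intro n hn e he
          exact (H27.comm_of_comm_eq_bot H28.comm_layer_fitting he (hNF hn)).symm
        exact H.false_of_central_perfect (layer G) H28.layer_perfect N hN hNE
          (hNF.trans hFP) hcent
    have hEN : layer G ≤ N := H28.layer_le_iff.2 hKN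
    have hFbot : fittingSubgroup G = ⊥ := by
      by_contra hF
      have hNF : N ≤ fittingSubgroup G := hmin _ inferInstance hF
      obtain ⟨K, hK⟩ : ∃ K : Subgroup G, IsComponent K := by
        by_contra hno
        exact hE (H28.layer_eq_bot_iff.2 (fun K hK => hno ⟨K, hK⟩))
      exact H28.component_not_le_fitting hK ((hKN K hK).trans hNF)
    refine ⟨?_, Or.inr hFbot⟩
    unfold generalizedFittingSubgroup
    rw [hFbot, sup_bot_eq]
    exact hEN

/-- when `F(G) = 1`, the Sylow subgroup `P` permutes the components transitively. -/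
lemma exists_conj_of_components (hF : fittingSubgroup G = ⊥) {K L : Subgroup G}
    (hK : IsComponent K) (hL : IsComponent L) :
    ∃ x ∈ (P : Subgroup G), L = K.map (MulAut.conj x).toMonoidHom := by
  by_contra hcon
  have hcon' : ∀ x ∈ (P : Subgroup G), L ≠ K.map (MulAut.conj x).toMonoidHom :=
    fun x hx h => hcon ⟨x, hx, h⟩
  have hperf : ∀ J : Subgroup G, IsComponent J →
      ⁅H27.orbitSup (P : Subgroup G) J, H27.orbitSup (P : Subgroup G) J⁆ =
        H27.orbitSup (P : Subgroup G) J := by
    intro J hJ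
    apply le_antisymm (H27.commutator_self_le _)
    have h1 : ∀ g : ↥(P : Subgroup G), J.map (MulAut.conj (g : G)).toMonoidHom ≤
        ⁅H27.orbitSup (P : Subgroup G) J, H27.orbitSup (P : Subgroup G) J⁆ := by
      intro g
      have hc := H27.isComponent_map_equiv (MulAut.conj (g : G)) hJ
      calc J.map (MulAut.conj (g : G)).toMonoidHom
          = ⁅J.map (MulAut.conj (g : G)).toMonoidHom,
              J.map (MulAut.conj (g : G)).toMonoidHom⁆ := (H27.isComponent_perfect hc).symm
        _ ≤ _ := Subgroup.commutator_mono (H27.map_conj_le_orbitSup _ J g.2)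
              (H27.map_conj_le_orbitSup _ J g.2)
    exact iSup_le h1
  have h1 := H.not_inf_le_Phi_of_perfect (H27.orbitSup (P : Subgroup G) K)
    (H27.le_normalizer_orbitSup _ K) (hperf K hK) K
    (H27.component_dvd_card_of_pPrimeCore_bot H.hcore hK) (H27.le_orbitSup _ K)
  have h2 := H.not_inf_le_Phi_of_perfect (H27.orbitSup (P : Subgroup G) L)
    (H27.le_normalizer_orbitSup _ L) (hperf L hL) L
    (H27.component_dvd_card_of_pPrimeCore_bot H.hcore hL) (H27.le_orbitSup _ L)
  apply H.false_of_two _ _ (H27.le_normalizer_orbitSup _ K) (H27.le_normalizer_orbitSup _ L)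
    h1 h2
  intro x hx1 hx2 _
  have hxc : ∀ J : Subgroup G, IsComponent J → x ∈ Subgroup.centralizer (J : Set G) := by
    intro J hJ
    by_cases hJK : ∃ g ∈ (P : Subgroup G), J = K.map (MulAut.conj g).toMonoidHom
    · obtain ⟨g, hg, rfl⟩ := hJK
      refine H27.orbitSup_le_centralizer (P : Subgroup G) hL
        (H27.isComponent_map_equiv (MulAut.conj g) hK) ?_ hx2
      intro h hh heq
      apply hcon' (h⁻¹ * g) ((P : Subgroup G).mul_mem ((P : Subgroup G).inv_mem hh) hg)
      rw [← H27.map_conj_mul, heq, H27.map_conj_mul, inv_mul_cancel, H27.map_conj_one]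
    · have hJK' : ∀ g ∈ (P : Subgroup G), J ≠ K.map (MulAut.conj g).toMonoidHom :=
        fun g hg h => hJK ⟨g, hg, h⟩
      exact H27.orbitSup_le_centralizer (P : Subgroup G) hK hJ hJK' hx1
  have hxE : x ∈ Subgroup.centralizer (layer G : Set G) := by
    have hle : layer G ≤ Subgroup.centralizer ({x} : Set G) := by
      rw [H28.layer_le_iff]
      intro J hJ y hy
      rw [Subgroup.mem_centralizer_iff]
      intro z hz
      rw [Set.mem_singleton_iff] at hz
      subst hz
      exact (Subgroup.mem_centralizer_iff.1 (hxc J hJ) y hy).symm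
    rw [Subgroup.mem_centralizer_iff]
    intro y hy
    exact (Subgroup.mem_centralizer_iff.1 (hle hy) x (Set.mem_singleton x)).symm
  have hFs : generalizedFittingSubgroup G = layer G := by
    unfold generalizedFittingSubgroup; rw [hF, sup_bot_eq]
  have hxL : x ∈ layer G := by
    have := H27.centralizer_genFitting_le (G := G)
    rw [hFs] at this
    exact this hxE
  have hxZ : x ∈ (Subgroup.center (layer G)).map (layer G).subtype := by
    rw [H27.center_map_subtype_eq]
    exact ⟨hxL, hxE⟩
  rw [H28.center_layer_eq, hF, bot_inf_eq, Subgroup.mem_bot] at hxZ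
  exact hxZ

end Hyp

end Cfsg.Agent.H74.FSM
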