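import Mathlib

/-!
# Herstein's theorem (helper74)

A finite group with an abelian maximal subgroup is solvable of derived length at most three:
`derivedSeries_three_eq_bot_of_abelian_coatom`, `isSolvable_of_abelian_coatom`.
-/

set_option autoImplicit false

namespace Cfsg.Agent.H74

open Subgroup
open scoped commutatorElement

section
variable {X : Type*} [Group X]

/-- `B` abelian, `N` normal, `B ⊔ N = ⊤` implies `X/N` abelian. -/
theorem commutator_le_of_sup_eq_top (B N : Subgroup X) [N.Normal]
    (hB : ∀ a ∈ B, ∀ b ∈ B, a * b = b * a) (h : B ⊔ N = ⊤) : commutator X ≤ N := by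
  rw [commutator_def, Subgroup.commutator_le]
  intro g1 _ g2 _
  have h1 : g1 ∈ B ⊔ N := by rw [h]; exact mem_top _
  have h2 : g2 ∈ B ⊔ N := by rw [h]; exact mem_top _
  obtain ⟨a1, ha1, n1, hn1, rfl⟩ := Subgroup.mem_sup_of_normal_right.mp h1
  obtain ⟨a2, ha2, n2, hn2, rfl⟩ := Subgroup.mem_sup_of_normal_right.mp h2
  have e1 : (QuotientGroup.mk' N) (a1 * n1) = (QuotientGroup.mk' N) a1 := by
    rw [map_mul, show (QuotientGroup.mk' N) n1 = 1 from (QuotientGroup.eq_one_iff n1).mpr hn1, mul_one]
  have e2 : (QuotientGroup.mk' N) (a2 * n2) = (QuotientGroup.mk' N) a2 := by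
    rw [map_mul, show (QuotientGroup.mk' N) n2 = 1 from (QuotientGroup.eq_one_iff n2).mpr hn2, mul_one]
  have e3 : (QuotientGroup.mk' N) ⁅a1 * n1, a2 * n2⁆ = 1 := by
    rw [map_commutatorElement, e1, e2, ← map_commutatorElement,
      commutatorElement_eq_one_iff_mul_comm.mpr (hB a1 ha1 a2 ha2), map_one]
  exact (QuotientGroup.eq_one_iff _).mp e3

/-- If `N` is an abelian normal subgroup with abelian quotient, the second derived subgroup
is trivial. -/
theorem derivedSeries_two_eq_bot_of_abelian_normal (N : Subgroup X)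
    (hN : ∀ a ∈ N, ∀ b ∈ N, a * b = b * a) (h : commutator X ≤ N) :
    derivedSeries X 2 = ⊥ := by
  have h1 : derivedSeries X 1 ≤ N := by
    rw [derivedSeries_one]; exact h
  rw [derivedSeries_succ, eq_bot_iff]
  refine (Subgroup.commutator_mono h1 h1).trans ?_
  rw [Subgroup.commutator_le]
  intro a ha b hb
  rw [Subgroup.mem_bot, commutatorElement_eq_one_iff_mul_comm]
  exact hN a ha b hb

/-- A TI subgroup has index prime to each prime dividing its order. -/
theorem not_dvd_index_of_TI [Finite X] (A : Subgroup X)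
    (hTI : ∀ g : X, g ∉ A → ∀ a ∈ A, g * a * g⁻¹ ∈ A → a = 1)
    {p : ℕ} [Fact p.Prime] (hp : p ∣ Nat.card A) : ¬ p ∣ A.index := by
  have hpp : p.Prime := Fact.out
  obtain ⟨y, hy⟩ := exists_prime_orderOf_dvd_card' p hp
  have hyX : orderOf (y : X) = p := by rw [Subgroup.orderOf_coe, hy]
  have hPg : IsPGroup p (zpowers (y : X)) := by
    apply IsPGroup.of_card (n := 1)
    rw [Nat.card_zpowers, hyX, pow_one]
  have hsm : ∀ (m : zpowers (y : X)) (g : X),
      m • (QuotientGroup.mk g : X ⧸ A) = QuotientGroup.mk ((m : X) * g) := fun _ _ => rfl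
  have hfix : Nat.card (MulAction.fixedPoints (zpowers (y : X)) (X ⧸ A)) = 1 := by
    rw [Nat.card_eq_one_iff_unique]
    have hone : (QuotientGroup.mk 1 : X ⧸ A) ∈ MulAction.fixedPoints (zpowers (y : X)) (X ⧸ A) := by
      intro m
      rw [hsm, QuotientGroup.eq]
      have hm : (m : X) ∈ A := (zpowers_le.mpr y.2) m.2
      simpa using hm
    constructor
    · constructor
      have key : ∀ q ∈ MulAction.fixedPoints (zpowers (y : X)) (X ⧸ A), q = QuotientGroup.mk 1 := by
        intro q hq
        induction q using QuotientGroup.induction_on with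
        | H g =>
          have h1 := hq ⟨(y : X), mem_zpowers _⟩
          rw [hsm, QuotientGroup.eq] at h1
          have h2 : g⁻¹ * (y : X)⁻¹ * g⁻¹⁻¹ ∈ A := by
            have e : g⁻¹ * (y : X)⁻¹ * g⁻¹⁻¹ = ((y : X) * g)⁻¹ * g := by group
            rw [e]; exact h1
          have hgA : g⁻¹ ∈ A := by
            by_contra hg
            have h3 := hTI g⁻¹ hg (y : X)⁻¹ (inv_mem y.2) h2
            rw [inv_eq_one] at h3
            rw [h3, orderOf_one] at hyX
            exact hpp.one_lt.ne hyX
          rw [QuotientGroup.eq]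
          simpa using hgA
      rintro ⟨q1, hq1⟩ ⟨q2, hq2⟩
      exact Subtype.ext ((key q1 hq1).trans (key q2 hq2).symm)
    · exact ⟨⟨_, hone⟩⟩
  have hmod := hPg.card_modEq_card_fixedPoints (X ⧸ A)
  rw [hfix, ← Subgroup.index_eq_card] at hmod
  intro hdvd
  have h0 : A.index ≡ 0 [MOD p] := (Nat.modEq_zero_iff_dvd).mpr hdvd
  have h01 : 1 ≡ 0 [MOD p] := hmod.symm.trans h0
  have h1 := (Nat.modEq_zero_iff_dvd).mp h01
  exact hpp.one_lt.ne' (Nat.dvd_one.mp h1)

/-- Minimal normal subgroups exist. -/
theorem exists_minimal_normal [Finite X] [Nontrivial X] :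
    ∃ N : Subgroup X, N.Normal ∧ N ≠ ⊥ ∧
      ∀ M : Subgroup X, M.Normal → M ≤ N → M ≠ ⊥ → M = N := by
  obtain ⟨N, hN, hmin⟩ := exists_minimal_of_wellFoundedLT
    (fun M : Subgroup X => M.Normal ∧ M ≠ ⊥) ⟨⊤, inferInstance, top_ne_bot⟩
  exact ⟨N, hN.1, hN.2, fun M hM hle hne => le_antisymm hle (hmin ⟨hM, hne⟩ hle)⟩

/-- Burnside: for a TI abelian maximal subgroup `A` and a prime `p` dividing `|A|`, there is a
normal `p'`-subgroup with `p`-quotient. -/
theorem exists_normal_pcomplement_of_TI [Finite X] (A : Subgroup X) (hA : IsCoatom A)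
    (hab : ∀ a ∈ A, ∀ b ∈ A, a * b = b * a)
    (hTI : ∀ g : X, g ∉ A → ∀ a ∈ A, g * a * g⁻¹ ∈ A → a = 1)
    {p : ℕ} [Fact p.Prime] (hp : p ∣ Nat.card A) :
    ∃ K : Subgroup X, K.Normal ∧ ¬ p ∣ Nat.card K ∧ ∀ x : X, ∃ k : ℕ, x ^ (p ^ k) ∈ K := by
  have hpp : p.Prime := Fact.out
  have hidx := not_dvd_index_of_TI A hTI hp
  obtain ⟨P₀⟩ : Nonempty (Sylow p A) := inferInstance
  have hP1 : IsPGroup p ((P₀ : Subgroup A).map A.subtype) := P₀.2.map _
  have hP2 : ¬ p ∣ ((P₀ : Subgroup A).map A.subtype).index := by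
    rw [Subgroup.index_map_subtype]
    intro hd
    rcases (Nat.Prime.dvd_mul hpp).mp hd with h | h
    · exact P₀.not_dvd_index h
    · exact hidx h
  obtain ⟨P, hP⟩ : ∃ P : Sylow p X, (P : Subgroup X) = (P₀ : Subgroup A).map A.subtype :=
    ⟨hP1.toSylow hP2, rfl⟩
  have hPA : (P : Subgroup X) ≤ A := by rw [hP]; exact Subgroup.map_subtype_le _
  obtain ⟨y, hy, hy1⟩ : ∃ y ∈ (P : Subgroup X), y ≠ 1 := by
    have h0 : (P₀ : Subgroup A) ≠ ⊥ := Sylow.ne_bot_of_dvd_card P₀ hp
    obtain ⟨⟨y, hy⟩, hy1⟩ := (Subgroup.ne_bot_iff_exists_ne_one).mp h0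
    refine ⟨(y : X), ?_, ?_⟩
    · rw [hP]; exact ⟨y, hy, rfl⟩
    · intro h
      apply hy1
      exact Subtype.ext (Subtype.ext h)
  obtain ⟨g₀, hg₀⟩ : ∃ g, g ∉ A := by
    by_contra hcon
    exact hA.1 (eq_top_iff.mpr fun x _ => by_contra fun hx => hcon ⟨x, hx⟩)
  have hAc : A ≤ centralizer ((P : Subgroup X) : Set X) := fun a ha => by
    rw [mem_centralizer_iff]; intro z hz; exact hab z (hPA hz) a ha
  have hN : normalizer ((P : Subgroup X) : Set X) ≤ centralizer ((P : Subgroup X) : Set X) := by
    have hAn : A ≤ normalizer ((P : Subgroup X) : Set X) :=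
      hAc.trans (Subgroup.centralizer_le_normalizer _)
    have hne : normalizer ((P : Subgroup X) : Set X) ≠ ⊤ := by
      intro htop
      have hg : g₀ ∈ normalizer ((P : Subgroup X) : Set X) := by rw [htop]; exact mem_top _
      have h1 : g₀ * y * g₀⁻¹ ∈ (P : Subgroup X) := (mem_normalizer_iff.mp hg y).mp hy
      exact hy1 (hTI g₀ hg₀ y (hPA hy) (hPA h1))
    have h2 : normalizer ((P : Subgroup X) : Set X) = A := (hA.le_iff.mp hAn).resolve_left hne
    rw [h2]; exact hAc
  refine ⟨(MonoidHom.transferSylow P hN).ker, inferInstance,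
    MonoidHom.not_dvd_card_ker_transferSylow P hN, fun x => ?_⟩
  obtain ⟨k, hk⟩ := P.2 (MonoidHom.transferSylow P hN x)
  exact ⟨k, by rw [MonoidHom.mem_ker, map_pow]; exact hk⟩

/-- Structure of a group with a TI abelian maximal subgroup: an abelian normal subgroup with
abelian quotient. -/
theorem exists_abelian_normal_of_TI [Finite X] (A : Subgroup X) (hA : IsCoatom A) (hne : A ≠ ⊥)
    (hab : ∀ a ∈ A, ∀ b ∈ A, a * b = b * a)
    (hTI : ∀ g : X, g ∉ A → ∀ a ∈ A, g * a * g⁻¹ ∈ A → a = 1) :
    ∃ N : Subgroup X, N.Normal ∧ (∀ a ∈ N, ∀ b ∈ N, a * b = b * a) ∧ commutator X ≤ N := by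
  classical
  have hnt : Nontrivial X := by
    obtain ⟨⟨a, ha⟩, ha1⟩ := (Subgroup.ne_bot_iff_exists_ne_one).mp hne
    exact ⟨⟨a, 1, fun h => ha1 (Subtype.ext h)⟩⟩
  obtain ⟨N, hNn, hNne, hNmin⟩ := exists_minimal_normal (X := X)
  have := hNn
  obtain ⟨g₀, hg₀⟩ : ∃ g, g ∉ A := by
    by_contra hcon
    exact hA.1 (eq_top_iff.mpr fun x _ => by_contra fun hx => hcon ⟨x, hx⟩)
  have hNA : ¬ N ≤ A := by
    intro hle
    obtain ⟨⟨n, hn⟩, hn1⟩ := (Subgroup.ne_bot_iff_exists_ne_one).mp hNne
    exact hn1 (Subtype.ext (hTI g₀ hg₀ n (hle hn) (hle (hNn.conj_mem n hn g₀))))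
  have hsup : A ⊔ N = ⊤ :=
    hA.2 _ (lt_of_le_of_ne le_sup_left (fun h => hNA (by rw [h]; exact le_sup_right)))
  have hcomm : commutator X ≤ N := commutator_le_of_sup_eq_top A N hab hsup
  -- `N` is a `p`-group for some prime `p`
  have hNp : ∃ p : ℕ, p.Prime ∧ IsPGroup p N := by
    by_cases hcase : ∃ p : ℕ, p.Prime ∧ p ∣ Nat.card (A ⊓ N : Subgroup X)
    · obtain ⟨p, hp, hpd⟩ := hcase
      have : Fact p.Prime := ⟨hp⟩
      have hpA : p ∣ Nat.card A := hpd.trans (Subgroup.card_dvd_of_le inf_le_left)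
      have hpN : p ∣ Nat.card N := hpd.trans (Subgroup.card_dvd_of_le inf_le_right)
      obtain ⟨K, hKn, hKp, hKq⟩ := exists_normal_pcomplement_of_TI A hA hab hTI hpA
      have := hKn
      have hNK : N ⊓ K = ⊥ := by
        by_contra hne'
        have h1 := hNmin (N ⊓ K) inferInstance inf_le_left hne'
        have hle : N ≤ K := by rw [← h1]; exact inf_le_right
        exact hKp (hpN.trans (Subgroup.card_dvd_of_le hle))
      refine ⟨p, hp, fun n => ?_⟩
      obtain ⟨k, hk⟩ := hKq (n : X)
      refine ⟨k, ?_⟩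
      have h2 : (n : X) ^ p ^ k ∈ N ⊓ K := ⟨pow_mem n.2 _, hk⟩
      rw [hNK, Subgroup.mem_bot] at h2
      exact Subtype.ext (by simpa using h2)
    · have hAN : A ⊓ N = ⊥ := by
        rw [← Subgroup.card_eq_one]
        by_contra h1
        exact hcase (Nat.exists_prime_and_dvd h1)
      have hcompl : IsComplement' A N :=
        Subgroup.isComplement'_of_disjoint_and_mul_eq_univ (disjoint_iff.mpr hAN)
          (by rw [← Subgroup.mul_normal A N, hsup]; rfl)
      have hNidx : N.index = Nat.card A := hcompl.index_eq_card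
      have hAidx : A.index = Nat.card N := hcompl.symm.index_eq_card
      have hcop : (Nat.card N).Coprime (Nat.card A) := by
        by_contra hnc
        obtain ⟨p, hp, hpN, hpA⟩ := Nat.Prime.not_coprime_iff_dvd.mp hnc
        have : Fact p.Prime := ⟨hp⟩
        exact not_dvd_index_of_TI A hTI hpA (hAidx ▸ hpN)
      obtain ⟨q, hq, hqN⟩ := Nat.exists_prime_and_dvd
        (show Nat.card N ≠ 1 from fun h => hNne (Subgroup.card_eq_one.mp h))
      have : Fact q.Prime := ⟨hq⟩
      obtain ⟨Q⟩ : Nonempty (Sylow q N) := inferInstance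
      have hQne : (Q : Subgroup N) ≠ ⊥ := Sylow.ne_bot_of_dvd_card Q hqN
      have hQ₁N : (Q : Subgroup N).map N.subtype ≤ N := Subgroup.map_subtype_le _
      have hQ₁ne : (Q : Subgroup N).map N.subtype ≠ ⊥ := by
        intro h
        exact hQne ((Subgroup.map_eq_bot_iff_of_injective _ N.subtype_injective).mp h)
      have hfr : normalizer (((Q : Subgroup N).map N.subtype : Subgroup X) : Set X) ⊔ N = ⊤ :=
        Sylow.normalizer_sup_eq_top Q
      generalize hQ₁ : (Q : Subgroup N).map N.subtype = Q₁ at hQ₁N hQ₁ne hfr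
      generalize hL : normalizer (Q₁ : Set X) = L at hfr
      have hQ₁L : Q₁ ≤ L := by rw [← hL]; exact le_normalizer
      -- Schur–Zassenhaus inside `L`
      have hcopL : (Nat.card (N.subgroupOf L)).Coprime (N.subgroupOf L).index := by
        have h1 : Nat.card (N.subgroupOf L) ∣ Nat.card N := by
          have e : Nat.card (N.subgroupOf L) = Nat.card (N ⊓ L : Subgroup X) := by
            rw [← Subgroup.card_map_of_injective L.subtype_injective (K := N.subgroupOf L),
              Subgroup.subgroupOf_map_subtype]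
          rw [e]; exact Subgroup.card_dvd_of_le inf_le_left
        have h2 : (N.subgroupOf L).index = Nat.card A := by
          have e : (N.subgroupOf L).index = N.relIndex L := rfl
          rw [e, ← Subgroup.relIndex_sup_right (H := L) (K := N), hfr, Subgroup.relIndex_top_right,
            hNidx]
        rw [h2]; exact Nat.Coprime.coprime_dvd_left h1 hcop
      obtain ⟨H', hH'⟩ := Subgroup.exists_left_complement'_of_coprime hcopL
      have hH'card : Nat.card H' = Nat.card A := by
        have h2 : (N.subgroupOf L).index = Nat.card A := by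
          have e : (N.subgroupOf L).index = N.relIndex L := rfl
          rw [e, ← Subgroup.relIndex_sup_right (H := L) (K := N), hfr, Subgroup.relIndex_top_right,
            hNidx]
        rw [← h2]; exact hH'.index_eq_card.symm
      have hHL : H'.map L.subtype ≤ L := Subgroup.map_subtype_le _
      have hHcard : Nat.card (H'.map L.subtype) = Nat.card A := by
        rw [Subgroup.card_map_of_injective L.subtype_injective, hH'card]
      have hHN : ∀ x ∈ H'.map L.subtype, x ∈ N → x = 1 := by
        rintro _ ⟨h', hh', rfl⟩ hxN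
        have h3 : h' ∈ H' ⊓ N.subgroupOf L := ⟨hh', hxN⟩
        rw [hH'.disjoint.eq_bot, mem_bot] at h3
        rw [h3]; rfl
      generalize hH : H'.map L.subtype = H at hHL hHcard hHN
      have hHab : ∀ a ∈ H, ∀ b ∈ H, a * b = b * a := by
        intro a ha b hb
        have h1 : ⁅a, b⁆ ∈ N :=
          hcomm (Subgroup.commutator_mem_commutator (mem_top a) (mem_top b))
        have h2 : ⁅a, b⁆ ∈ H := by
          rw [commutatorElement_def]
          exact mul_mem (mul_mem (mul_mem ha hb) (inv_mem ha)) (inv_mem hb)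
        exact commutatorElement_eq_one_iff_mul_comm.mp (hHN _ h2 h1)
      have hH1 : Nat.card H ≠ 1 := by
        rw [hHcard]; exact fun h => hne (Subgroup.card_eq_one.mp h)
      obtain ⟨p, hp, hpH⟩ := Nat.exists_prime_and_dvd hH1
      have : Fact p.Prime := ⟨hp⟩
      obtain ⟨h, hh⟩ := exists_prime_orderOf_dvd_card' p hpH
      have hpA : p ∣ Nat.card A := hHcard ▸ hpH
      have hidx := not_dvd_index_of_TI A hTI hpA
      have hhX : orderOf (h : X) = p := by rw [Subgroup.orderOf_coe, hh]
      have hh1 : (h : X) ≠ 1 := by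
        intro h1
        rw [h1, orderOf_one] at hhX
        exact hp.one_lt.ne hhX
      have hPg : IsPGroup p (zpowers (h : X)) := by
        apply IsPGroup.of_card (n := 1)
        rw [Nat.card_zpowers, hhX, pow_one]
      obtain ⟨q0, hq0⟩ := hPg.nonempty_fixed_point_of_prime_not_dvd_card (X ⧸ A)
        (by rwa [← Subgroup.index_eq_card])
      obtain ⟨g, rfl⟩ := QuotientGroup.mk_surjective q0
      have hgh : g⁻¹ * (h : X) * g ∈ A := by
        have h1 := hq0 ⟨(h : X), mem_zpowers _⟩
        have hsm : (⟨(h : X), mem_zpowers _⟩ : zpowers (h : X)) • (QuotientGroup.mk g : X ⧸ A)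
            = QuotientGroup.mk ((h : X) * g) := rfl
        rw [hsm, QuotientGroup.eq] at h1
        have e : g⁻¹ * (h : X) * g = (((h : X) * g)⁻¹ * g)⁻¹ := by group
        rw [e]; exact inv_mem h1
      have hgh1 : g⁻¹ * (h : X) * g ≠ 1 := by
        intro h1
        apply hh1
        have e : (h : X) = g * (g⁻¹ * (h : X) * g) * g⁻¹ := by group
        rw [e, h1]; group
      have hHA : ∀ c ∈ H, g⁻¹ * c * g ∈ A := by
        intro c hc
        by_contra hcon
        refine hgh1 (hTI (g⁻¹ * c * g) hcon (g⁻¹ * (h : X) * g) hgh ?_)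
        have e : (g⁻¹ * c * g) * (g⁻¹ * (h : X) * g) * (g⁻¹ * c * g)⁻¹
            = g⁻¹ * (c * (h : X) * c⁻¹) * g := by group
        have e2 : c * (h : X) * c⁻¹ = (h : X) := by
          rw [hHab c hc (h : X) h.2]; group
        rw [e, e2]; exact hgh
      have hmapA : H.map (MulAut.conj g⁻¹).toMonoidHom = A := by
        apply Subgroup.eq_of_le_of_card_ge
        · rintro _ ⟨c, hc, rfl⟩
          have := hHA c hc
          simpa using this
        · rw [Subgroup.card_map_of_injective (MulEquiv.injective _), hHcard]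
      have hHco : IsCoatom H := by
        have h1 := (OrderIso.isCoatom_iff (MulEquiv.mapSubgroup (MulAut.conj g⁻¹)) H)
        apply h1.mp
        have e : (MulEquiv.mapSubgroup (MulAut.conj g⁻¹)) H = A := hmapA
        rw [e]; exact hA
      have hLtop : L = ⊤ := by
        have h1 : H < H ⊔ Q₁ := by
          refine lt_of_le_of_ne le_sup_left (fun heq => ?_)
          have hQH : Q₁ ≤ H := by rw [heq]; exact le_sup_right
          apply hQ₁ne
          rw [eq_bot_iff]; intro x hx; exact hHN x (hQH hx) (hQ₁N hx)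
        have h2 : H ⊔ Q₁ = ⊤ := hHco.2 _ h1
        exact top_le_iff.mp (h2 ▸ sup_le hHL hQ₁L)
      have hQ₁normal : Q₁.Normal := normalizer_eq_top_iff.mp (hL.trans hLtop)
      have hQN : Q₁ = N := hNmin Q₁ hQ₁normal hQ₁N hQ₁ne
      refine ⟨q, hq, ?_⟩
      have h5 : IsPGroup q ((Q : Subgroup N).map N.subtype) := Q.2.map _
      rw [hQ₁, hQN] at h5
      exact h5
  obtain ⟨p, hp, hNpg⟩ := hNp
  have : Fact p.Prime := ⟨hp⟩
  refine ⟨N, hNn, ?_, hcomm⟩
  have hCne : N ⊓ centralizer (N : Set X) ≠ ⊥ := by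
    have : Nontrivial N := (Subgroup.nontrivial_iff_ne_bot N).mpr hNne
    have := hNpg.center_nontrivial
    obtain ⟨⟨z, hz⟩, hz1⟩ := (Subgroup.ne_bot_iff_exists_ne_one).mp
      ((Subgroup.nontrivial_iff_ne_bot (center N)).mp inferInstance)
    intro hbot
    have h1 : (z : X) ∈ N ⊓ centralizer (N : Set X) := by
      refine ⟨z.2, ?_⟩
      show (z : X) ∈ centralizer (N : Set X)
      rw [mem_centralizer_iff]
      intro y hy
      have h2 := (mem_center_iff.mp hz) ⟨y, hy⟩
      exact congrArg Subtype.val h2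
    rw [hbot, mem_bot] at h1
    exact hz1 (Subtype.ext (Subtype.ext h1))
  have hC := hNmin _ inferInstance inf_le_left hCne
  intro a ha b hb
  have h1 : a ∈ N ⊓ centralizer (N : Set X) := by rw [hC]; exact ha
  exact ((mem_centralizer_iff.mp h1.2) b hb).symm

end

section
variable {G : Type*} [Group G]

/-- The image of a coatom containing the kernel is a coatom of the quotient. -/
theorem isCoatom_map_mk (Z : Subgroup G) [Z.Normal] (A : Subgroup G) (hA : IsCoatom A)
    (hZA : Z ≤ A) : IsCoatom (A.map (QuotientGroup.mk' Z)) := by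
  have hcomap : (A.map (QuotientGroup.mk' Z)).comap (QuotientGroup.mk' Z) = A := by
    rw [Subgroup.comap_map_eq, QuotientGroup.ker_mk', sup_eq_left.mpr hZA]
  constructor
  · intro htop
    apply hA.1
    rw [← hcomap, htop, Subgroup.comap_top]
  · intro K hK
    have h1 : A < K.comap (QuotientGroup.mk' Z) := by
      rw [← hcomap]
      exact (Subgroup.comap_lt_comap_of_surjective (QuotientGroup.mk'_surjective Z)).mpr hK
    have h2 := hA.2 _ h1
    rw [← Subgroup.map_comap_eq_self_of_surjective (QuotientGroup.mk'_surjective Z) K, h2,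
      Subgroup.map_top_of_surjective _ (QuotientGroup.mk'_surjective Z)]

/-- **Herstein's theorem**: a finite group with an abelian maximal subgroup has derived length
at most three. -/
theorem derivedSeries_three_eq_bot_of_abelian_coatom [Finite G] (A : Subgroup G)
    (hA : IsCoatom A) (hab : ∀ a ∈ A, ∀ b ∈ A, a * b = b * a) : derivedSeries G 3 = ⊥ := by
  classical
  obtain ⟨g₀, hg₀⟩ : ∃ g, g ∉ A := by
    by_contra hcon
    exact hA.1 (eq_top_iff.mpr fun x _ => by_contra fun hx => hcon ⟨x, hx⟩)
  by_cases hAn : A.Normal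
  · have hsup : zpowers g₀ ⊔ A = ⊤ :=
      hA.2 _ (lt_of_le_of_ne le_sup_right
        (fun h => hg₀ (by rw [h]; exact mem_sup_left (mem_zpowers g₀))))
    have hc : commutator G ≤ A := by
      refine commutator_le_of_sup_eq_top (zpowers g₀) A (fun a ha b hb => ?_) hsup
      obtain ⟨i, rfl⟩ := mem_zpowers_iff.mp ha
      obtain ⟨j, rfl⟩ := mem_zpowers_iff.mp hb
      rw [← zpow_add, ← zpow_add, add_comm]
    have h2 := derivedSeries_two_eq_bot_of_abelian_normal A hab hc
    rw [derivedSeries_succ, h2, Subgroup.commutator_bot_left]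
  · have hnorm : normalizer (A : Set G) = A :=
      (hA.le_iff.mp le_normalizer).resolve_left (fun h => hAn (normalizer_eq_top_iff.mp h))
    have hZA : center G ≤ A := by
      by_contra hZ
      apply hAn
      have h1 : A < A ⊔ center G :=
        lt_of_le_of_ne le_sup_left (fun h => hZ (by rw [h]; exact le_sup_right))
      have h2 := hA.2 _ h1
      rw [← normalizer_eq_top_iff, eq_top_iff, ← h2]
      exact sup_le le_normalizer (Subgroup.center_le_normalizer _)
    -- `A` is TI modulo the centre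
    have hTI0 : ∀ g : G, g ∉ A → ∀ a ∈ A, g * a * g⁻¹ ∈ A → a ∈ center G := by
      intro g hg a ha hga
      by_contra haZ
      have hC1 : A ≤ centralizer ({a} : Set G) := fun b hb => by
        rw [mem_centralizer_iff]
        rintro _ rfl
        exact hab _ ha b hb
      have hCne : centralizer ({a} : Set G) ≠ ⊤ := fun h =>
        haZ (centralizer_eq_top_iff_subset.mp h rfl)
      have hCA : centralizer ({a} : Set G) = A := (hA.le_iff.mp hC1).resolve_left hCne
      have hconj : ∀ b ∈ A, g⁻¹ * b * g ∈ A := by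
        intro b hb
        rw [← hCA, mem_centralizer_iff]
        intro h hh
        rw [Set.mem_singleton_iff.mp hh]
        have h1 := hab (g * a * g⁻¹) hga b hb
        calc a * (g⁻¹ * b * g) = g⁻¹ * ((g * a * g⁻¹) * b) * g := by group
          _ = g⁻¹ * (b * (g * a * g⁻¹)) * g := by rw [h1]
          _ = g⁻¹ * b * g * a := by group
      have hmap : A.map (MulAut.conj g⁻¹).toMonoidHom = A := by
        apply Subgroup.eq_of_le_of_card_ge
        · rintro _ ⟨b, hb, rfl⟩
          have := hconj b hb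
          simpa using this
        · rw [Subgroup.card_map_of_injective (MulEquiv.injective _)]
      have hgi : g⁻¹ ∈ normalizer (A : Set G) := mem_normalizer_iff_map_conj_eq.mpr hmap
      rw [hnorm] at hgi
      exact hg (by simpa using inv_mem hgi)
    -- pass to the quotient by the centre
    have hAbar : IsCoatom (A.map (QuotientGroup.mk' (center G))) :=
      isCoatom_map_mk (center G) A hA hZA
    have hAbar_ne : A.map (QuotientGroup.mk' (center G)) ≠ ⊥ := by
      intro h
      rw [Subgroup.map_eq_bot_iff, QuotientGroup.ker_mk'] at h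
      apply hAn
      have : A = center G := le_antisymm h hZA
      rw [this]; infer_instance
    have hAbar_ab : ∀ a ∈ A.map (QuotientGroup.mk' (center G)),
        ∀ b ∈ A.map (QuotientGroup.mk' (center G)), a * b = b * a := by
      rintro _ ⟨a, ha, rfl⟩ _ ⟨b, hb, rfl⟩
      rw [← map_mul, ← map_mul, hab a ha b hb]
    have hcomap : (A.map (QuotientGroup.mk' (center G))).comap (QuotientGroup.mk' (center G))
        = A := by
      rw [Subgroup.comap_map_eq, QuotientGroup.ker_mk', sup_eq_left.mpr hZA]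
    have hAbar_TI : ∀ g : G ⧸ center G, g ∉ A.map (QuotientGroup.mk' (center G)) →
        ∀ a ∈ A.map (QuotientGroup.mk' (center G)),
        g * a * g⁻¹ ∈ A.map (QuotientGroup.mk' (center G)) → a = 1 := by
      intro gb hgb ab hab' hconj
      obtain ⟨g, rfl⟩ := QuotientGroup.mk'_surjective (center G) gb
      obtain ⟨a, ha, rfl⟩ := hab'
      have hg : g ∉ A := fun h => hgb ⟨g, h, rfl⟩
      have h1 : g * a * g⁻¹ ∈ A := by
        rw [← hcomap, Subgroup.mem_comap, map_mul, map_mul, map_inv]
        exact hconj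
      exact (QuotientGroup.eq_one_iff a).mpr (hTI0 g hg a ha h1)
    obtain ⟨N, hNn, hNab, hcomm⟩ := exists_abelian_normal_of_TI _ hAbar hAbar_ne hAbar_ab hAbar_TI
    have h2 := derivedSeries_two_eq_bot_of_abelian_normal N hNab hcomm
    have h3 : derivedSeries G 2 ≤ center G := by
      have h4 := map_derivedSeries_eq (f := QuotientGroup.mk' (center G))
        (QuotientGroup.mk'_surjective (center G)) 2
      rw [h2, Subgroup.map_eq_bot_iff, QuotientGroup.ker_mk'] at h4
      exact h4
    rw [derivedSeries_succ, eq_bot_iff, Subgroup.commutator_le]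
    intro a ha b hb
    rw [Subgroup.mem_bot, commutatorElement_eq_one_iff_mul_comm]
    exact ((mem_center_iff.mp (h3 ha)) b).symm

/-- A finite group with an abelian maximal subgroup is solvable. -/
theorem isSolvable_of_abelian_coatom [Finite G] (A : Subgroup G)
    (hA : IsCoatom A) (hab : ∀ a ∈ A, ∀ b ∈ A, a * b = b * a) : Group.IsSolvable G :=
  (Group.isSolvable_def G).mpr ⟨3, derivedSeries_three_eq_bot_of_abelian_coatom A hA hab⟩

end

end Cfsg.Agent.H74
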