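import Mathlib
import Cfsg.Agent.H74.Kegel

/-!
# Splitting automorphisms of prime order (helper74)

* `pow_eq_one_of_coset`: if `H ⊴ S` has index `p` and all elements of one coset `H a ≠ H` have
  `p`-th power `1`, then so do all elements outside `H`.
* `isNilpotent_of_splitting`: Kegel's theorem in automorphism form.
-/

set_option autoImplicit false
namespace Cfsg.Agent.H74.Keg
open Finset Subgroup

universe u

/-- If every element of the coset `H a` (`a ∉ H`, `[S : H] = p`) has `p`-th power `1`, so does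
every element outside `H`. -/
theorem pow_eq_one_of_coset {S : Type*} [Group S] [Finite S] {p : ℕ} (hp : p.Prime)
    (H : Subgroup S) [H.Normal] (hidx : H.index = p) (a : S) (ha : a ∉ H)
    (hsp : ∀ h ∈ H, (h * a) ^ p = 1) : ∀ s, s ∉ H → s ^ p = 1 := by
  haveI : Fact p.Prime := ⟨hp⟩
  have hap : a ^ p = 1 := by simpa using hsp 1 H.one_mem
  intro s hs
  -- `s ∈ H a^j` for some `j` prime to `p`
  have hcard : Nat.card (S ⧸ H) = p := by rw [← Subgroup.index_eq_card]; exact hidx
  have hgen : zpowers (QuotientGroup.mk a : S ⧸ H) = ⊤ :=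
    zpowers_eq_top_of_prime_card hcard (fun h => ha ((QuotientGroup.eq_one_iff a).1 h))
  have hmem : (QuotientGroup.mk s : S ⧸ H) ∈ zpowers (QuotientGroup.mk a : S ⧸ H) := by
    rw [hgen]; exact mem_top _
  obtain ⟨j, hj⟩ := mem_powers_iff_mem_zpowers.2 hmem
  have hj' : (QuotientGroup.mk (a ^ j) : S ⧸ H) = QuotientGroup.mk s := by
    rw [QuotientGroup.mk_pow]; exact hj
  have hsj : s * (a ^ j)⁻¹ ∈ H := by
    have h1 : (a ^ j)⁻¹ * s ∈ H := QuotientGroup.eq.1 hj'
    exact Subgroup.Normal.mem_comm inferInstance h1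
  have hpj : ¬ p ∣ j := by
    rintro ⟨t, rfl⟩
    apply hs
    rw [pow_mul, hap, one_pow, inv_one, mul_one] at hsj
    exact hsj
  -- the map `h ↦ (h a)^j a^{-j}` is a bijection of `H`
  have hmemH : ∀ h : H, ((h : S) * a) ^ j * (a ^ j)⁻¹ ∈ H := by
    intro h
    rw [← QuotientGroup.eq_one_iff]
    simp only [QuotientGroup.mk_mul, QuotientGroup.mk_pow, QuotientGroup.mk_inv]
    have : (QuotientGroup.mk (h : S) : S ⧸ H) = 1 := (QuotientGroup.eq_one_iff _).2 h.2
    rw [this, one_mul, mul_inv_cancel]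
  have hcop : Nat.Coprime j p := ((Nat.Prime.coprime_iff_not_dvd hp).2 hpj).symm
  obtain ⟨m, -, hm⟩ := Nat.exists_mul_mod_eq_one_of_coprime hcop hp.one_lt
  have hroot : ∀ t : S, t ^ p = 1 → (t ^ j) ^ m = t := by
    intro t ht
    rw [← pow_mul]
    conv_lhs => rw [← Nat.div_add_mod (j * m) p, pow_add, pow_mul, ht, one_pow, one_mul, hm, pow_one]
  let Ψ : H → H := fun h => ⟨_, hmemH h⟩
  have hinj : Function.Injective Ψ := by
    intro h₁ h₂ h12
    have h1 : ((h₁ : S) * a) ^ j * (a ^ j)⁻¹ = ((h₂ : S) * a) ^ j * (a ^ j)⁻¹ :=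
      congrArg Subtype.val h12
    have h2 : ((h₁ : S) * a) ^ j = ((h₂ : S) * a) ^ j := mul_right_cancel h1
    have h3 : (h₁ : S) * a = (h₂ : S) * a := by
      rw [← hroot _ (hsp _ h₁.2), ← hroot _ (hsp _ h₂.2), h2]
    exact Subtype.ext (mul_right_cancel h3)
  obtain ⟨h, hh⟩ := (Finite.injective_iff_surjective.1 hinj) ⟨_, hsj⟩
  have h4 : ((h : S) * a) ^ j * (a ^ j)⁻¹ = s * (a ^ j)⁻¹ := congrArg Subtype.val hh
  have h5 : ((h : S) * a) ^ j = s := mul_right_cancel h4
  rw [← h5, ← pow_mul, mul_comm, pow_mul, hsp _ h.2, one_pow]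

/-- **Kegel's theorem**, automorphism form, modulo a normal `p`-complement oracle: a finite
group with a splitting automorphism of prime order is nilpotent. -/
theorem isNilpotent_of_splitting
    (hT : ∀ (K : Type u) [Group K] [Finite K], Cfsg.Agent.H77.Fpf.Oracle2 K)
    {G : Type u} [Group G] [Finite G] (α : MulAut G) (hp : (orderOf α).Prime)
    (hsplit : ∀ x : G, (((List.range (orderOf α)).map (fun i : ℕ => (α ^ i) x)).prod = 1)) :
    Group.IsNilpotent G := by
  set p := orderOf α with hpdef
  let Z : Subgroup (MulAut G) := zpowers α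
  let φ : ↥Z →* MulAut G := Z.subtype
  let a : ↥Z := ⟨α, mem_zpowers α⟩
  haveI : Finite ↥Z := by
    apply Nat.finite_of_card_ne_zero
    rw [Nat.card_zpowers]
    exact hp.ne_zero
  haveI : Finite (G ⋊[φ] ↥Z) := Finite.of_equiv _ SemidirectProduct.equivProd.symm
  have hap : a ^ p = 1 := Subtype.ext (by
    show α ^ p = 1
    exact pow_orderOf_eq_one α)
  have ha1 : a ≠ 1 := by
    intro h
    have h1 : α = 1 := congrArg Subtype.val h
    rw [h1, orderOf_one] at hpdef
    rw [hpdef] at hp
    exact Nat.not_prime_one hp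
  -- powers of `inl x * inr a`
  have hpow : ∀ (x : G) (n : ℕ), (SemidirectProduct.inl x * SemidirectProduct.inr a : G ⋊[φ] ↥Z) ^ n
      = SemidirectProduct.inl (((List.range n).map (fun i : ℕ => (α ^ i) x)).prod) *
        SemidirectProduct.inr (a ^ n) := by
    intro x n
    induction n with
    | zero => simp
    | succ n ih =>
      rw [pow_succ, ih, List.range_succ, List.map_append, List.prod_append, map_mul]
      have h1 : (SemidirectProduct.inr (a ^ n) : G ⋊[φ] ↥Z) * SemidirectProduct.inl x =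
          SemidirectProduct.inl ((α ^ n) x) * SemidirectProduct.inr (a ^ n) := by
        have h2 := SemidirectProduct.inl_aut (φ := φ) (a ^ n) x
        have h3 : φ (a ^ n) x = (α ^ n) x := rfl
        rw [h3] at h2
        rw [h2, map_inv]; group
      simp only [List.map_cons, List.map_nil, List.prod_cons, List.prod_nil, mul_one]
      rw [pow_succ, map_mul]
      calc SemidirectProduct.inl ((List.range n).map (fun i : ℕ => (α ^ i) x)).prod *
            SemidirectProduct.inr (a ^ n) * (SemidirectProduct.inl x * SemidirectProduct.inr a)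
          = SemidirectProduct.inl ((List.range n).map (fun i : ℕ => (α ^ i) x)).prod *
            (SemidirectProduct.inr (a ^ n) * SemidirectProduct.inl x) * SemidirectProduct.inr a := by
              group
        _ = _ := by rw [h1]; group
  set H : Subgroup (G ⋊[φ] ↥Z) := (SemidirectProduct.rightHom : G ⋊[φ] ↥Z →* ↥Z).ker with hH
  have hidx : H.index = p := by
    rw [hH, Subgroup.index_ker,
      MonoidHom.range_eq_top.2 SemidirectProduct.rightHom_surjective, Subgroup.card_top]
    exact Nat.card_zpowers α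
  have haH : (SemidirectProduct.inr a : G ⋊[φ] ↥Z) ∉ H := by
    intro h
    rw [hH, MonoidHom.mem_ker, SemidirectProduct.rightHom_inr] at h
    exact ha1 h
  have hsp : ∀ h ∈ H, (h * (SemidirectProduct.inr a : G ⋊[φ] ↥Z)) ^ p = 1 := by
    intro h hh
    rw [hH, ← SemidirectProduct.range_inl_eq_ker_rightHom] at hh
    obtain ⟨x, rfl⟩ := hh
    rw [hpow x p, hsplit x, hap, map_one, map_one, one_mul]
  have hspl := pow_eq_one_of_coset hp H hidx _ haH hsp
  have hnil : Group.IsNilpotent H := kegel hT hp _ (G ⋊[φ] ↥Z) H rfl hidx hspl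
  rw [hH, ← SemidirectProduct.range_inl_eq_ker_rightHom] at hnil
  haveI := hnil
  exact Group.nilpotent_of_mulEquiv
    (MonoidHom.ofInjective (SemidirectProduct.inl_injective (φ := φ))).symm

end Cfsg.Agent.H74.Keg
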