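import Mathlib
import Cfsg.Agent.H74.MCDefs

set_option autoImplicit false

/-!
# helper74: S4756 -- assembly of the piece statements of `MCDefs`
-/

namespace Cfsg.Agent.H74.MC

open Cfsg
open scoped commutatorElement

universe u

/-- The group part `StStruct` from its pieces. -/
theorem struct_of (hSetup : StSetup.{u}) (hFpf : StFpf.{u}) (hDEq : StDEq.{u})
    (hSplit : StSplit.{u}) (hCAb : StCAb.{u}) (hCyc1 : StCyc1.{u}) (hCyc2 : StCyc2.{u}) :
    StStruct.{u} := by
  intro G _ _ p hp hD hCent hnc hnp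
  have := hp
  obtain ⟨P⟩ : Nonempty (Sylow p G) := inferInstance
  obtain ⟨A, hS⟩ := hSetup G p hD hCent P
  have hA : A ≠ ⊥ := by
    rintro rfl
    have hPtop : (P : Subgroup G) = ⊤ := by simpa using hS.sup
    apply hnp
    have h1 := hS.pgroup
    rw [hPtop] at h1
    exact h1.of_equiv Subgroup.topEquiv
  have hDeq := hDEq G p P A hS hA
  have hDne : commutator G ≠ ⊥ := by
    intro h
    obtain ⟨a, b, hab⟩ := hnc
    apply hab
    have hm : ⁅a, b⁆ ∈ commutator G :=
      Subgroup.commutator_mem_commutator (Subgroup.mem_top a) (Subgroup.mem_top b)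
    rw [h, Subgroup.mem_bot] at hm
    exact commutatorElement_eq_one_iff_mul_comm.mp hm
  have hfpf := hFpf G p P A hS
  have hcyc : IsCyclic ↥A :=
    hCyc2 G A hS.abel
      (hCyc1 G p A (commutator G) inferInstance hD hDne hS.coprime hS.abel hfpf)
  obtain ⟨hs1, hs2⟩ := hSplit G p P A hS hA
  refine ⟨P, A, hS.normal, hcyc, hA, hS.coprime, hS.sup, hCAb G p P A hS hA, ?_, hs1, hs2, ?_⟩
  · rw [hDeq]; infer_instance
  · rw [hDeq]; exact hfpf

/-- S4756 from the character part, the group part and the converse pieces. -/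
theorem main (hChar : StChar.{u}) (hStruct : StStruct.{u}) (hOut : StConvOut.{u})
    (hCC : StConvCent.{u}) (hCV : StConvVan.{u}) (hLin : StLin.{u}) (hAbel : StAbel.{u})
    {G : Type u} [Group G] [Finite G] :
    Mult G ↔ ((∃ p : ℕ, p.Prime ∧ IsPGroup p G) ∨ IsMulCommutative G ∨
      ∃ (p : ℕ) (_ : Fact p.Prime) (P : Sylow p G) (A : Subgroup G),
        (P : Subgroup G).Normal ∧ IsCyclic ↥A ∧ A ≠ ⊥ ∧ (Nat.card ↥A).Coprime p ∧
        A ⊔ (P : Subgroup G) = ⊤ ∧
        IsMulCommutative ↥((P : Subgroup G) ⊓ Subgroup.centralizer (A : Set G)) ∧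
        (⁅A, (P : Subgroup G)⁆).Normal ∧
        ((P : Subgroup G) ⊓ Subgroup.centralizer (A : Set G)) ⊔ ⁅A, (P : Subgroup G)⁆ =
          (P : Subgroup G) ∧
        ((P : Subgroup G) ⊓ Subgroup.centralizer (A : Set G)) ⊓ ⁅A, (P : Subgroup G)⁆ = ⊥ ∧
        ∀ a ∈ A, a ≠ 1 → ∀ d ∈ ⁅A, (P : Subgroup G)⁆, a * d = d * a → d = 1) := by
  constructor
  · intro hM
    by_cases hcomm : ∃ a b : G, a * b ≠ b * a
    · obtain ⟨p, hp, hD, hC⟩ := hChar G hM hcomm
      by_cases hpg : IsPGroup p G
      · exact Or.inl ⟨p, hp, hpg⟩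
      · right; right
        obtain ⟨P, A, h⟩ := hStruct G p ⟨hp⟩ hD hC hcomm hpg
        exact ⟨p, ⟨hp⟩, P, A, h⟩
    · right; left
      push Not at hcomm
      exact ⟨⟨hcomm⟩⟩
  · rintro (⟨p, hp, hpg⟩ | hab | ⟨p, hp, P, A, hPn, hAc, hAne, hcop, hsup, hCab, hDn, hs1, hs2,
      hfpf⟩)
    · intro x y χ hx hy hxy
      have : Fact p.Prime := ⟨hp⟩
      have h := hOut G p ⊤ inferInstance (hpg.of_equiv Subgroup.topEquiv.symm) x y hx hy hxy
      exact absurd (Subgroup.mem_top _) h.2
    · intro x y χ hx hy hxy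
      exact hLin G χ (hAbel G hab χ) x y
    · intro x y χ hx hy hxy
      have := hp
      by_cases h1 : charDegree (χ : G → ℂ) = 1
      · exact hLin G χ h1 x y
      · have hAlt : Alt G p P A :=
          { normal := hPn
            pgroup := P.isPGroup'
            coprime := hcop
            sup := hsup
            abel := by
              intro a ha b hb
              obtain ⟨g, hg⟩ := hAc.exists_generator
              obtain ⟨m, hm⟩ := Subgroup.mem_zpowers_iff.mp (hg ⟨a, ha⟩)
              obtain ⟨n, hn⟩ := Subgroup.mem_zpowers_iff.mp (hg ⟨b, hb⟩)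
              have e : (⟨a, ha⟩ : ↥A) * ⟨b, hb⟩ = ⟨b, hb⟩ * ⟨a, ha⟩ := by
                rw [← hm, ← hn]
                exact (Commute.zpow_zpow_self g m n).eq
              exact congrArg Subtype.val e
            cab := by
              intro c hc c' hc'
              have e := hCab.is_comm.comm (⟨c, hc⟩ : ↥((P : Subgroup G) ⊓
                Subgroup.centralizer (A : Set G))) ⟨c', hc'⟩
              exact congrArg Subtype.val e
            dnormal := hDn
            split_sup := hs1
            split_inf := hs2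
            fpf := hfpf }
        obtain ⟨ho, hxyP⟩ := hOut G p P hPn P.isPGroup' x y hx hy hxy
        have e1 : (χ : G → ℂ) (x * y) = 0 :=
          hCV G (x * y) (hCC G p P A hAlt (x * y) hxyP) χ h1
        rcases ho with hxP | hyP
        · have e2 := hCV G x (hCC G p P A hAlt x hxP) χ h1
          rw [e1, e2, zero_mul]
        · have e2 := hCV G y (hCC G p P A hAlt y hyP) χ h1
          rw [e1, e2, mul_zero]

end Cfsg.Agent.H74.MC
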