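import Mathlib
import Cfsg.Prelude.Def_Blocks
import Cfsg.Agent.H74.W2PDefs
import Cfsg.Agent.H67.PDW5
import Cfsg.Agent.Lib.Helper96.PDD5
import Cfsg.Agent.Lib.Helper96.PDG
import Cfsg.Agent.H60.PDW10
import Cfsg.Agent.H8.PDW8
import Cfsg.Agent.H20.PDW6b
import Cfsg.Agent.H20.PDW6a
import Cfsg.Agent.H28.PDW4
import Cfsg.Agent.H37.PDW3
import Cfsg.Agent.H37.PDW2
import Cfsg.Agent.H60.PDW1
import Cfsg.Agent.H8.PDW9
import Cfsg.Agent.H20.PDW7
import Cfsg.Agent.H8.PDD4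
import Cfsg.Agent.H51.PDD3
import Cfsg.Agent.H51.PDD2
import Cfsg.Agent.H51.PDD1
import Cfsg.Agent.H14.PDG4
import Cfsg.Agent.H14.PDG3

set_option autoImplicit false

/-!
# S4706 / S4707: the pieces of the team project, re-exported (helper74)
-/

namespace Cfsg.Agent.H74.PD

open Equiv MulAction Cfsg.Agent.H74.W2P

/-! ## abstract groups with a Sylow `p`-subgroup of order `p` -/

-- G1
theorem card_sylow_of_normalizer {G : Type*} [Group G] [Finite G] {p : ℕ} [Fact p.Prime]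
    (hp : 2 < p) (P : Sylow p G)
    (hN : Nat.card (Subgroup.normalizer ((P : Subgroup G) : Set G)) = 2 * p) :
    Nat.card P = p := Cfsg.Agent.Lib.Helper96.PD.card_sylow_of_normalizer hp P hN

-- G2
theorem relIndex_eq_two {G : Type*} [Group G] [Finite G] {p : ℕ} [Fact p.Prime]
    (P : Sylow p G) (hP : Nat.card P = p)
    (hN : Nat.card (Subgroup.normalizer ((P : Subgroup G) : Set G)) = 2 * p)
    (hC : Subgroup.centralizer ((P : Subgroup G) : Set G) = (P : Subgroup G)) :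
    (Subgroup.centralizer ((P : Subgroup G) : Set G)).relIndex
      (Subgroup.normalizer ((P : Subgroup G) : Set G)) = 2 := Cfsg.Agent.Lib.Helper96.PD.relIndex_eq_two P hP hN hC

-- G3
theorem sing_conj {G : Type*} [Group G] [Finite G] {p : ℕ} [Fact p.Prime]
    (P : Sylow p G) (hP : Nat.card P = p)
    (hC : Subgroup.centralizer ((P : Subgroup G) : Set G) = (P : Subgroup G))
    (g : G) (hg : p ∣ orderOf g) : ∃ h : G, h * g * h⁻¹ ∈ (P : Subgroup G) := Cfsg.Agent.H14.PD.sing_conj P hP hC g hg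

-- G4
theorem sing_count {G : Type*} [Group G] [Fintype G] {p : ℕ} [Fact p.Prime]
    (P : Sylow p G) (hP : Nat.card P = p)
    (hC : Subgroup.centralizer ((P : Subgroup G) : Set G) = (P : Subgroup G))
    (hN : Nat.card (Subgroup.normalizer ((P : Subgroup G) : Set G)) = 2 * p) :
    open Classical in
    2 * p * (Finset.univ.filter (fun g : G => p ∣ orderOf g)).card = (p - 1) * Nat.card G := Cfsg.Agent.H14.PD.sing_count P hP hC hN

/-! ## permutation groups of prime degree `p` (S4706) -/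

-- D1
theorem pretransitive_of_dvd {α : Type*} [Fintype α] [DecidableEq α] {p : ℕ} [Fact p.Prime]
    (hα : Fintype.card α = p) (G : Subgroup (Perm α)) (hdvd : p ∣ Nat.card G) :
    IsPretransitive G α := Cfsg.Agent.H51.PD.pretransitive_of_dvd hα G hdvd

-- D2
theorem centralizer_sylow_eq {α : Type*} [Fintype α] [DecidableEq α] {p : ℕ} [Fact p.Prime]
    (hα : Fintype.card α = p) (G : Subgroup (Perm α)) (P : Sylow p G) (hP : Nat.card P = p) :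
    Subgroup.centralizer ((P : Subgroup G) : Set G) = (P : Subgroup G) := Cfsg.Agent.H51.PD.centralizer_sylow_eq hα G P hP

-- D3
theorem fixedBy_empty_of_dvd {α : Type*} [Fintype α] [DecidableEq α] {p : ℕ} [Fact p.Prime]
    (hα : Fintype.card α = p) (G : Subgroup (Perm α)) (g : G) (hg : p ∣ orderOf g) :
    Nat.card (fixedBy α g) = 0 := Cfsg.Agent.H51.PD.fixedBy_empty_of_dvd hα G g hg

-- D4
theorem sum_fixedBy_cube {G Ω : Type*} [Group G] [MulAction G Ω] [Fintype G] [Finite Ω]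
    (h3 : IsMultiplyPretransitive G Ω 3) (hΩ : 3 ≤ Nat.card Ω) :
    ∑ g : G, Nat.card (fixedBy Ω g) ^ 3 = 5 * Nat.card G := Cfsg.Agent.H8.PD.sum_fixedBy_cube h3 hΩ

-- D5
theorem fix_arith {G : Type*} [Fintype G] (p : ℕ) (hp : 3 ≤ p) (f : G → ℕ)
    (S : Finset G) (hf : ∀ g, f g ≤ p) (hS : ∀ g ∈ S, f g = 0)
    (h1 : ∑ g, f g = Fintype.card G) (h2 : ∑ g, f g ^ 2 = 2 * Fintype.card G)
    (h3 : ∑ g, f g ^ 3 = 5 * Fintype.card G)
    (hcount : 2 * p * S.card = (p - 1) * Fintype.card G) (g : G) (hg : 3 ≤ f g) : f g = p := Cfsg.Agent.Lib.Helper96.PD.fix_arith p hp f S hf hS h1 h2 h3 hcount g hg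

/-! ## primitive groups of degree `2p` (S4707) -/

variable {Ω : Type*} [Fintype Ω] [DecidableEq Ω]

-- W1
theorem exists_hyp {G : Subgroup (Perm Ω)} {p : ℕ} [Fact p.Prime] (hp2 : p ≠ 2)
    (hcard : Fintype.card Ω = 2 * p) (hprim : IsPreprimitive G Ω)
    (hnot2 : ¬ IsMultiplyPretransitive G Ω 2) (P : Sylow p G) (hP : Nat.card P = p) :
    ∃ (x : Perm Ω) (hx : x ∈ G), Hyp G p x ∧
      (P : Subgroup G) = Subgroup.zpowers (⟨x, hx⟩ : G) := Cfsg.Agent.H60.PD.exists_hyp hp2 hcard hprim hnot2 P hP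

-- W2
theorem centralizer_eq_of_prim {G : Subgroup (Perm Ω)} {p : ℕ} [Fact p.Prime]
    (hcard : Fintype.card Ω = 2 * p) (hprim : IsPreprimitive G Ω) (P : Sylow p G)
    (hP : Nat.card P = p)
    (hN : Nat.card (Subgroup.normalizer ((P : Subgroup G) : Set G)) = 2 * p) :
    Subgroup.centralizer ((P : Subgroup G) : Set G) = (P : Subgroup G) := Cfsg.Agent.H37.PD.centralizer_eq_of_prim hcard hprim P hP hN

-- W3
theorem simple_of_prim {G : Subgroup (Perm Ω)} {p : ℕ} [Fact p.Prime]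
    (hcard : Fintype.card Ω = 2 * p) (hprim : IsPreprimitive G Ω) (P : Sylow p G)
    (hP : Nat.card P = p)
    (hN : Nat.card (Subgroup.normalizer ((P : Subgroup G) : Set G)) = 2 * p) :
    IsSimpleGroup G := Cfsg.Agent.H37.PD.simple_of_prim hcard hprim P hP hN

-- W4
theorem wch_rat {p : ℕ} (hp : p.Prime) (x : Perm Ω) (a₀ b₀ : Ω) (A : Matrix Ω Ω ℤ)
    (hE : ∀ k : ZMod p, k ≠ 0 →
      wch x a₀ b₀ p (A.map (Int.cast : ℤ → ℂ)) k = wch x a₀ b₀ p (A.map (Int.cast : ℤ → ℂ)) 1) :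
    ∃ q : ℚ, wch x a₀ b₀ p (A.map (Int.cast : ℤ → ℂ)) 1 = (q : ℂ) := Cfsg.Agent.H28.PD.wch_rat hp x a₀ b₀ A hE

-- W5
theorem chi_rat {G : Subgroup (Perm Ω)} {W : Submodule ℂ (Ω → ℂ)} (hinv : Inv G W)
    (hne : W ≠ ⊥)
    (hscal : ∀ A : Matrix Ω Ω ℤ, Cent G A → ∃ q : ℚ, ∀ f ∈ W,
      (A.map (Int.cast : ℤ → ℂ)).mulVec f = (q : ℂ) • f)
    (χ : Cfsg.IrrCharacter G)
    (hχ : ∀ (g : G) (T : W →ₗ[ℂ] W),
      (∀ f : W, ((T f : W) : Ω → ℂ) = fun ω => (f : Ω → ℂ) ((g⁻¹ : G) • ω)) →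
        (χ : G → ℂ) g = LinearMap.trace ℂ W T) (g : G) :
    ∃ q : ℚ, (χ : G → ℂ) g = (q : ℂ) := Cfsg.Agent.H67.PD.chi_rat hinv hne hscal χ hχ g

-- W6a
theorem fix_of_chi_eq {G : Subgroup (Perm Ω)} {W : Submodule ℂ (Ω → ℂ)} (hinv : Inv G W)
    (χ : Cfsg.IrrCharacter G)
    (hχ : ∀ (g : G) (T : W →ₗ[ℂ] W),
      (∀ f : W, ((T f : W) : Ω → ℂ) = fun ω => (f : Ω → ℂ) ((g⁻¹ : G) • ω)) →
        (χ : G → ℂ) g = LinearMap.trace ℂ W T) (g : G)
    (hg : (χ : G → ℂ) g = (χ : G → ℂ) 1) :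
    ∀ f ∈ W, (fun ω => f ((g⁻¹ : G) • ω)) = f := Cfsg.Agent.H20.PD.fix_of_chi_eq hinv χ hχ g hg

-- W6b
theorem eq_one_of_fix {G : Subgroup (Perm Ω)} (hprim : IsPreprimitive G Ω)
    {W : Submodule ℂ (Ω → ℂ)} (hinv : Inv G W) (hne : W ≠ ⊥)
    (hsum : ∀ f ∈ W, ∑ ω, f ω = 0)
    (g : G) (hfix : ∀ f ∈ W, (fun ω => f (g • ω)) = f) : g = 1 := Cfsg.Agent.H20.PD.eq_one_of_fix hprim hinv hne hsum g hfix

-- W7
theorem blk {G : Type*} [Group G] [Fintype G] {p : ℕ} [Fact p.Prime] (hp : 3 < p)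
    (M : Ideal Cfsg.AlgInt) (hM : Cfsg.IsPModular p M) (P : Sylow p G) (hP : Nat.card P = p)
    (he : (Subgroup.centralizer ((P : Subgroup G) : Set G)).relIndex
      (Subgroup.normalizer ((P : Subgroup G) : Set G)) = 2)
    (χ : Cfsg.IrrCharacter G) (hχB : χ ∈ Cfsg.principalBlock M G)
    (hχ1 : (χ : G → ℂ) 1 = (p : ℂ) - 1) :
    (∀ x : G, x ∈ (P : Subgroup G) → x ≠ 1 → (χ : G → ℂ) x = -1) ∧
      ∃ θ : Cfsg.IrrCharacter G, ∀ g : G, ¬ p ∣ orderOf g →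
        (θ : G → ℂ) g = (χ : G → ℂ) g - 1 := Cfsg.Agent.H20.PD.blk hp M hM P hP he χ hχB hχ1

-- W8
theorem char_numeric {G : Type*} [Group G] [Fintype G] (S : Finset G)
    (χ θ : Cfsg.IrrCharacter G) (c : G → ℤ) (hc : ∀ g, (χ : G → ℂ) g = (c g : ℂ))
    (d : ℤ) (hd : 1 < d) (hχ1 : c 1 = d) (hS : ∀ g ∈ S, c g = -1)
    (hθ : ∀ g, g ∉ S → (θ : G → ℂ) g = (χ : G → ℂ) g - 1) :
    (∑ g, c g = 0) ∧ (∑ g, c g ^ 2 = (Fintype.card G : ℤ)) ∧ (∀ g, c g ≤ d) ∧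
      (Fintype.card G : ℤ) ≤ ∑ g, c g ^ 3 := Cfsg.Agent.H8.PD.char_numeric S χ θ c hc d hd hχ1 hS hθ

-- W9
theorem order_arith {G : Type*} [Group G] [Fintype G] {p : ℕ} (hp : 3 < p) (S : Finset G)
    (c : G → ℤ) (hS : ∀ g ∈ S, c g = -1)
    (hcount : 2 * p * S.card = (p - 1) * Fintype.card G)
    (h1 : ∑ g, c g = 0) (h2 : ∑ g, c g ^ 2 = (Fintype.card G : ℤ))
    (h3 : (Fintype.card G : ℤ) ≤ ∑ g, c g ^ 3) (hle : ∀ g, c g ≤ (p : ℤ) - 1)
    (hone : c 1 = (p : ℤ) - 1) (hfaith : ∀ g, c g = (p : ℤ) - 1 → g = 1) :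
    Fintype.card G = p * (p - 1) * (p - 2) := Cfsg.Agent.H8.PD.order_arith hp S c hS hcount h1 h2 h3 hle hone hfaith

-- W10
theorem p_eq_five {G : Subgroup (Perm Ω)} {p : ℕ} (hp : p.Prime)
    (hcard : Fintype.card Ω = 2 * p) (htr : IsPretransitive G Ω) (a₀ : Ω)
    (hC : Concl G p a₀) (hG : Nat.card G = p * (p - 1) * (p - 2)) : p = 5 := Cfsg.Agent.H60.PD.p_eq_five hp hcard htr a₀ hC hG

end Cfsg.Agent.H74.PD
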