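import Mathlib
import Cfsg.Agent.H74.PDPieces
import Cfsg.Agent.H74.W2PMain
import Cfsg.Agent.H4.PSection2
import Cfsg.Agent.H4.GlaubP
import Cfsg.Agent.H4.Burnside

set_option autoImplicit false
set_option linter.style.haveILetI false

/-!
# S4707: assembly of the pieces (helper74)

`G` primitive of degree `2p`, not 2-transitive, `p > 3`, Sylow `p`-normalizer of order `2p`:
then `p = 5`, `|G| = 60` and `G` is simple.
-/

namespace Cfsg.Agent.H74.PD

open Equiv MulAction Cfsg.Agent.H74.W2P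

variable {Ω : Type*} [Fintype Ω] [DecidableEq Ω]

/-- the rank 3 case of the linear algebra of S0720: the constituent `W` of dimension `p - 1` -/
theorem la_wdata1 {G : Subgroup (Perm Ω)} {p : ℕ} {x : Perm Ω} (hyp : Hyp G p x) (a₀ : Ω)
    (hrank : Nat.card (orbitRel.Quotient (stabilizer G a₀) Ω) = 3) :
    ∃ (b₀ : Ω) (W : Submodule ℂ (Ω → ℂ)) (Λ : Finset (ZMod p)),
      WData G p x a₀ W Λ ∧ Λ.card = p - 1 ∧
      (∀ A : Matrix Ω Ω ℂ, CentC G A → ∀ f ∈ W, A.mulVec f = wch x a₀ b₀ p A 1 • f) ∧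
      (∀ k : ZMod p, k ≠ 0 → k ∈ Eset G x a₀ b₀ p) := by
  have : Fact p.Prime := ⟨hyp.hp⟩
  obtain ⟨b₀, hb₀⟩ := exists_b0 hyp a₀
  have core := core_of hyp a₀ b₀ hb₀
  have htr := wch_transfer hyp a₀ b₀
  have hspan := spanInt G
  have hcong := wch_cong hyp a₀ b₀ hb₀ core.scalU
  have hpt : IsPretransitive G Ω := hyp.hprim.toIsPretransitive
  obtain ⟨t, ht1, hmul, hrank'⟩ := rank_eq hyp a₀ b₀ hb₀ core htr hspan (finrank_centSub hpt a₀)
  have ht : t = 1 := by omega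
  subst ht
  rw [one_mul] at hmul
  have hsub : Eset G x a₀ b₀ p ⊆ {k : ZMod p | k ≠ 0} := fun k hk => hk.1
  have hcard : ({k : ZMod p | k ≠ 0} : Set (ZMod p)).ncard = p - 1 := by
    have : ({k : ZMod p | k ≠ 0} : Set (ZMod p)) = ({0} : Set (ZMod p))ᶜ := by
      ext k; simp
    rw [this, Set.ncard_compl, Set.ncard_singleton, Nat.card_eq_fintype_card, ZMod.card]
  have heq : Eset G x a₀ b₀ p = {k : ZMod p | k ≠ 0} :=
    Set.eq_of_subset_of_ncard_le hsub (by rw [hcard, hmul]) (Set.toFinite _)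
  have hfin : (Eset G x a₀ b₀ p).Finite := Set.toFinite _
  let Λ : Finset (ZMod p) := hfin.toFinset
  have hΛ : ∀ k, k ∈ Λ ↔ k ∈ Eset G x a₀ b₀ p := fun k => Set.Finite.mem_toFinset hfin
  have hcardΛ : Λ.card = (Eset G x a₀ b₀ p).ncard := (Set.ncard_eq_toFinset_card _ hfin).symm
  obtain ⟨hinv, heig, hsup, hscal⟩ := wdata_basic hyp a₀ b₀ hb₀ core hspan Λ hΛ
  have hirr := wdata_irr hyp a₀ b₀ hb₀ core hspan Λ hΛ hinv hscal
  have hrat := wdata_rat hyp a₀ b₀ hb₀ core htr hspan Λ hΛ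
  refine ⟨b₀, Wsp G p x a₀ Λ, Λ, ⟨hinv, hirr, ?_, heig, hsup, ?_, hrat⟩,
    by rw [hcardΛ, hmul], hscal, ?_⟩
  · intro h0
    exact ((hΛ 0).mp h0).1 rfl
  · intro A hA
    obtain ⟨u, hu, hwu⟩ := hcong A hA 1
    refine ⟨u, hu, fun f hf => ?_⟩
    have hAC : CentC G (A.map (Int.cast : ℤ → ℂ)) := by
      intro g hg i j
      simp only [Matrix.map_apply, hA g hg i j]
    rw [hscal _ hAC f hf, hwu]
  · intro k hk
    rw [heq]
    exact hk

/-- S4707, without the final identification with `A5` -/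
theorem main {p : ℕ} [Fact p.Prime] (hp : 3 < p) (hα : Fintype.card Ω = 2 * p)
    (G : Subgroup (Perm Ω)) (hprim : IsPreprimitive G Ω)
    (hnot2 : ¬ IsMultiplyPretransitive G Ω 2) (P : Sylow p G)
    (hN : Nat.card (Subgroup.normalizer ((P : Subgroup G) : Set G)) = 2 * p) :
    p = 5 ∧ Nat.card G = 60 ∧ IsSimpleGroup G := by
  classical
  have hpp : p.Prime := Fact.out
  letI : Fintype G := Fintype.ofFinite G
  have hPcard := card_sylow_of_normalizer (by omega) P hN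
  have hC := centralizer_eq_of_prim hα hprim P hPcard hN
  have he := relIndex_eq_two P hPcard hN hC
  have hsimple := simple_of_prim hα hprim P hPcard hN
  obtain ⟨x, hxG, hyp, hPx⟩ := exists_hyp (by omega) hα hprim hnot2 P hPcard
  haveI : Nonempty Ω := by
    rw [← Fintype.card_pos_iff, hα]
    have := hpp.pos
    omega
  obtain ⟨a₀⟩ := ‹Nonempty Ω›
  have hconcl := core_thm hyp a₀
  obtain ⟨b₀, W, Λ, hW, hΛcard, hscal, hE⟩ := la_wdata1 hyp a₀ hconcl.1
  obtain ⟨hfr, hbot, hsum⟩ := wdata_facts hyp hW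
  obtain ⟨χ, hχ⟩ := exists_irrChar G W hW.inv hW.irr
  obtain ⟨M, hM⟩ := Cfsg.Agent.H4.exists_isPModular hpp
  have hmem := Cfsg.Agent.H32.W2P.mem_principalBlock_of_cong hpp hyp.hp2 hW.inv hW.irr.1
    hW.cong χ hχ M hM
  have hχT : ∀ g : G, (χ : G → ℂ) g =
      LinearMap.trace ℂ W (Cfsg.Agent.H32.W2P.Tk hW.inv g) :=
    fun g => hχ g (Cfsg.Agent.H32.W2P.Tk hW.inv g) (fun f => rfl)
  have hχ1 : (χ : G → ℂ) 1 = (p : ℂ) - 1 := by
    rw [hχT 1, Cfsg.Agent.H32.W2P.Tk_one, LinearMap.trace_id, hfr, hΛcard,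
      Nat.cast_sub hpp.one_le, Nat.cast_one]
  -- rationality and integrality of `χ`
  have hscalq : ∀ A : Matrix Ω Ω ℤ, Cent G A → ∃ q : ℚ, ∀ f ∈ W,
      (A.map (Int.cast : ℤ → ℂ)).mulVec f = (q : ℂ) • f := by
    intro A hA
    have hAC : CentC G (A.map (Int.cast : ℤ → ℂ)) := by
      intro g hg i j
      simp only [Matrix.map_apply, hA g hg i j]
    obtain ⟨q, hq⟩ := wch_rat hpp x a₀ b₀ A (fun k hk => (hE k hk).2 A hA)
    exact ⟨q, fun f hf => by rw [hscal _ hAC f hf, hq]⟩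
  have hint : ∀ g : G, ∃ n : ℤ, (χ : G → ℂ) g = (n : ℂ) := by
    intro g
    obtain ⟨q, hq⟩ := chi_rat hW.inv hW.irr.1 hscalq χ hχ g
    have hi : IsIntegral ℤ (q : ℂ) := hq ▸ Cfsg.Agent.H4.isIntegral_irr χ g
    obtain ⟨y, hy⟩ := Cfsg.Agent.H4.exists_int_of_isIntegral_ratCast q hi
    refine ⟨y, ?_⟩
    rw [hq, ← hy]
    push_cast
    rfl
  choose c hc using hint
  have hc1 : c 1 = (p : ℤ) - 1 := by
    have h := hc 1
    rw [hχ1] at h
    have h' : ((c 1 : ℤ) : ℂ) = (((p : ℤ) - 1 : ℤ) : ℂ) := by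
      rw [← h]; push_cast; rfl
    exact_mod_cast h'
  -- faithfulness
  have hfaith : ∀ g : G, c g = (p : ℤ) - 1 → g = 1 := by
    intro g hg
    have h1 : (χ : G → ℂ) g = (χ : G → ℂ) 1 := by rw [hc g, hc 1, hg, hc1]
    have h2 := fix_of_chi_eq hW.inv χ hχ g h1
    have h3 := eq_one_of_fix hprim hW.inv hW.irr.1 hsum g⁻¹ h2
    exact inv_eq_one.mp h3
  -- Brauer
  obtain ⟨hχP, θ, hθ⟩ := blk hp M hM P hPcard he χ hmem hχ1
  have hcls : ∀ h g : G, (χ : G → ℂ) (h * g * h⁻¹) = (χ : G → ℂ) g := by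
    intro h g
    rw [hχT, hχT, Cfsg.Agent.H32.W2P.trace_Tk_conj]
  have hS : ∀ g ∈ Finset.univ.filter (fun g : G => p ∣ orderOf g), c g = -1 := by
    intro g hg
    have hg' : p ∣ orderOf g := (Finset.mem_filter.mp hg).2
    obtain ⟨h, hh⟩ := sing_conj P hPcard hC g hg'
    have hne : h * g * h⁻¹ ≠ 1 := by
      intro h1
      have hg1 : g = 1 := by
        have h2 : g = h⁻¹ * (h * g * h⁻¹) * h := by group
        rw [h2, h1]; group
      rw [hg1, orderOf_one] at hg'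
      exact hpp.one_lt.ne' (Nat.dvd_one.mp hg')
    have h3 := hχP _ hh hne
    rw [hcls, hc g] at h3
    have h4 : ((c g : ℤ) : ℂ) = ((-1 : ℤ) : ℂ) := by rw [h3]; push_cast; rfl
    exact_mod_cast h4
  have hθ' : ∀ g, g ∉ Finset.univ.filter (fun g : G => p ∣ orderOf g) →
      (θ : G → ℂ) g = (χ : G → ℂ) g - 1 := by
    intro g hg
    apply hθ
    intro hdvd
    exact hg (Finset.mem_filter.mpr ⟨Finset.mem_univ _, hdvd⟩)
  obtain ⟨h1, h2, hle, h3⟩ := char_numeric (Finset.univ.filter (fun g : G => p ∣ orderOf g))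
    χ θ c hc ((p : ℤ) - 1) (by omega) hc1 hS hθ'
  have hcount := sing_count P hPcard hC hN
  rw [Nat.card_eq_fintype_card] at hcount
  have hord := order_arith hp (Finset.univ.filter (fun g : G => p ∣ orderOf g)) c hS hcount
    h1 h2 h3 hle hc1 hfaith
  have hG : Nat.card G = p * (p - 1) * (p - 2) := by
    rw [Nat.card_eq_fintype_card]; exact hord
  have h5 := p_eq_five hpp hα hprim.toIsPretransitive a₀ hconcl hG
  refine ⟨h5, ?_, hsimple⟩
  rw [hG, h5]

end Cfsg.Agent.H74.PD
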