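import Cfsg.Agent.H74.SRingSchur

set_option autoImplicit false
set_option linter.unusedSectionVars false

/-!
# Burnside's theorem on cyclic B-groups of composite prime-power order (helper74)
-/

namespace Cfsg.Agent.H74.SR

open scoped Pointwise

variable {G Ω : Type*} [Group G] [MulAction G Ω] {n : ℕ} [NeZero n] {S : CSetup G Ω n}

lemma one_not_mem_mulSub {q : ℕ} (hq : q.Prime) (hqn : q ∣ n) : (1 : ZMod n) ∉ mulSub n q := by
  intro h1
  obtain ⟨t, ht⟩ := mem_mulSub.1 h1
  rw [nsmul_eq_mul] at ht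
  have hu : IsUnit (q : ZMod n) := IsUnit.of_mul_eq_one _ ht
  rw [ZMod.isUnit_iff_coprime] at hu
  have : q ∣ 1 := by
    have := Nat.dvd_gcd (dvd_refl q) hqn
    rwa [hu] at this
  exact hq.one_lt.ne' (Nat.dvd_one.1 this)

lemma coprime_of_not_mem_mulSub {p m : ℕ} (hp : p.Prime) (hn : n = p ^ m) {k : ZMod n}
    (hk : k ∉ mulSub n p) : k.val.Coprime n := by
  have h1 : ¬ p ∣ k.val := by
    rintro ⟨c, hc⟩
    apply hk
    rw [mem_mulSub]
    refine ⟨(c : ZMod n), ?_⟩
    rw [nsmul_eq_mul, ← Nat.cast_mul, ← hc, ZMod.natCast_zmod_val]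
  have h2 : p.Coprime k.val := (Nat.Prime.coprime_iff_not_dvd hp).2 h1
  have h3 : k.val.Coprime (p ^ m) := (Nat.Coprime.pow_left m h2).symm
  rwa [← hn] at h3

lemma val_coprime_of_isUnit {y : ZMod n} (hy : IsUnit y) : y.val.Coprime n := by
  apply (ZMod.isUnit_iff_coprime y.val n).1
  rwa [ZMod.natCast_zmod_val]

lemma isUnit_of_not_mem_mulSub {p m : ℕ} (hp : p.Prime) (hn : n = p ^ m) {k : ZMod n}
    (hk : k ∉ mulSub n p) : IsUnit k := by
  have := (ZMod.isUnit_iff_coprime k.val n).2 (coprime_of_not_mem_mulSub hp hn hk)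
  rwa [ZMod.natCast_zmod_val] at this

lemma val_nsmul (y t : ZMod n) : y.val • t = y * t := by
  rw [nsmul_eq_mul, ZMod.natCast_zmod_val]

/-- in a primitive action, a nontrivial invariant set is not inside the multiples of `q`. -/
lemma exists_not_mem_mulSub [MulAction.IsPreprimitive G Ω] {q : ℕ} (hq : q.Prime) (hqn : q ∣ n)
    {T : Set (ZMod n)} (hT : S.Inv T) {t : ZMod n} (ht : t ∈ T) (ht0 : t ≠ 0) :
    ∃ v ∈ T, v ∉ mulSub n q := by
  by_contra hcon
  push_neg at hcon
  have := hT.subset_zero_of_le (mulSub n q) (mulSub_ne_top hq hqn) (fun v hv => hcon v hv)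
  exact ht0 (this ht)

/-- in a primitive action, every nontrivial orbit contains an element killed by `q`. -/
lemma exists_ker_mem [MulAction.IsPreprimitive G Ω] {q : ℕ} (hq : q.Prime) (hqn : q ∣ n)
    {k : ZMod n} (hk : k ≠ 0) : ∃ t ∈ orbF S k, q • t = 0 := by
  haveI : Fact q.Prime := ⟨hq⟩
  have hT := inv_orbF (S := S) k
  have h0 : (0 : ZMod n) ∉ orbF S k := fun h => CSetup.zero_not_mem_orb hk (mem_orbF.1 h)
  have hne' : (orbF S k).Nonempty := ⟨k, mem_orbF.2 (CSetup.mem_orb_self k)⟩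
  by_contra hcon
  push_neg at hcon
  have hmem : ((n / q : ℕ) : ZMod n) ∈ stab (orbF S k) := by
    intro t ht
    have := inv_add_ker q hqn hT ht (hcon t ht) (w := -((n / q : ℕ) : ZMod n))
      (by rw [smul_neg, nsmul_div_eq_zero hqn, neg_zero])
    rwa [← sub_eq_add_neg] at this
  rw [stab_eq_bot hT hne' h0, AddSubgroup.mem_bot] at hmem
  exact div_ne_zero hq hqn hmem

/-- multipliers acting trivially on the kernel of `q` fix every orbit. -/
lemma orb_sc_stable [MulAction.IsPreprimitive G Ω] (hn1 : 1 < n) {q : ℕ} (hq : q.Prime)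
    (hqn : q ∣ n) {i : ZMod n} (hi : i ≠ 0) {u : ℕ} (hu : u.Coprime n)
    (huw : ∀ w : ZMod n, q • w = 0 → u • w = w) {t : ZMod n} (ht : t ∈ orbF S i) :
    u • t ∈ orbF S i := by
  obtain ⟨t₀, ht₀, ht₀q⟩ := exists_ker_mem (S := S) hq hqn hi
  have hT := inv_orbF (S := S) i
  have hInv := inv_sc hn1 u hu hT
  have h1 : t₀ ∈ sc u (orbF S i) := mem_sc.2 ⟨t₀, ht₀, huw t₀ ht₀q⟩
  have h2 : S.orb t₀ = S.orb i := CSetup.orb_eq_of_mem (mem_orbF.1 ht₀)
  have hsub : orbF S i ⊆ sc u (orbF S i) := by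
    intro x hx
    have hx' : x ∈ S.orb t₀ := by rw [h2]; exact mem_orbF.1 hx
    exact Finset.mem_coe.1 (hInv.orb_subset (Finset.mem_coe.2 h1) hx')
  have heq : orbF S i = sc u (orbF S i) :=
    Finset.eq_of_subset_of_card_le hsub (card_sc hu _).le
  have h3 : u • t ∈ sc u (orbF S i) := mem_sc.2 ⟨t, ht, rfl⟩
  rw [← heq] at h3
  exact h3

/-- away from the multiples of `p`, an orbit is a union of cosets of the multiples of `p`. -/
lemma orb_add_mulSub [MulAction.IsPreprimitive G Ω] {p m : ℕ} (hp : p.Prime) (hm : 1 ≤ m)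
    (hn : n = p ^ m) {i : ZMod n} (hi : i ≠ 0) {t k : ZMod n} (ht : t ∈ orbF S i)
    (htM : t ∉ mulSub n p) (hk : k ∈ mulSub n p) : t + k ∈ orbF S i := by
  have hpn : p ∣ n := by rw [hn]; exact dvd_pow_self p (by omega)
  have hn1 : 1 < n := by rw [hn]; exact Nat.one_lt_pow (by omega) hp.one_lt
  have htu : IsUnit t := isUnit_of_not_mem_mulSub hp hn htM
  obtain ⟨t', ht'⟩ := isUnit_iff_exists_inv.1 htu
  obtain ⟨k', hk'⟩ := mem_mulSub.1 hk
  obtain ⟨y, hy⟩ : ∃ y : ZMod n, y = 1 + t' * k := ⟨_, rfl⟩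
  have hyM : y ∉ mulSub n p := by
    intro h
    have h2 : t' * k ∈ mulSub n p := mem_mulSub.2 ⟨t' * k', by rw [← hk', mul_smul_comm]⟩
    have h3 : y - t' * k ∈ mulSub n p := AddSubgroup.sub_mem _ h h2
    rw [hy, add_sub_cancel_right] at h3
    exact one_not_mem_mulSub hp hpn h3
  have hyc : y.val.Coprime n := coprime_of_not_mem_mulSub hp hn hyM
  have huw : ∀ w : ZMod n, p • w = 0 → y.val • w = w := by
    intro w hw
    rw [val_nsmul, hy, ← hk']
    have hw' : (p : ZMod n) * w = 0 := by rwa [nsmul_eq_mul] at hw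
    rw [nsmul_eq_mul]
    linear_combination t' * k' * hw'
  have h4 := orb_sc_stable (S := S) hn1 hp hpn hi hyc huw ht
  rw [val_nsmul] at h4
  have : y * t = t + k := by rw [hy]; linear_combination k * ht'
  rwa [this] at h4

/-- transfer between two orbits by a unit multiplier. -/
lemma orb_transfer [MulAction.IsPreprimitive G Ω] (hn1 : 1 < n) {i j vi vj vi' vj' : ZMod n}
    (hvi : vi ∈ orbF S i) (hvj : vj ∈ orbF S j) (hi' : vi * vi' = 1) (hj' : vj * vj' = 1)
    {t : ZMod n} (ht : t ∈ orbF S i) : (vj * vi').val • t ∈ orbF S j := by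
  have hunit : IsUnit (vi * vj') :=
    IsUnit.of_mul_eq_one (vj * vi') (by linear_combination vj * vj' * hi' + hj')
  have hc : (vi * vj').val.Coprime n := val_coprime_of_isUnit hunit
  have hInv := inv_sc hn1 _ hc (inv_orbF (S := S) j)
  have h1 : vi ∈ sc (vi * vj').val (orbF S j) :=
    mem_sc.2 ⟨vj, hvj, by rw [val_nsmul]; linear_combination vi * hj'⟩
  have h2 : S.orb vi = S.orb i := CSetup.orb_eq_of_mem (mem_orbF.1 hvi)
  have h3 : t ∈ sc (vi * vj').val (orbF S j) := by
    have ht' : t ∈ S.orb vi := by rw [h2]; exact mem_orbF.1 ht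
    exact Finset.mem_coe.1 (hInv.orb_subset (Finset.mem_coe.2 h1) ht')
  obtain ⟨t₂, ht₂, h4⟩ := mem_sc.1 h3
  rw [val_nsmul] at h4
  rw [val_nsmul, ← h4]
  have : vj * vi' * (vi * vj' * t₂) = t₂ := by
    linear_combination (vj * vj' * t₂) * hi' + t₂ * hj'
  rw [this]; exact ht₂

open Classical in
/-- the level-set argument: if an invariant set `T` is, away from a subgroup `M`, a union of
`M`-cosets, and `T ∩ M` is small, then `M` is invariant. -/
lemma inv_of_level {T : Finset (ZMod n)} {M : AddSubgroup (ZMod n)}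
    (hT : S.Inv (T : Set (ZMod n)))
    (hstep : ∀ t ∈ T, t ∉ M → ∀ k ∈ M, t + k ∈ T)
    (hne : ∃ v ∈ T, v ∉ M)
    (hcount : 2 * (T.filter (fun t => t ∈ M)).card + 1 ≤
      (Finset.univ.filter (fun k : ZMod n => k ∈ M)).card)
    (hgen : ∀ k : ZMod n, k ∉ M → ∀ v : ZMod n, ∃ j : ℕ, j • k = v) :
    S.Inv ((M : AddSubgroup (ZMod n)) : Set (ZMod n)) := by
  have hmono : ∀ x : G, S.act x 0 = 0 → ∀ k : ZMod n,
      (T.filter (fun t => t - k ∈ T)).card ≤ (T.filter (fun t => t - S.act x k ∈ T)).card := by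
    intro x hx k
    apply Finset.card_le_card_of_injOn (S.act x)
    · intro t ht
      rw [Finset.mem_coe, Finset.mem_filter] at ht ⊢
      exact ⟨hT x hx t ht.1, (hT.sub_iff x k t).2 ht.2⟩
    · exact (S.act_injective x).injOn
  have hin : ∀ k ∈ M, (T.filter (fun t => t ∉ M)).card ≤ (T.filter (fun t => t - k ∈ T)).card := by
    intro k hk
    apply Finset.card_le_card
    intro t ht
    rw [Finset.mem_filter] at ht ⊢
    refine ⟨ht.1, ?_⟩
    have := hstep t ht.1 ht.2 (-k) (M.neg_mem hk)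
    rwa [← sub_eq_add_neg] at this
  have hout : ∀ k, k ∉ M →
      (T.filter (fun t => t - k ∈ T)).card < (T.filter (fun t => t ∉ M)).card := by
    intro k hk
    have hex : ∃ t₀ ∈ T, t₀ ∉ M ∧ ¬ (t₀ - k ∈ T ∧ t₀ - k ∉ M) := by
      by_contra hcon
      push_neg at hcon
      obtain ⟨v, hv, hvM⟩ := hne
      have hall : ∀ j : ℕ, v - j • k ∈ T ∧ v - j • k ∉ M := by
        intro j
        induction j with
        | zero => simpa using ⟨hv, hvM⟩
        | succ j ih =>
          have h1 := hcon _ ih.1 ih.2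
          have e : v - (j + 1) • k = v - j • k - k := by rw [succ_nsmul]; ring
          rw [e]
          exact h1
      obtain ⟨j, hj⟩ := hgen k hk v
      have := (hall j).2
      rw [hj, sub_self] at this
      exact this M.zero_mem
    obtain ⟨t₀, ht₀, ht₀M, ht₀k⟩ := hex
    obtain ⟨A, hA⟩ : ∃ A : Finset (ZMod n),
        A = T.filter (fun t => t ∉ M ∧ (t - k ∈ T ∧ t - k ∉ M)) := ⟨_, rfl⟩
    obtain ⟨D, hD⟩ : ∃ D : Finset (ZMod n),
        D = (Finset.univ.filter (fun μ : ZMod n => μ ∈ M)).image (fun μ => t₀ + μ) := ⟨_, rfl⟩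
    have hAD : A ∪ D ⊆ T.filter (fun t => t ∉ M) := by
      intro t ht
      rw [Finset.mem_union] at ht
      rw [Finset.mem_filter]
      rcases ht with ht | ht
      · rw [hA, Finset.mem_filter] at ht
        exact ⟨ht.1, ht.2.1⟩
      · rw [hD, Finset.mem_image] at ht
        obtain ⟨μ, hμ, rfl⟩ := ht
        rw [Finset.mem_filter] at hμ
        refine ⟨hstep t₀ ht₀ ht₀M μ hμ.2, fun h => ht₀M ?_⟩
        have := M.sub_mem h hμ.2
        rwa [add_sub_cancel_right] at this
    have hdisj : Disjoint A D := by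
      rw [Finset.disjoint_left]
      intro t htA htD
      rw [hA, Finset.mem_filter] at htA
      rw [hD, Finset.mem_image] at htD
      obtain ⟨μ, hμ, rfl⟩ := htD
      rw [Finset.mem_filter] at hμ
      apply ht₀k
      obtain ⟨_, _, h1, h2⟩ := htA
      have h3 := hstep _ h1 h2 (-μ) (M.neg_mem hμ.2)
      have e : t₀ + μ - k + -μ = t₀ - k := by ring
      rw [e] at h3
      refine ⟨h3, fun h => h2 ?_⟩
      have := M.add_mem h hμ.2
      have e2 : t₀ - k + μ = t₀ + μ - k := by ring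
      rwa [e2] at this
    have hDcard : D.card = (Finset.univ.filter (fun μ : ZMod n => μ ∈ M)).card := by
      rw [hD]
      exact Finset.card_image_of_injective _ (add_right_injective t₀)
    have h1 : A.card + D.card ≤ (T.filter (fun t => t ∉ M)).card := by
      rw [← Finset.card_union_of_disjoint hdisj]
      exact Finset.card_le_card hAD
    have hcov : T.filter (fun t => t - k ∈ T) ⊆
        A ∪ (T.filter (fun t => t ∈ M) ∪ (T.filter (fun t => t ∈ M)).image (fun t => t + k)) := by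
      intro t ht
      rw [Finset.mem_filter] at ht
      rw [Finset.mem_union, Finset.mem_union, Finset.mem_image]
      by_cases h1 : t ∈ M
      · right; left; exact Finset.mem_filter.2 ⟨ht.1, h1⟩
      · by_cases h2 : t - k ∈ M
        · right; right
          exact ⟨t - k, Finset.mem_filter.2 ⟨ht.2, h2⟩, by ring⟩
        · left
          rw [hA, Finset.mem_filter]
          exact ⟨ht.1, h1, ht.2, h2⟩
    have h2 := Finset.card_le_card hcov
    have h3 := Finset.card_union_le A
      (T.filter (fun t => t ∈ M) ∪ (T.filter (fun t => t ∈ M)).image (fun t => t + k))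
    have h4 := Finset.card_union_le (T.filter (fun t => t ∈ M))
      ((T.filter (fun t => t ∈ M)).image (fun t => t + k))
    have h5 : ((T.filter (fun t => t ∈ M)).image (fun t => t + k)).card ≤
        (T.filter (fun t => t ∈ M)).card := Finset.card_image_le
    omega
  intro x hx k hk
  by_contra hnot
  have h1 := hin k hk
  have h2 := hmono x hx k
  have h3 := hout (S.act x k) (fun h => hnot h)
  omega

/-- **Burnside**: in a primitive group with a regular cyclic subgroup of order `p ^ m`, `m ≥ 2`,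
the point stabilizer is transitive on the remaining points. -/
theorem burnside_trans [MulAction.IsPreprimitive G Ω] {p m : ℕ} (hp : p.Prime) (hm : 2 ≤ m)
    (hn : n = p ^ m) (i j : ZMod n) (hi : i ≠ 0) (hj : j ≠ 0) :
    ∃ x : G, S.act x 0 = 0 ∧ S.act x i = j := by
  classical
  by_contra hcon
  have hpn : p ∣ n := by rw [hn]; exact dvd_pow_self p (by omega)
  have hn1 : 1 < n := by rw [hn]; exact Nat.one_lt_pow (by omega) hp.one_lt
  have hm1 : 1 ≤ m := by omega
  have hT := inv_orbF (S := S) i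
  have hij : ∀ t, t ∈ orbF S i → t ∉ orbF S j := by
    intro t hti htj
    have h1 := CSetup.orb_eq_of_mem (mem_orbF.1 hti)
    have h2 := CSetup.orb_eq_of_mem (mem_orbF.1 htj)
    apply hcon
    have : j ∈ S.orb i := by rw [← h1, h2]; exact CSetup.mem_orb_self j
    exact this
  have h0i : (0 : ZMod n) ∉ orbF S i := fun h => CSetup.zero_not_mem_orb hi (mem_orbF.1 h)
  have h0j : (0 : ZMod n) ∉ orbF S j := fun h => CSetup.zero_not_mem_orb hj (mem_orbF.1 h)
  obtain ⟨vi, hvi, hviM⟩ := exists_not_mem_mulSub (S := S) hp hpn (CSetup.inv_orb i)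
    (CSetup.mem_orb_self i) hi
  obtain ⟨vj, hvj, hvjM⟩ := exists_not_mem_mulSub (S := S) hp hpn (CSetup.inv_orb j)
    (CSetup.mem_orb_self j) hj
  have hvi' : vi ∈ orbF S i := mem_orbF.2 hvi
  have hvj' : vj ∈ orbF S j := mem_orbF.2 hvj
  obtain ⟨wi, hwi⟩ := isUnit_iff_exists_inv.1 (isUnit_of_not_mem_mulSub hp hn hviM)
  obtain ⟨wj, hwj⟩ := isUnit_iff_exists_inv.1 (isUnit_of_not_mem_mulSub hp hn hvjM)
  have hstep : ∀ t ∈ orbF S i, t ∉ mulSub n p → ∀ k ∈ mulSub n p, t + k ∈ orbF S i :=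
    fun t ht htM k hk => orb_add_mulSub (S := S) hp hm1 hn hi ht htM hk
  have hcount : 2 * ((orbF S i).filter (fun t => t ∈ mulSub n p)).card + 1 ≤
      (Finset.univ.filter (fun k : ZMod n => k ∈ mulSub n p)).card := by
    obtain ⟨Tm, hTm⟩ : ∃ Tm : Finset (ZMod n),
        Tm = (orbF S i).filter (fun t => t ∈ mulSub n p) := ⟨_, rfl⟩
    rw [← hTm]
    obtain ⟨b, hb⟩ : ∃ b : ℕ, b = (vj * wi).val := ⟨_, rfl⟩
    have hbc : b.Coprime n := by
      rw [hb]
      exact val_coprime_of_isUnit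
        (IsUnit.of_mul_eq_one (vi * wj) (by linear_combination vj * wj * hwi + hwj))
    have htr : ∀ t ∈ Tm, b • t ∈ orbF S j := by
      intro t ht
      rw [hTm, Finset.mem_filter] at ht
      rw [hb]
      exact orb_transfer (S := S) hn1 hvi' hvj' hwi hwj ht.1
    have hsub : insert 0 (Tm ∪ Tm.image (fun t => b • t)) ⊆
        Finset.univ.filter (fun k : ZMod n => k ∈ mulSub n p) := by
      intro x hx
      rw [Finset.mem_insert, Finset.mem_union, Finset.mem_image] at hx
      rw [Finset.mem_filter]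
      refine ⟨Finset.mem_univ _, ?_⟩
      rcases hx with rfl | hx | ⟨t, ht, rfl⟩
      · exact (mulSub n p).zero_mem
      · rw [hTm, Finset.mem_filter] at hx
        exact hx.2
      · rw [hTm, Finset.mem_filter] at ht
        exact (mulSub n p).nsmul_mem ht.2 b
    have hdisj : Disjoint Tm (Tm.image (fun t => b • t)) := by
      rw [Finset.disjoint_left]
      intro x hx hx'
      obtain ⟨t, ht, rfl⟩ := Finset.mem_image.1 hx'
      have h1 := htr t ht
      rw [hTm, Finset.mem_filter] at hx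
      exact hij _ hx.1 h1
    have h0 : (0 : ZMod n) ∉ Tm ∪ Tm.image (fun t => b • t) := by
      rw [Finset.mem_union, Finset.mem_image]
      rintro (h | ⟨t, ht, h⟩)
      · rw [hTm, Finset.mem_filter] at h
        exact h0i h.1
      · have h1 := htr t ht
        rw [h] at h1
        exact h0j h1
    have hcard := Finset.card_le_card hsub
    rw [Finset.card_insert_of_notMem h0, Finset.card_union_of_disjoint hdisj,
      Finset.card_image_of_injective _ (nsmul_injective_of_coprime hbc)] at hcard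
    omega
  have hInvM : S.Inv ((mulSub n p : AddSubgroup (ZMod n)) : Set (ZMod n)) := by
    apply inv_of_level (S := S) (T := orbF S i) hT hstep ⟨vi, hvi', hviM⟩ hcount
    intro k hk v
    obtain ⟨k', hk'⟩ := isUnit_iff_exists_inv.1 (isUnit_of_not_mem_mulSub hp hn hk)
    refine ⟨(v * k').val, ?_⟩
    rw [val_nsmul]; linear_combination v * hk'
  rcases CSetup.prim_subgroup (S := S) (mulSub n p) hInvM with h | h
  · have h1 : p • (1 : ZMod n) ∈ mulSub n p := mem_mulSub.2 ⟨1, rfl⟩
    rw [h, AddSubgroup.mem_bot, nsmul_eq_mul, mul_one, ZMod.natCast_eq_zero_iff] at h1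
    rw [hn] at h1
    have h2 : p ^ m ≤ p := Nat.le_of_dvd hp.pos h1
    have h3 : p ^ 2 ≤ p ^ m := Nat.pow_le_pow_right hp.pos hm
    have h4 : p < p ^ 2 := by nlinarith [hp.one_lt]
    omega
  · exact mulSub_ne_top hp hpn h

end Cfsg.Agent.H74.SR
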