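import Mathlib
import Cfsg.Agent.H74.Basic

set_option autoImplicit false

namespace Cfsg.Agent.H74

open scoped commutatorElement

/-- In a solvable group, a proper subgroup `M` admits a normal subgroup `A ≰ M` with `[A, A] ≤ M`. -/
theorem exists_normal_not_le_commutator_le {G : Type*} [Group G] [Group.IsSolvable G]
    (M : Subgroup G) (hM : M ≠ ⊤) :
    ∃ A : Subgroup G, A.Normal ∧ ¬ A ≤ M ∧ ⁅A, A⁆ ≤ M := by
  classical
  have hex : ∃ n, derivedSeries G n ≤ M := by
    obtain ⟨n, hn⟩ := Group.IsSolvable.solvable (G := G)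
    exact ⟨n, hn ▸ bot_le⟩
  have h0 : Nat.find hex ≠ 0 := by
    intro h
    have := Nat.find_spec hex
    rw [h, derivedSeries_zero] at this
    exact hM (top_le_iff.mp this)
  obtain ⟨j, hj⟩ := Nat.exists_eq_succ_of_ne_zero h0
  refine ⟨derivedSeries G j, derivedSeries_normal G j, ?_, ?_⟩
  · exact Nat.find_min hex (by omega)
  · have := Nat.find_spec hex
    rw [hj, derivedSeries_succ] at this
    exact this

/-- The index of a maximal subgroup of a finite solvable group is a prime power. -/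
theorem exists_prime_pow_index_of_coatom {G : Type*} [Group G] [Finite G] [Group.IsSolvable G]
    (M : Subgroup G) (hM : IsCoatom M) :
    ∃ p k : ℕ, p.Prime ∧ M.index = p ^ k := by
  obtain ⟨A, hAn, hAM, hAA⟩ := exists_normal_not_le_commutator_le M hM.1
  have hsup : M ⊔ A = ⊤ := by
    apply hM.2
    refine lt_of_le_of_ne le_sup_left ?_
    intro h
    exact hAM (h ▸ le_sup_right)
  set N₀ : Subgroup G := A ⊓ M with hN₀
  have hAAN : ⁅A, A⁆ ≤ N₀ := le_inf (Subgroup.commutator_le_left A A) hAA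
  -- N₀ is normal
  have key : ∀ g, (g ∈ M ∨ g ∈ A) → ∀ n ∈ N₀, g * n * g⁻¹ ∈ N₀ := by
    rintro g (hg | hg) n hn
    · exact ⟨hAn.conj_mem n hn.1 g, M.mul_mem (M.mul_mem hg hn.2) (M.inv_mem hg)⟩
    · have h1 : ⁅g, n⁆ ∈ N₀ := hAAN (Subgroup.commutator_mem_commutator hg hn.1)
      have h2 : g * n * g⁻¹ = ⁅g, n⁆ * n := by rw [commutatorElement_def]; group
      rw [h2]
      exact N₀.mul_mem h1 hn
  have hnorm : Subgroup.normalizer (N₀ : Set G) = ⊤ := by
    rw [eq_top_iff, ← hsup]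
    apply sup_le
    · intro g hg
      rw [Subgroup.mem_normalizer_iff]
      intro n
      constructor
      · exact fun hn => key g (Or.inl hg) n hn
      · intro hn
        have := key g⁻¹ (Or.inl (M.inv_mem hg)) _ hn
        simpa [mul_assoc] using this
    · intro g hg
      rw [Subgroup.mem_normalizer_iff]
      intro n
      constructor
      · exact fun hn => key g (Or.inr hg) n hn
      · intro hn
        have := key g⁻¹ (Or.inr (A.inv_mem hg)) _ hn
        simpa [mul_assoc] using this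
  have hN₀n : N₀.Normal := Subgroup.normalizer_eq_top_iff.mp hnorm
  set π := QuotientGroup.mk' N₀ with hπ
  set Ā : Subgroup (G ⧸ N₀) := A.map π with hĀ
  have hĀn : Ā.Normal := hAn.map π (QuotientGroup.mk'_surjective N₀)
  have hcomm : ∀ x ∈ Ā, ∀ y ∈ Ā, x * y = y * x := by
    rintro _ ⟨a, ha, rfl⟩ _ ⟨b, hb, rfl⟩
    rw [← map_mul, ← map_mul]
    apply (QuotientGroup.eq).mpr
    have h1 : ⁅b⁻¹, a⁻¹⁆ ∈ N₀ :=
      hAAN (Subgroup.commutator_mem_commutator (A.inv_mem hb) (A.inv_mem ha))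
    have h2 : (a * b)⁻¹ * (b * a) = ⁅b⁻¹, a⁻¹⁆ := by rw [commutatorElement_def]; group
    rw [h2]; exact h1
  have hĀne : Nat.card Ā ≠ 1 := by
    intro h
    rw [Subgroup.card_eq_one] at h
    apply hAM
    intro a ha
    have : π a ∈ Ā := Subgroup.mem_map_of_mem π ha
    rw [h, Subgroup.mem_bot] at this
    have h3 : a ∈ N₀ := (QuotientGroup.eq_one_iff a).mp this
    exact h3.2
  set p := (Nat.card Ā).minFac with hp
  have hpp : p.Prime := Nat.minFac_prime hĀne
  have : Fact p.Prime := ⟨hpp⟩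
  obtain ⟨x, hx⟩ := exists_prime_orderOf_dvd_card' (G := Ā) p (Nat.minFac_dvd _)
  -- the subgroup of elements of order dividing p in Ā
  let Bq : Subgroup (G ⧸ N₀) :=
    { carrier := {y | y ∈ Ā ∧ y ^ p = 1}
      one_mem' := ⟨Ā.one_mem, one_pow p⟩
      mul_mem' := by
        rintro a b ⟨ha, ha'⟩ ⟨hb, hb'⟩
        refine ⟨Ā.mul_mem ha hb, ?_⟩
        have hc : Commute a b := hcomm a ha b hb
        rw [hc.mul_pow, ha', hb', one_mul]
      inv_mem' := by
        rintro a ⟨ha, ha'⟩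
        exact ⟨Ā.inv_mem ha, by rw [inv_pow, ha', inv_one]⟩ }
  have hBqmem : ∀ y, y ∈ Bq ↔ y ∈ Ā ∧ y ^ p = 1 := fun y => Iff.rfl
  have hBqn : Bq.Normal := by
    constructor
    intro n hn g
    rw [hBqmem] at hn ⊢
    exact ⟨hĀn.conj_mem n hn.1 g, by rw [conj_pow, hn.2]; group⟩
  have hBqp : IsPGroup p Bq := by
    intro g
    refine ⟨1, ?_⟩
    apply Subtype.ext
    rw [Subgroup.coe_pow, pow_one]
    exact g.2.2
  obtain ⟨k, hk⟩ := (IsPGroup.iff_card).mp hBqp
  set B : Subgroup G := Bq.comap π with hB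
  have hBn : B.Normal := hBqn.comap π
  -- an element of B outside M
  have hxĀ : (x : G ⧸ N₀) ∈ Ā := x.2
  obtain ⟨a₀, ha₀A, ha₀⟩ := hxĀ
  have hx1 : (x : G ⧸ N₀) ≠ 1 := by
    intro h
    have : x = 1 := Subtype.ext h
    rw [this, orderOf_one] at hx
    exact hpp.one_lt.ne hx
  have hxp : (x : G ⧸ N₀) ^ p = 1 := by
    have := pow_orderOf_eq_one x
    rw [hx] at this
    have h := congrArg Subtype.val this
    rwa [Subgroup.coe_pow, Subgroup.coe_one] at h
  have ha₀B : a₀ ∈ B := by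
    rw [hB, Subgroup.mem_comap, ha₀, hBqmem]
    exact ⟨x.2, hxp⟩
  have ha₀M : a₀ ∉ M := by
    intro h
    have h3 : a₀ ∈ N₀ := ⟨ha₀A, h⟩
    have : π a₀ = 1 := (QuotientGroup.eq_one_iff a₀).mpr h3
    rw [ha₀] at this
    exact hx1 this
  have hsupB : M ⊔ B = ⊤ := by
    apply hM.2
    refine lt_of_le_of_ne le_sup_left ?_
    intro h
    exact ha₀M (h ▸ (le_sup_right : B ≤ M ⊔ B) ha₀B)
  have hBA : B ≤ A := by
    intro y hy
    have hy' : π y ∈ Ā := ((hBqmem _).mp hy).1
    obtain ⟨a, ha, hay⟩ := hy'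
    have h3 : a⁻¹ * y ∈ N₀ := (QuotientGroup.eq).mp hay
    have : y = a * (a⁻¹ * y) := by group
    rw [this]
    exact A.mul_mem ha h3.1
  have hN₀B : N₀ ≤ B := by
    intro y hy
    rw [hB, Subgroup.mem_comap]
    have : π y = 1 := (QuotientGroup.eq_one_iff y).mpr hy
    rw [this]; exact Bq.one_mem
  have e1 : M.index = M.relIndex B := by
    rw [← relIndex_sup_eq_relIndex_of_normal M B, hsupB, Subgroup.relIndex_top_right]
  have e2 : M.relIndex B = N₀.relIndex B := by
    rw [← Subgroup.inf_relIndex_right M B, ← Subgroup.inf_relIndex_right N₀ B]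
    congr 1
    ext y
    simp only [Subgroup.mem_inf]
    constructor
    · rintro ⟨h1, h2⟩
      exact ⟨⟨hBA h2, h1⟩, h2⟩
    · rintro ⟨h1, h2⟩
      exact ⟨h1.2, h2⟩
  have e3 : N₀.relIndex B = Nat.card Bq := by
    have h1 : π.ker.relIndex B = Nat.card (B.map π) := Subgroup.relIndex_ker _ π
    rw [hπ, QuotientGroup.ker_mk'] at h1
    rw [h1, hB, ← hπ, Subgroup.map_comap_eq_self_of_surjective (QuotientGroup.mk'_surjective N₀)]
  exact ⟨p, k, hpp, by rw [e1, e2, e3, hk]⟩

end Cfsg.Agent.H74
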